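import Mathlib

/-!
# Abelian supplements to a normal subgroup with abelian quotient

Helper library for S3911 (helper27).
-/

set_option autoImplicit false

namespace Cfsg.Agent.Helper27

universe u

open scoped commutatorElement

/-- If `A / N` is abelian, `P` is a Sylow `p`-subgroup of `A` not contained in `N`, and either
`p ∤ |N|` or `P` is cyclic, then the normalizer of `P` centralizes `P`. -/
theorem ablift_central_aux {A : Type*} [Group A] [Finite A] (N : Subgroup A)
    (hcomm : ∀ x y : A, x * y * x⁻¹ * y⁻¹ ∈ N) (p : ℕ) [hp : Fact p.Prime] (P : Sylow p A)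
    (hPN : ¬ (P : Subgroup A) ≤ N)
    (hcyc : p ∣ Nat.card N → IsCyclic (P : Subgroup A)) :
    ∀ a ∈ Subgroup.normalizer ((P : Subgroup A) : Set A), ∀ s ∈ (P : Subgroup A),
      a * s = s * a := by
  intro a ha s hs
  by_cases hpN : p ∣ Nat.card N
  · have := hcyc hpN
    have hPab : ∀ x ∈ (P : Subgroup A), ∀ y ∈ (P : Subgroup A), x * y = y * x := by
      intro x hx y hy
      obtain ⟨g, hg⟩ := IsCyclic.exists_generator (α := (P : Subgroup A))
      obtain ⟨i, hi⟩ := Subgroup.mem_zpowers_iff.mp (hg ⟨x, hx⟩)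
      obtain ⟨j, hj⟩ := Subgroup.mem_zpowers_iff.mp (hg ⟨y, hy⟩)
      have hx' : x = (g : A) ^ i := by
        have := congrArg Subtype.val hi; simpa using this.symm
      have hy' : y = (g : A) ^ j := by
        have := congrArg Subtype.val hj; simpa using this.symm
      rw [hx', hy', ← zpow_add, ← zpow_add, add_comm]
    -- p'-elements of the normalizer centralize P
    have key1 : ∀ b ∈ Subgroup.normalizer ((P : Subgroup A) : Set A),
        (Nat.card (Subgroup.zpowers b)).Coprime p → ∀ s ∈ (P : Subgroup A), b * s = s * b := by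
      intro b hb hcop s hs
      have hK : Subgroup.zpowers b ≤ Subgroup.normalizer ((P : Subgroup A) : Set A) :=
        (Subgroup.zpowers_le).mpr hb
      obtain ⟨k, hk⟩ := P.2.exists_card_eq
      have hcop' : (Nat.card (P : Subgroup A)).Coprime (Nat.card (Subgroup.zpowers b)) := by
        rw [hk]; exact (Nat.Coprime.pow_left k hcop.symm)
      rcases IsPGroup.commutator_eq_bot_or_commutator_eq_self P.2 hK hcop' with h | h
      · have h1 : ⁅b, s⁆ ∈ ⁅Subgroup.zpowers b, (P : Subgroup A)⁆ :=
          Subgroup.commutator_mem_commutator (Subgroup.mem_zpowers b) hs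
        rw [h, Subgroup.mem_bot, commutatorElement_def] at h1
        have h2 : b * s * b⁻¹ = s := by
          have := mul_inv_eq_one.mp h1; exact this
        calc b * s = b * s * b⁻¹ * b := by group
          _ = s * b := by rw [h2]
      · exfalso
        apply hPN
        rw [← h, Subgroup.commutator_le]
        intro x _ y _
        rw [commutatorElement_def]
        exact hcomm x y
    -- p-elements of the normalizer lie in P
    have key2 : ∀ b ∈ Subgroup.normalizer ((P : Subgroup A) : Set A),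
        IsPGroup p (Subgroup.zpowers b) → ∀ s ∈ (P : Subgroup A), b * s = s * b := by
      intro b hb hpg s hs
      have hbP : b ∈ (P : Subgroup A) := by
        have h2 := hpg.inf_normalizer_sylow P
        have h1 : b ∈ Subgroup.zpowers b ⊓ Subgroup.normalizer (P : Set A) :=
          ⟨Subgroup.mem_zpowers b, hb⟩
        rw [h2] at h1
        exact h1.2
      exact hPab b hbP s hs
    -- split a into its p-part and p'-part
    have hn0 : orderOf a ≠ 0 := (orderOf_pos a).ne'
    obtain ⟨e, m', hm', hn⟩ := Nat.exists_eq_pow_mul_and_not_dvd hn0 p hp.out.ne_one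
    have hb1 : ∀ s ∈ (P : Subgroup A), a ^ (p ^ e) * s = s * a ^ (p ^ e) := by
      apply key1 _ (Subgroup.pow_mem _ ha _)
      rw [Nat.card_zpowers]
      have h1 : orderOf (a ^ (p ^ e)) ∣ m' := by
        apply orderOf_dvd_of_pow_eq_one
        rw [← pow_mul, ← hn, pow_orderOf_eq_one]
      exact (Nat.Coprime.coprime_dvd_left h1 ((Nat.Prime.coprime_iff_not_dvd hp.out).mpr hm').symm)
    have hb2 : ∀ s ∈ (P : Subgroup A), a ^ m' * s = s * a ^ m' := by
      apply key2 _ (Subgroup.pow_mem _ ha _)
      apply IsPGroup.of_card (n := Nat.factorization (orderOf (a ^ m')) p)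
      rw [Nat.card_zpowers]
      have h1 : orderOf (a ^ m') ∣ p ^ e := by
        apply orderOf_dvd_of_pow_eq_one
        rw [← pow_mul, mul_comm, ← hn, pow_orderOf_eq_one]
      obtain ⟨i, _, hi⟩ := (Nat.dvd_prime_pow hp.out).mp h1
      rw [hi, Nat.Prime.factorization_pow hp.out]
      simp
    have hcop : IsCoprime ((p ^ e : ℕ) : ℤ) (m' : ℤ) := by
      rw [Nat.isCoprime_iff_coprime]
      exact Nat.Coprime.pow_left e ((Nat.Prime.coprime_iff_not_dvd hp.out).mpr hm')
    obtain ⟨x, y, hxy⟩ := hcop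
    have ha' : a = (a ^ (p ^ e)) ^ x * (a ^ m') ^ y := by
      rw [← zpow_natCast a (p ^ e), ← zpow_natCast a m', ← zpow_mul, ← zpow_mul, ← zpow_add]
      have : ((p ^ e : ℕ) : ℤ) * x + (m' : ℤ) * y = 1 := by linarith
      rw [this, zpow_one]
    have c1 : Commute (a ^ (p ^ e)) s := hb1 s hs
    have c2 : Commute (a ^ m') s := hb2 s hs
    have c3 : Commute ((a ^ (p ^ e)) ^ x * (a ^ m') ^ y) s :=
      (c1.zpow_left x).mul_left (c2.zpow_left y)
    rw [← ha'] at c3
    exact c3
  · have hinf : (P : Subgroup A) ⊓ N = ⊥ := by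
      apply (Subgroup.disjoint_of_coprime_natCard _).eq_bot
      obtain ⟨k, hk⟩ := P.2.exists_card_eq
      rw [hk]
      exact Nat.Coprime.pow_left k ((Nat.Prime.coprime_iff_not_dvd hp.out).mpr hpN)
    have hc : a * s * a⁻¹ * s⁻¹ ∈ (P : Subgroup A) ⊓ N :=
      ⟨Subgroup.mul_mem _ ((Subgroup.mem_normalizer_iff.mp ha s).mp hs) (Subgroup.inv_mem _ hs),
        hcomm a s⟩
    rw [hinf, Subgroup.mem_bot] at hc
    have h2 : a * s * a⁻¹ = s := mul_inv_eq_one.mp hc
    calc a * s = a * s * a⁻¹ * a := by group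
      _ = s * a := by rw [h2]

/-- Any subgroup containing `N` is normal when `A / N` is abelian. -/
theorem ablift_normal_of_le {A : Type*} [Group A] (N : Subgroup A)
    (hcomm : ∀ x y : A, x * y * x⁻¹ * y⁻¹ ∈ N) (X : Subgroup A) (hX : N ≤ X) : X.Normal := by
  refine ⟨fun x hx g => ?_⟩
  have h : g * x * g⁻¹ = (g * x * g⁻¹ * x⁻¹) * x := by group
  rw [h]
  exact X.mul_mem (hX (hcomm g x)) hx

/-- The elements of the centre whose order involves only primes dividing `n`. -/
def ablift_torsion (A : Type*) [Group A] (n : ℕ) : Subgroup A where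
  carrier := {g | g ∈ Subgroup.center A ∧
    ∃ m : ℕ, 0 < m ∧ (∀ q : ℕ, q.Prime → q ∣ m → q ∣ n) ∧ g ^ m = 1}
  mul_mem' := by
    rintro a b ⟨ha, m, hm, hmq, ham⟩ ⟨hb, m', hm', hmq', hbm⟩
    refine ⟨Subgroup.mul_mem _ ha hb, m * m', Nat.mul_pos hm hm', ?_, ?_⟩
    · intro q hq hdvd
      rcases (Nat.Prime.dvd_mul hq).mp hdvd with h | h
      · exact hmq q hq h
      · exact hmq' q hq h
    · have hc : Commute a b := Subgroup.mem_center_iff.mp hb a
      rw [hc.mul_pow, pow_mul, ham, one_pow, pow_mul', hbm, one_pow, one_mul]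
  one_mem' := ⟨Subgroup.one_mem _, 1, Nat.one_pos,
    fun q hq h => absurd (Nat.dvd_one.mp h) hq.ne_one, pow_one 1⟩
  inv_mem' := by
    rintro a ⟨ha, m, hm, hmq, ham⟩
    exact ⟨Subgroup.inv_mem _ ha, m, hm, hmq, by rw [inv_pow, ham, inv_one]⟩

theorem mem_ablift_torsion {A : Type*} [Group A] {n : ℕ} {g : A} :
    g ∈ ablift_torsion A n ↔ g ∈ Subgroup.center A ∧
      ∃ m : ℕ, 0 < m ∧ (∀ q : ℕ, q.Prime → q ∣ m → q ∣ n) ∧ g ^ m = 1 := Iff.rfl

/-- Abelian supplement: if `A / N` is abelian and the Sylow `p`-subgroups of `A` are cyclic for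
every prime `p` dividing both `|A : N|` and `|N|`, then `N` has an abelian supplement whose order
involves only primes dividing `|A : N|`. -/
theorem ablift_exists : ∀ (n : ℕ) (A : Type u) [Group A] [Finite A] (N : Subgroup A) [N.Normal],
    Nat.card A = n → (∀ x y : A, x * y * x⁻¹ * y⁻¹ ∈ N) →
    (∀ p : ℕ, p.Prime → p ∣ N.index → p ∣ Nat.card N →
      ∀ P : Sylow p A, IsCyclic (P : Subgroup A)) →
    ∃ A₀ : Subgroup A, (∀ x ∈ A₀, ∀ y ∈ A₀, x * y = y * x) ∧ A₀ ⊔ N = ⊤ ∧
      ∀ p : ℕ, p.Prime → p ∣ Nat.card A₀ → p ∣ N.index := by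
  intro n
  induction n using Nat.strong_induction_on with
  | _ n ih =>
  intro A _ _ N _ hn hcomm hcyc
  by_cases hgood : ∀ p : ℕ, p.Prime → p ∣ N.index →
      ∀ P : Sylow p A, (P : Subgroup A) ≤ Subgroup.center A
  · refine ⟨ablift_torsion A N.index, ?_, ?_, ?_⟩
    · intro x _ y hy
      exact Subgroup.mem_center_iff.mp (mem_ablift_torsion.mp hy).1 x
    · rw [← Subgroup.index_eq_one]
      by_contra hne
      obtain ⟨p, hp, hpdvd⟩ := Nat.exists_prime_and_dvd hne
      have : Fact p.Prime := ⟨hp⟩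
      have hpN : p ∣ N.index := hpdvd.trans (Subgroup.index_dvd_of_le le_sup_right)
      obtain ⟨P⟩ : Nonempty (Sylow p A) := inferInstance
      have hPT : (P : Subgroup A) ≤ ablift_torsion A N.index := by
        intro g hg
        rw [mem_ablift_torsion]
        refine ⟨hgood p hp hpN P hg, ?_⟩
        obtain ⟨k, hk⟩ := P.2 ⟨g, hg⟩
        refine ⟨p ^ k, pow_pos hp.pos k, ?_, ?_⟩
        · intro q hq hdvd
          have h : q = p := (Nat.prime_dvd_prime_iff_eq hq hp).mp (hq.dvd_of_dvd_pow hdvd)
          rw [h]; exact hpN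
        · have h := congrArg Subtype.val hk
          simpa using h
      have h1 : (ablift_torsion A N.index ⊔ N).index ∣ (P : Subgroup A).index :=
        Subgroup.index_dvd_of_le (hPT.trans le_sup_left)
      exact P.not_dvd_index (hpdvd.trans h1)
    · intro p hp hpdvd
      have : Fact p.Prime := ⟨hp⟩
      obtain ⟨x, hx⟩ := exists_prime_orderOf_dvd_card' p hpdvd
      obtain ⟨-, m, hm, hmq, hxm⟩ := mem_ablift_torsion.mp x.2
      apply hmq p hp
      rw [← hx, ← Subgroup.orderOf_coe]
      exact orderOf_dvd_of_pow_eq_one hxm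
  · push_neg at hgood
    obtain ⟨p, hp, hpN, P, hPc⟩ := hgood
    have : Fact p.Prime := ⟨hp⟩
    have hPN : ¬ (P : Subgroup A) ≤ N := by
      intro h
      exact P.not_dvd_index (hpN.trans (Subgroup.index_dvd_of_le h))
    have hcent := ablift_central_aux N hcomm p P hPN (fun h => hcyc p hp hpN h P)
    obtain ⟨A₁, hA₁⟩ : ∃ A₁ : Subgroup A, A₁ = Subgroup.normalizer ((P : Subgroup A) : Set A) :=
      ⟨_, rfl⟩
    have hsup : A₁ ⊔ N = ⊤ := by
      have : ((P : Subgroup A) ⊔ N).Normal := ablift_normal_of_le N hcomm _ le_sup_right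
      have h1 : Subgroup.normalizer ((P : Subgroup A) : Set A) ⊔ ((P : Subgroup A) ⊔ N) = ⊤ :=
        Sylow.normalizer_sup_eq_top' P (le_sup_left : (P : Subgroup A) ≤ (P : Subgroup A) ⊔ N)
      have h2 : (P : Subgroup A) ≤ A₁ := hA₁ ▸ Subgroup.le_normalizer
      rw [eq_top_iff, ← h1, ← hA₁]
      exact sup_le le_sup_left (sup_le (h2.trans le_sup_left) le_sup_right)
    have hne : A₁ ≠ ⊤ := by
      intro h
      apply hPc
      intro s hs
      rw [Subgroup.mem_center_iff]
      intro g
      exact hcent g (hA₁ ▸ h ▸ Subgroup.mem_top g) s hs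
    have hlt : Nat.card A₁ < n := by
      rw [← hn]
      exact lt_of_le_of_ne (Subgroup.card_le_card_group A₁)
        (fun h => hne ((Subgroup.card_eq_iff_eq_top A₁).mp h))
    have hidx : (N.subgroupOf A₁).index = N.index := by
      have h := Subgroup.relIndex_sup_right (H := A₁) (K := N)
      rw [hsup, Subgroup.relIndex_top_right] at h
      exact h.symm
    have hcard : Nat.card (N.subgroupOf A₁) ∣ Nat.card N := by
      let f : ↥(N.subgroupOf A₁) →* ↥N :=
        ((A₁.subtype).comp (N.subgroupOf A₁).subtype).codRestrict N (fun x => x.2)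
      apply Subgroup.card_dvd_of_injective f
      intro x y hxy
      have h := congrArg Subtype.val hxy
      exact Subtype.ext (Subtype.ext h)
    obtain ⟨A₀', hc', hs', hp'⟩ := ih (Nat.card A₁) hlt ↥A₁ (N.subgroupOf A₁) rfl
      (fun x y => by
        rw [Subgroup.mem_subgroupOf]
        simpa using hcomm (x : A) (y : A))
      (fun q hq hqi hqc Q => by
        have : Fact q.Prime := ⟨hq⟩
        rw [hidx] at hqi
        have hqN : q ∣ Nat.card N := hqc.trans hcard
        obtain ⟨P', hP'⟩ := (Q.2.map A₁.subtype).exists_le_sylow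
        have := hcyc q hq hqi hqN P'
        let f : ↥(Q : Subgroup ↥A₁) →* ↥(P' : Subgroup A) :=
          ((A₁.subtype).comp (Q : Subgroup ↥A₁).subtype).codRestrict (P' : Subgroup A)
            (fun x => hP' (Subgroup.mem_map_of_mem _ x.2))
        apply isCyclic_of_injective f
        intro x y hxy
        have h := congrArg Subtype.val hxy
        exact Subtype.ext (Subtype.ext h))
    refine ⟨A₀'.map A₁.subtype, ?_, ?_, ?_⟩
    · rintro x ⟨x', hx', rfl⟩ y ⟨y', hy', rfl⟩
      have h := congrArg Subtype.val (hc' x' hx' y' hy')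
      simpa using h
    · have h1 : (A₀' ⊔ N.subgroupOf A₁).map A₁.subtype = A₁ := by
        rw [hs', ← MonoidHom.range_eq_map, Subgroup.range_subtype]
      rw [Subgroup.map_sup, Subgroup.subgroupOf_map_subtype] at h1
      rw [eq_top_iff, ← hsup]
      refine sup_le ?_ le_sup_right
      exact h1.ge.trans (sup_le le_sup_left (inf_le_left.trans le_sup_right))
    · intro q hq hqd
      rw [Subgroup.card_map_of_injective A₁.subtype_injective] at hqd
      rw [← hidx]
      exact hp' q hq hqd

end Cfsg.Agent.Helper27
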