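import Cfsg.Agent.S3908
import Cfsg.Agent.S3909
import Cfsg.Agent.Helper27.AbLift
import Cfsg.Agent.Helper27.AbLift2

/-!
# Lifting abelian subgroups of `G ⧸ M`: general version (helper27, for S3912)
-/

set_option autoImplicit false

namespace Cfsg.Agent.Helper27

/-- Sylow subgroups of a subgroup `H` are cyclic when all `p`-subgroups of `G` inside `H` are. -/
theorem ablift_sylow_cyclic_sub {G : Type*} [Group G] (H : Subgroup G) (p : ℕ) [Fact p.Prime]
    (h : ∀ S : Subgroup G, S ≤ H → IsPGroup p S → IsCyclic S) (Q : Sylow p ↥H) :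
    IsCyclic (Q : Subgroup ↥H) := by
  have hS := h ((Q : Subgroup ↥H).map H.subtype) (by rintro _ ⟨x, -, rfl⟩; exact x.2)
    (Q.2.map H.subtype)
  let f : ↥(Q : Subgroup ↥H) →* ↥((Q : Subgroup ↥H).map H.subtype) :=
    ((H.subtype).comp (Q : Subgroup ↥H).subtype).codRestrict _
      (fun x => Subgroup.mem_map_of_mem _ x.2)
  apply isCyclic_of_injective f
  intro x y hxy
  have h := congrArg Subtype.val hxy
  exact Subtype.ext (Subtype.ext h)

/-- The lifting lemma: an abelian subgroup `Ab` of `G ⧸ M` is the image of an abelian subgroup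
`A₀` of `G` whose order is determined by `|Ab|` and `M`. -/
theorem ablift_quot_gen {G : Type*} [Group G] [Finite G]
    (hB : ∀ A B : Subgroup G, IsMulCommutative ↥A → IsMulCommutative ↥B →
      Nat.card ↥A = Nat.card ↥B → ∃ g : G, B = A.map (MulAut.conj g).toMonoidHom)
    (M : Subgroup G) [M.Normal]
    (Ab : Subgroup (G ⧸ M)) (hAb : IsMulCommutative ↥Ab)
    (hcyc : ∀ p : ℕ, p.Prime → p ∣ Nat.card M → p ∣ Nat.card Ab → ∀ S : Subgroup G,
      S ≤ Ab.comap (QuotientGroup.mk' M) → IsPGroup p S → IsCyclic S) :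
    ∃ A₀ : Subgroup G, IsMulCommutative ↥A₀ ∧ A₀ ⊔ M = Ab.comap (QuotientGroup.mk' M) ∧
      ∀ p : ℕ, p.Prime → (Nat.card A₀).factorization p =
        if p ∣ Nat.card Ab then (Nat.card Ab).factorization p + (Nat.card M).factorization p
        else 0 := by
  classical
  obtain ⟨A, hA⟩ : ∃ A : Subgroup G, A = Ab.comap (QuotientGroup.mk' M) := ⟨_, rfl⟩
  have hMA : M ≤ A := by
    intro x hx
    rw [hA, Subgroup.mem_comap]
    have h1 : (QuotientGroup.mk' M) x = 1 := (QuotientGroup.eq_one_iff x).mpr hx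
    rw [h1]; exact Ab.one_mem
  have hAb0 : Nat.card Ab ≠ 0 := Nat.card_pos.ne'
  have hM0 : Nat.card M ≠ 0 := Nat.card_pos.ne'
  have hAbdvd : Nat.card Ab ∣ M.index := by
    rw [Subgroup.index_eq_card]
    exact Subgroup.card_subgroup_dvd_card Ab
  have hidxA : M.relIndex A = Nat.card Ab := by
    have h1 : M.relIndex A * A.index = M.index := Subgroup.relIndex_mul_index hMA
    have h2 : A.index = Ab.index := by
      rw [hA]; exact Subgroup.index_comap_of_surjective Ab (QuotientGroup.mk'_surjective M)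
    have h3 : Nat.card Ab * Ab.index = Nat.card (G ⧸ M) := Subgroup.card_mul_index Ab
    have h4 : M.index = Nat.card (G ⧸ M) := Subgroup.index_eq_card M
    have h5 : Ab.index ≠ 0 := Subgroup.index_ne_zero_of_finite
    rw [h2, h4, ← h3] at h1
    exact Nat.eq_of_mul_eq_mul_right (Nat.pos_of_ne_zero h5) h1
  have hcomm : ∀ x y : ↥A, x * y * x⁻¹ * y⁻¹ ∈ M.subgroupOf A := by
    intro x y
    rw [Subgroup.mem_subgroupOf]
    have hmemA : ∀ g : G, g ∈ A → (QuotientGroup.mk' M) g ∈ Ab := by
      intro g hg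
      rw [hA, Subgroup.mem_comap] at hg
      exact hg
    have hx : (QuotientGroup.mk' M) (x : G) ∈ Ab := hmemA _ x.2
    have hy : (QuotientGroup.mk' M) (y : G) ∈ Ab := hmemA _ y.2
    have hc : (QuotientGroup.mk' M) (x : G) * (QuotientGroup.mk' M) (y : G) =
        (QuotientGroup.mk' M) (y : G) * (QuotientGroup.mk' M) (x : G) := by
      have h := mul_comm' (⟨_, hx⟩ : ↥Ab) ⟨_, hy⟩
      exact congrArg Subtype.val h
    have h1 : (QuotientGroup.mk' M) ((x : G) * (y : G) * (x : G)⁻¹ * (y : G)⁻¹) = 1 := by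
      rw [map_mul, map_mul, map_mul, map_inv, map_inv, hc]
      group
    have h2 : ((x : G) * (y : G) * (x : G)⁻¹ * (y : G)⁻¹) ∈ M :=
      (QuotientGroup.eq_one_iff _).mp h1
    simpa using h2
  have hcardMA : Nat.card (M.subgroupOf A) = Nat.card M :=
    Nat.card_congr (Subgroup.subgroupOfEquivOfLe hMA).toEquiv
  obtain ⟨A₀', hc', hs', hp'⟩ := ablift_exists (Nat.card A) ↥A (M.subgroupOf A) rfl hcomm
    (fun p hp hpi hpc Q => by
      have : Fact p.Prime := ⟨hp⟩
      have hpi' : p ∣ Nat.card Ab := by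
        have h : p ∣ M.relIndex A := hpi
        rw [hidxA] at h
        exact h
      rw [hcardMA] at hpc
      exact ablift_sylow_cyclic_sub A p
        (fun S hS hSp => hcyc p hp hpc hpi' S (by rw [← hA]; exact hS) hSp) Q)
  have hsupA : A₀'.map A.subtype ⊔ M = A := by
    have h1 : (A₀' ⊔ M.subgroupOf A).map A.subtype = A := by
      rw [hs', ← MonoidHom.range_eq_map, Subgroup.range_subtype]
    rw [Subgroup.map_sup, Subgroup.subgroupOf_map_subtype, inf_of_le_left hMA] at h1
    exact h1
  obtain ⟨A₀, hA₀⟩ : ∃ A₀ : Subgroup G, A₀ = A₀'.map A.subtype := ⟨_, rfl⟩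
  rw [← hA₀] at hsupA
  have hcardA₀' : Nat.card A₀ = Nat.card A₀' := by
    rw [hA₀, Subgroup.card_map_of_injective A.subtype_injective]
  refine ⟨A₀, ?_, ?_, ?_⟩
  · apply IsMulCommutative.of_setLike_mul_comm
    intro a ha b hb
    rw [hA₀] at ha hb
    obtain ⟨a', ha', rfl⟩ := ha
    obtain ⟨b', hb', rfl⟩ := hb
    have h := congrArg Subtype.val (hc' a' ha' b' hb')
    simpa using h
  · rw [hsupA, hA]
  · intro p hp
    have : Fact p.Prime := ⟨hp⟩
    -- the subgroup `M ∩ A₀` of `A₀`
    have h_idx0 : (M.subgroupOf A₀).index = Nat.card Ab := by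
      have h := Subgroup.relIndex_sup_right (H := A₀) (K := M)
      rw [hsupA, hidxA] at h
      exact h.symm
    have hcardA₀ : Nat.card A₀ = Nat.card (M.subgroupOf A₀) * Nat.card Ab := by
      rw [← h_idx0]; exact (Subgroup.card_mul_index (M.subgroupOf A₀)).symm
    have hd0 : Nat.card (M.subgroupOf A₀) ≠ 0 := Nat.card_pos.ne'
    have hd_dvd : Nat.card (M.subgroupOf A₀) ∣ Nat.card M := by
      let f : ↥(M.subgroupOf A₀) →* ↥M :=
        ((A₀.subtype).comp (M.subgroupOf A₀).subtype).codRestrict M (fun x => x.2)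
      apply Subgroup.card_dvd_of_injective f
      intro x y hxy
      have h := congrArg Subtype.val hxy
      exact Subtype.ext (Subtype.ext h)
    by_cases hpAb : p ∣ Nat.card Ab
    · rw [if_pos hpAb, hcardA₀, Nat.factorization_mul hd0 hAb0, Finsupp.add_apply]
      suffices hsuff : (Nat.card (M.subgroupOf A₀)).factorization p =
          (Nat.card M).factorization p by omega
      apply le_antisymm
      · exact (Nat.factorization_le_iff_dvd hd0 hM0).mpr hd_dvd p
      · by_cases hpM : p ∣ Nat.card M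
        · apply (hp.pow_dvd_iff_le_factorization hd0).mp
          obtain ⟨PM⟩ : Nonempty (Sylow p ↥M) := inferInstance
          have := ablift_sylow_cyclic_sub M p
            (fun S hS hSp => hcyc p hp hpM hpAb S (by rw [← hA]; exact hS.trans hMA) hSp) PM
          obtain ⟨m₀, hm₀⟩ := IsCyclic.exists_ofOrder_eq_natCard (α := ↥(PM : Subgroup ↥M))
          have hPMcard : Nat.card (PM : Subgroup ↥M) = p ^ (Nat.card M).factorization p :=
            PM.card_eq_multiplicity
          obtain ⟨m₁, hm₁M, hm₁o⟩ : ∃ m₁ : G, m₁ ∈ M ∧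
              orderOf m₁ = p ^ (Nat.card M).factorization p := by
            refine ⟨((m₀ : ↥M) : G), (m₀ : ↥M).2, ?_⟩
            rw [Subgroup.orderOf_coe, Subgroup.orderOf_coe, hm₀, hPMcard]
          obtain ⟨T'⟩ : Nonempty (Sylow p ↥A₀) := inferInstance
          have hT'not : ¬ (T' : Subgroup ↥A₀) ≤ M.subgroupOf A₀ := by
            intro hle
            have h1 : (M.subgroupOf A₀).index ∣ (T' : Subgroup ↥A₀).index :=
              Subgroup.index_dvd_of_le hle
            rw [h_idx0] at h1
            exact T'.not_dvd_index (hpAb.trans h1)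
          obtain ⟨t, htT, htN⟩ := SetLike.not_le_iff_exists.mp hT'not
          have htM : (t : G) ∉ M := fun h => htN (Subgroup.mem_subgroupOf.mpr h)
          obtain ⟨j, hj⟩ : ∃ j, orderOf (t : G) = p ^ j := by
            obtain ⟨j, hj⟩ := T'.2 ⟨t, htT⟩
            have h1 : (t : G) ^ (p ^ j) = 1 := by
              have h := congrArg Subtype.val (congrArg Subtype.val hj)
              simpa using h
            obtain ⟨i, _, hi⟩ := (Nat.dvd_prime_pow hp).mp (orderOf_dvd_of_pow_eq_one h1)
            exact ⟨i, hi⟩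
          have hjk : (Nat.card M).factorization p < j := by
            by_contra hle
            rw [not_lt] at hle
            apply htM
            apply (Cfsg.Agent.S3909.result hB M).1 (t : G)
            refine ⟨m₁ ^ (p ^ ((Nat.card M).factorization p - j)), M.pow_mem hm₁M _, ?_⟩
            rw [orderOf_pow_of_dvd (pow_ne_zero _ hp.ne_zero)
              (by rw [hm₁o]; exact pow_dvd_pow p (Nat.sub_le _ j)), hm₁o, hj,
              Nat.pow_div (Nat.sub_le _ j) hp.pos, Nat.sub_sub_self hle]
          have ht'o : orderOf ((t : G) ^ (p ^ (j - (Nat.card M).factorization p))) =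
              p ^ (Nat.card M).factorization p := by
            rw [orderOf_pow_of_dvd (pow_ne_zero _ hp.ne_zero)
              (by rw [hj]; exact pow_dvd_pow p (Nat.sub_le j _)), hj,
              Nat.pow_div (Nat.sub_le j _) hp.pos, Nat.sub_sub_self hjk.le]
          have ht'M : (t : G) ^ (p ^ (j - (Nat.card M).factorization p)) ∈ M :=
            (Cfsg.Agent.S3909.result hB M).1 _ ⟨m₁, hm₁M, by rw [hm₁o, ht'o]⟩
          have hmem : t ^ (p ^ (j - (Nat.card M).factorization p)) ∈ M.subgroupOf A₀ := by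
            rw [Subgroup.mem_subgroupOf]
            simpa using ht'M
          have ho : orderOf (⟨t ^ (p ^ (j - (Nat.card M).factorization p)), hmem⟩ :
              ↥(M.subgroupOf A₀)) = p ^ (Nat.card M).factorization p := by
            rw [Subgroup.orderOf_mk, ← Subgroup.orderOf_coe]
            simpa using ht'o
          rw [← ho]
          exact orderOf_dvd_natCard _
        · rw [Nat.factorization_eq_zero_of_not_dvd hpM]; exact Nat.zero_le _
    · rw [if_neg hpAb]
      apply Nat.factorization_eq_zero_of_not_dvd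
      intro hdvd
      apply hpAb
      rw [hcardA₀'] at hdvd
      have h := hp' p hp hdvd
      have h' : p ∣ M.relIndex A := h
      rw [hidxA] at h'
      exact h'


/-- Two abelian subgroups of `G ⧸ M` of the same order, both liftable, are conjugate. -/
theorem conjB_pair {G : Type*} [Group G] [Finite G]
    (hB : ∀ A B : Subgroup G, IsMulCommutative ↥A → IsMulCommutative ↥B →
      Nat.card ↥A = Nat.card ↥B → ∃ g : G, B = A.map (MulAut.conj g).toMonoidHom)
    (M : Subgroup G) [M.Normal]
    (Ab Bb : Subgroup (G ⧸ M)) (hAc : IsMulCommutative ↥Ab) (hBc : IsMulCommutative ↥Bb)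
    (hcard : Nat.card ↥Ab = Nat.card ↥Bb)
    (hcycA : ∀ p : ℕ, p.Prime → p ∣ Nat.card M → p ∣ Nat.card Ab → ∀ S : Subgroup G,
      S ≤ Ab.comap (QuotientGroup.mk' M) → IsPGroup p S → IsCyclic S)
    (hcycB : ∀ p : ℕ, p.Prime → p ∣ Nat.card M → p ∣ Nat.card Bb → ∀ S : Subgroup G,
      S ≤ Bb.comap (QuotientGroup.mk' M) → IsPGroup p S → IsCyclic S) :
    ∃ g : G ⧸ M, Bb = Ab.map (MulAut.conj g).toMonoidHom := by
  obtain ⟨A₀, hA₀c, hA₀sup, hA₀f⟩ := ablift_quot_gen hB M Ab hAc hcycA
  obtain ⟨B₀, hB₀c, hB₀sup, hB₀f⟩ := ablift_quot_gen hB M Bb hBc hcycB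
  have hcard0 : Nat.card A₀ = Nat.card B₀ := by
    apply Nat.eq_of_factorization_eq Nat.card_pos.ne' Nat.card_pos.ne'
    intro p
    by_cases hp : p.Prime
    · rw [hA₀f p hp, hB₀f p hp, hcard]
    · rw [Nat.factorization_eq_zero_of_not_prime _ hp,
        Nat.factorization_eq_zero_of_not_prime _ hp]
  obtain ⟨g, hg⟩ := hB A₀ B₀ hA₀c hB₀c hcard0
  refine ⟨(QuotientGroup.mk' M) g, ?_⟩
  have hAb : Ab = A₀.map (QuotientGroup.mk' M) := by
    have h1 := Subgroup.map_comap_eq_self_of_surjective (QuotientGroup.mk'_surjective M) Ab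
    rw [← hA₀sup, Subgroup.map_sup, QuotientGroup.map_mk'_self, sup_bot_eq] at h1
    exact h1.symm
  have hBb : Bb = B₀.map (QuotientGroup.mk' M) := by
    have h1 := Subgroup.map_comap_eq_self_of_surjective (QuotientGroup.mk'_surjective M) Bb
    rw [← hB₀sup, Subgroup.map_sup, QuotientGroup.map_mk'_self, sup_bot_eq] at h1
    exact h1.symm
  rw [hBb, hAb, hg, Subgroup.map_map, Subgroup.map_map]
  congr 1

/-- Under the conjugacy hypothesis: if `p` divides both `|M|` and `|G : M|` and a Sylow
`p`-subgroup is cyclic or of exponent `p`, then it is cyclic. -/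
theorem sylow_cyclic_of_exp {G : Type*} [Group G] [Finite G]
    (hB : ∀ A B : Subgroup G, IsMulCommutative ↥A → IsMulCommutative ↥B →
      Nat.card ↥A = Nat.card ↥B → ∃ g : G, B = A.map (MulAut.conj g).toMonoidHom)
    (M : Subgroup G) [M.Normal] (p : ℕ) [hp : Fact p.Prime]
    (hpM : p ∣ Nat.card M) (hpi : p ∣ M.index) (P : Sylow p G)
    (h : IsCyclic (P : Subgroup G) ∨ ∀ x ∈ (P : Subgroup G), x ^ p = 1) :
    IsCyclic (P : Subgroup G) := by
  rcases h with h | h
  · exact h
  · exfalso
    obtain ⟨m, hm⟩ := exists_prime_orderOf_dvd_card' (G := ↥M) p hpM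
    have hPM : (P : Subgroup G) ≤ M := by
      intro x hx
      by_cases hx1 : x = 1
      · rw [hx1]; exact M.one_mem
      · apply (Cfsg.Agent.S3909.result hB M).1 x
        refine ⟨(m : G), m.2, ?_⟩
        rw [Subgroup.orderOf_coe, hm]
        exact (orderOf_eq_prime (h x hx) hx1).symm
    exact P.not_dvd_index (hpi.trans (Subgroup.index_dvd_of_le hPM))

/-- A `p`-subgroup is cyclic when some Sylow `p`-subgroup is. -/
theorem cyclic_of_sylow_cyclic {G : Type*} [Group G] [Finite G] (p : ℕ) [Fact p.Prime]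
    (P : Sylow p G) (hP : IsCyclic (P : Subgroup G)) (S : Subgroup G) (hS : IsPGroup p S) :
    IsCyclic S := by
  obtain ⟨Q, hQ⟩ := hS.exists_le_sylow
  obtain ⟨g, hg⟩ := MulAction.exists_smul_eq G P Q
  have hQc : IsCyclic (Q : Subgroup G) := by
    rw [← hg]
    exact isCyclic_of_surjective (P.equivSMul g) (P.equivSMul g).surjective
  exact isCyclic_of_injective (Subgroup.inclusion hQ) (Subgroup.inclusion_injective hQ)

end Cfsg.Agent.Helper27
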