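import Mathlib

/-!
# Conjugacy of abelian subgroups from conjugacy of their odd parts (helper27, for S3912)

If `8 ∤ |H|` and abelian subgroups of equal order not divisible by `4` are conjugate, then all
abelian subgroups of equal order are conjugate.
-/

set_option autoImplicit false

namespace Cfsg.Agent.Helper27

theorem abl4_comm_of_mem {H : Type*} [Group H] {A : Subgroup H} (hA : IsMulCommutative ↥A)
    {a b : H} (ha : a ∈ A) (hb : b ∈ A) : a * b = b * a := by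
  have h := mul_comm' (⟨a, ha⟩ : ↥A) ⟨b, hb⟩
  exact congrArg Subtype.val h

theorem abl4_comm_of_le {H : Type*} [Group H] {A X : Subgroup H} (hA : IsMulCommutative ↥A)
    (hX : X ≤ A) : IsMulCommutative ↥X := by
  apply IsMulCommutative.of_setLike_mul_comm
  intro a ha b hb
  exact abl4_comm_of_mem hA (hX ha) (hX hb)

theorem abl4_exists_parts {H : Type*} [Group H] [Finite H] (h8 : ¬ 8 ∣ Nat.card H)
    (A : Subgroup H) (hA : IsMulCommutative ↥A) (h4 : 4 ∣ Nat.card ↥A) :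
    ∃ S X : Subgroup H, S ≤ A ∧ X ≤ A ∧ Nat.card S = 4 ∧ Nat.card X * 4 = Nat.card A := by
  classical
  haveI : Fact (Nat.Prime 2) := ⟨Nat.prime_two⟩
  obtain ⟨T⟩ : Nonempty (Sylow 2 ↥A) := inferInstance
  have hAdvd : Nat.card ↥A ∣ Nat.card H := Subgroup.card_subgroup_dvd_card A
  have h8A : ¬ 8 ∣ Nat.card ↥A := fun h => h8 (h.trans hAdvd)
  have hA0 : Nat.card ↥A ≠ 0 := Nat.card_pos.ne'
  have hT4 : Nat.card (T : Subgroup ↥A) = 4 := by
    have h1 := T.card_eq_multiplicity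
    have h2 : 2 ≤ (Nat.card ↥A).factorization 2 :=
      (Nat.Prime.pow_dvd_iff_le_factorization Nat.prime_two hA0).1 h4
    have h3 : ¬ 3 ≤ (Nat.card ↥A).factorization 2 := fun h =>
      h8A ((Nat.Prime.pow_dvd_iff_le_factorization Nat.prime_two hA0).2 h)
    have h4' : (Nat.card ↥A).factorization 2 = 2 := by omega
    rw [h1, h4']; norm_num
  haveI hTn : (T : Subgroup ↥A).Normal := ⟨fun n hn g => by
    rw [mul_comm' g n, mul_inv_cancel_right]; exact hn⟩
  obtain ⟨K, hK⟩ := Subgroup.exists_left_complement'_of_coprime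
    (N := (T : Subgroup ↥A)) T.card_coprime_index
  refine ⟨(T : Subgroup ↥A).map A.subtype, K.map A.subtype, ?_, ?_, ?_, ?_⟩
  · rintro _ ⟨x, -, rfl⟩; exact x.2
  · rintro _ ⟨x, -, rfl⟩; exact x.2
  · rw [Subgroup.card_map_of_injective A.subtype_injective, hT4]
  · rw [Subgroup.card_map_of_injective A.subtype_injective, ← hT4]
    exact hK.card_mul_card

set_option maxHeartbeats 800000 in
theorem conjB_of_odd_part {H : Type*} [Group H] [Finite H] (h8 : ¬ 8 ∣ Nat.card H)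
    (hB0 : ∀ A B : Subgroup H, IsMulCommutative ↥A → IsMulCommutative ↥B →
      Nat.card ↥A = Nat.card ↥B → ¬ 4 ∣ Nat.card ↥A →
      ∃ g : H, B = A.map (MulAut.conj g).toMonoidHom)
    (A B : Subgroup H) (hA : IsMulCommutative ↥A) (hBc : IsMulCommutative ↥B)
    (hcard : Nat.card ↥A = Nat.card ↥B) (h4 : 4 ∣ Nat.card ↥A) :
    ∃ g : H, B = A.map (MulAut.conj g).toMonoidHom := by
  classical
  haveI : Fact (Nat.Prime 2) := ⟨Nat.prime_two⟩
  obtain ⟨SA, XA, hSA, hXA, hSAc, hXAc⟩ := abl4_exists_parts h8 A hA h4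
  obtain ⟨SB, XB, hSB, hXB, hSBc, hXBc⟩ := abl4_exists_parts h8 B hBc (hcard ▸ h4)
  have hXcard : Nat.card XA = Nat.card XB := by
    have h : Nat.card XA * 4 = Nat.card XB * 4 := by rw [hXAc, hXBc, hcard]
    omega
  have hBdvd : Nat.card ↥B ∣ Nat.card H := Subgroup.card_subgroup_dvd_card B
  have hXB2 : ¬ 2 ∣ Nat.card ↥XB := by
    intro h
    apply h8
    have h1 : 2 * 4 ∣ Nat.card ↥B := by
      rw [← hXBc]; exact Nat.mul_dvd_mul h (dvd_refl 4)
    exact h1.trans hBdvd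
  have hXodd : ¬ 4 ∣ Nat.card ↥XA := by
    intro h
    rw [hXcard] at h
    exact hXB2 (Dvd.dvd.trans (by norm_num : (2 : ℕ) ∣ 4) h)
  obtain ⟨g, hg⟩ := hB0 XA XB (abl4_comm_of_le hA hXA) (abl4_comm_of_le hBc hXB) hXcard hXodd
  have hH0 : Nat.card H ≠ 0 := Nat.card_pos.ne'
  have hfac : (Nat.card H).factorization 2 = 2 := by
    have h2 : 2 ≤ (Nat.card H).factorization 2 :=
      (Nat.Prime.pow_dvd_iff_le_factorization Nat.prime_two hH0).1
        (h4.trans (Subgroup.card_subgroup_dvd_card A))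
    have h3 : ¬ 3 ≤ (Nat.card H).factorization 2 := fun h =>
      h8 ((Nat.Prime.pow_dvd_iff_le_factorization Nat.prime_two hH0).2 h)
    omega
  let P₁ : Sylow 2 H := Sylow.ofCard SA (by rw [hSAc, hfac]; norm_num)
  let P₂ : Sylow 2 H := Sylow.ofCard SB (by rw [hSBc, hfac]; norm_num)
  have hP₁ : (P₁ : Subgroup H) = SA := Sylow.coe_ofCard _ _
  have hP₂ : (P₂ : Subgroup H) = SB := Sylow.coe_ofCard _ _
  have hmem_smul : ∀ (k : H) (y : H),
      y ∈ ((k • P₁ : Sylow 2 H) : Subgroup H) ↔ k⁻¹ * y * k ∈ SA := by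
    intro k y
    rw [Sylow.coe_subgroup_smul, Subgroup.mem_pointwise_smul_iff_inv_smul_mem, hP₁,
      MulAut.smul_def, MulAut.conj_inv_apply]
  let C : Subgroup H := Subgroup.centralizer (XB : Set H)
  have h1C : ((g • P₁ : Sylow 2 H) : Subgroup H) ≤ C := by
    intro y hy
    rw [hmem_smul] at hy
    rw [Subgroup.mem_centralizer_iff]
    intro x' hx'
    have hx'' : x' ∈ XA.map (MulAut.conj g).toMonoidHom := by rw [← hg]; exact hx'
    obtain ⟨x, hx, rfl⟩ := hx''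
    have hc := abl4_comm_of_mem hA (hXA hx) (hSA hy)
    show g * x * g⁻¹ * y = y * (g * x * g⁻¹)
    calc g * x * g⁻¹ * y = g * (x * (g⁻¹ * y * g)) * g⁻¹ := by group
      _ = g * ((g⁻¹ * y * g) * x) * g⁻¹ := by rw [hc]
      _ = y * (g * x * g⁻¹) := by group
  have h2C : (P₂ : Subgroup H) ≤ C := by
    intro y hy
    rw [hP₂] at hy
    rw [Subgroup.mem_centralizer_iff]
    intro x' hx'
    exact abl4_comm_of_mem hBc (hXB hx') (hSB hy)
  obtain ⟨c, hc⟩ := MulAction.exists_smul_eq ↥C ((g • P₁).subtype h1C) (P₂.subtype h2C)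
  rw [Sylow.smul_subtype] at hc
  have hc' : ((c • (g • P₁) : Sylow 2 H) : Subgroup H) = (P₂ : Subgroup H) := by
    have h := congrArg (fun Q : Sylow 2 ↥C => (Q : Subgroup ↥C)) hc
    simp only [Sylow.coe_subtype] at h
    have h' := Subgroup.subgroupOf_inj.1 h
    rw [inf_of_le_left (Sylow.smul_le h1C c), inf_of_le_left h2C] at h'
    exact h'
  have hc'' : ((((c : H) * g) • P₁ : Sylow 2 H) : Subgroup H) = SB := by
    rw [← hP₂, ← hc', mul_smul]
    rfl
  refine ⟨(c : H) * g, ?_⟩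
  have hSBle : SB ≤ A.map (MulAut.conj ((c : H) * g)).toMonoidHom := by
    intro y hy
    rw [← hc'', hmem_smul] at hy
    refine ⟨((c : H) * g)⁻¹ * y * ((c : H) * g), hSA hy, ?_⟩
    show ((c : H) * g) * (((c : H) * g)⁻¹ * y * ((c : H) * g)) * ((c : H) * g)⁻¹ = y
    group
  have hXBle : XB ≤ A.map (MulAut.conj ((c : H) * g)).toMonoidHom := by
    intro x' hx'
    have hcx : x' * (c : H) = (c : H) * x' := Subgroup.mem_centralizer_iff.1 c.2 x' hx'
    have hx'' : x' ∈ XA.map (MulAut.conj g).toMonoidHom := by rw [← hg]; exact hx'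
    obtain ⟨x, hx, hxx⟩ := hx''
    refine ⟨x, hXA hx, ?_⟩
    have hxx' : g * x * g⁻¹ = x' := hxx
    show ((c : H) * g) * x * ((c : H) * g)⁻¹ = x'
    calc ((c : H) * g) * x * ((c : H) * g)⁻¹ = (c : H) * (g * x * g⁻¹) * (c : H)⁻¹ := by group
      _ = (c : H) * x' * (c : H)⁻¹ := by rw [hxx']
      _ = x' := by rw [← hcx, mul_inv_cancel_right]
  have hcop : Nat.Coprime (Nat.card ↥SB) (Nat.card ↥XB) := by
    rw [hSBc]
    have h2 : Nat.Coprime 2 (Nat.card ↥XB) := (Nat.Prime.coprime_iff_not_dvd Nat.prime_two).2 hXB2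
    exact Nat.Coprime.pow_left 2 h2
  have hWdvd : Nat.card ↥B ∣ Nat.card ↥(SB ⊔ XB) := by
    have h := Nat.Coprime.mul_dvd_of_dvd_of_dvd hcop
      (Subgroup.card_dvd_of_le (le_sup_left : SB ≤ SB ⊔ XB))
      (Subgroup.card_dvd_of_le (le_sup_right : XB ≤ SB ⊔ XB))
    rw [hSBc, mul_comm, hXBc] at h
    exact h
  have hWle : Nat.card ↥B ≤ Nat.card ↥(SB ⊔ XB) := Nat.le_of_dvd Nat.card_pos hWdvd
  have hW1 : SB ⊔ XB = B := Subgroup.eq_of_le_of_card_ge (sup_le hSB hXB) hWle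
  have hcardA'' : Nat.card ↥(A.map (MulAut.conj ((c : H) * g)).toMonoidHom) = Nat.card ↥B := by
    rw [Subgroup.card_map_of_injective (MulAut.conj ((c : H) * g)).injective, hcard]
  have hW2 : SB ⊔ XB = A.map (MulAut.conj ((c : H) * g)).toMonoidHom :=
    Subgroup.eq_of_le_of_card_ge (sup_le hSBle hXBle) (by rw [hcardA'']; exact hWle)
  rw [← hW1, hW2]

end Cfsg.Agent.Helper27
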