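import Cfsg.Agent.S3908
import Cfsg.Agent.S3909

/-!
# Generalized quaternion Sylow 2-subgroups under the conjugacy hypothesis (helper27, for S3912)
-/

set_option autoImplicit false

namespace Cfsg.Agent.Helper27

open QuaternionGroup

theorem quat_comm_eq (n : ℕ) :
    (xa 0 : QuaternionGroup n) * xa 1 * (xa 0)⁻¹ * (xa 1)⁻¹ = (a 1) ^ 2 := by
  rw [mul_inv_eq_iff_eq_mul, mul_inv_eq_iff_eq_mul, a_one_pow, xa_mul_xa, a_mul_xa, xa_mul_xa]
  congr 1
  push_cast
  ring

/-- A solvable group with the conjugacy property has no generalized quaternion Sylow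
`2`-subgroup of order at least `16`. -/
theorem no_big_quaternion {G : Type*} [Group G] [Finite G]
    (hB : ∀ A B : Subgroup G, IsMulCommutative ↥A → IsMulCommutative ↥B →
      Nat.card ↥A = Nat.card ↥B → ∃ g : G, B = A.map (MulAut.conj g).toMonoidHom)
    (hsol : Group.IsSolvable G) (P : Sylow 2 G) (k : ℕ) (hk : 2 ≤ k)
    (e : ↥(P : Subgroup G) ≃* QuaternionGroup (2 ^ k)) : False := by
  haveI : NeZero (2 ^ k) := ⟨pow_ne_zero _ two_ne_zero⟩
  obtain ⟨x₀, hx₀⟩ : ∃ x₀ : ↥(P : Subgroup G), x₀ = e.symm (xa 0) := ⟨_, rfl⟩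
  obtain ⟨x₁, hx₁⟩ : ∃ x₁ : ↥(P : Subgroup G), x₁ = e.symm (xa 1) := ⟨_, rfl⟩
  obtain ⟨u, hu⟩ : ∃ u : ↥(P : Subgroup G), u = e.symm (a 1) := ⟨_, rfl⟩
  have ho₀ : orderOf (x₀ : G) = 4 := by
    rw [Subgroup.orderOf_coe, hx₀, MulEquiv.orderOf_eq, orderOf_xa]
  have ho₁ : orderOf (x₁ : G) = 4 := by
    rw [Subgroup.orderOf_coe, hx₁, MulEquiv.orderOf_eq, orderOf_xa]
  have hou : orderOf (u : G) = 2 ^ (k + 1) := by
    rw [Subgroup.orderOf_coe, hu, MulEquiv.orderOf_eq, orderOf_a_one, pow_succ, mul_comm]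
  have hcomm : (x₀ : G) * x₁ * (x₀ : G)⁻¹ * (x₁ : G)⁻¹ = (u : G) ^ 2 := by
    have h : x₀ * x₁ * x₀⁻¹ * x₁⁻¹ = u ^ 2 := by
      apply e.injective
      simp only [map_mul, map_inv, map_pow, hx₀, hx₁, hu, MulEquiv.apply_symm_apply]
      exact quat_comm_eq _
    have h' := congrArg (Subtype.val) h
    simpa using h'
  have how : orderOf ((u : G) ^ (2 ^ (k - 1))) = 4 := by
    rw [orderOf_pow_of_dvd (pow_ne_zero _ two_ne_zero)
      (by rw [hou]; exact pow_dvd_pow 2 (by omega)), hou, Nat.pow_div (by omega) (by norm_num)]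
    have h : k + 1 - (k - 1) = 2 := by omega
    rw [h]
  have hwc : (u : G) ^ (2 ^ (k - 1)) = ((u : G) ^ 2) ^ (2 ^ (k - 2)) := by
    have h2 : 2 ^ (k - 1) = 2 * 2 ^ (k - 2) := by
      rw [← pow_succ']
      congr 1
      omega
    rw [h2, pow_mul]
  have key : ∀ i : ℕ, (x₀ : G) ∈ derivedSeries G i ∧ (x₁ : G) ∈ derivedSeries G i := by
    intro i
    induction i with
    | zero =>
      exact ⟨by rw [derivedSeries_zero]; exact Subgroup.mem_top _,
        by rw [derivedSeries_zero]; exact Subgroup.mem_top _⟩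
    | succ i ih =>
      have hc : (u : G) ^ 2 ∈ derivedSeries G (i + 1) := by
        rw [derivedSeries_succ, ← hcomm]
        exact Subgroup.commutator_mem_commutator ih.1 ih.2
      have hw : (u : G) ^ (2 ^ (k - 1)) ∈ derivedSeries G (i + 1) := by
        rw [hwc]; exact Subgroup.pow_mem _ hc _
      have hS := (Cfsg.Agent.S3909.result hB (derivedSeries G (i + 1))).1
      exact ⟨hS _ ⟨_, hw, by rw [how, ho₀]⟩, hS _ ⟨_, hw, by rw [how, ho₁]⟩⟩
  obtain ⟨N, hN⟩ := hsol.solvable
  have h1 := (key N).1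
  rw [hN, Subgroup.mem_bot] at h1
  rw [h1, orderOf_one] at ho₀
  norm_num at ho₀

theorem q8_facts_sq (q : QuaternionGroup 2) (h : q ^ 2 = 1) : q = 1 ∨ q = a 2 := by
  rcases q with i | i
  · have h' : (a (i + i) : QuaternionGroup 2) = a 0 := by
      rw [← a_mul_a, ← sq, h, one_def]
    have h'' : i + i = 0 := by injection h'
    have h3 : i = 0 ∨ i = 2 := by
      revert h''; revert i; decide
    rcases h3 with rfl | rfl
    · left; exact a_zero
    · right; rfl
  · exfalso
    rw [xa_sq, one_def] at h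
    have h'' : ((2 : ℕ) : ZMod (2 * 2)) = 0 := by injection h
    revert h''; decide

theorem q8_pow_four (q : QuaternionGroup 2) : q ^ 4 = 1 := by
  have h := Monoid.pow_exponent_eq_one q
  rw [QuaternionGroup.exponent] at h
  simpa using h

set_option maxHeartbeats 1600000 in
theorem q8_small_cyclic_aux {G : Type*} [Group G] [Finite G]
    (hB : ∀ A B : Subgroup G, IsMulCommutative ↥A → IsMulCommutative ↥B →
      Nat.card ↥A = Nat.card ↥B → ∃ g : G, B = A.map (MulAut.conj g).toMonoidHom)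
    (M : Subgroup G) [M.Normal]
    (Q : Sylow 2 G) (e : ↥(Q : Subgroup G) ≃* QuaternionGroup 2) (h2i : 2 ∣ M.index)
    (Ab : Subgroup (G ⧸ M)) (h4 : ¬ 4 ∣ Nat.card Ab)
    (S : Subgroup G) (hS : S ≤ Ab.comap (QuotientGroup.mk' M)) (hSQ : S ≤ (Q : Subgroup G)) :
    IsCyclic S := by
  classical
  haveI : Fact (Nat.Prime 2) := ⟨Nat.prime_two⟩
  have hpow4 : ∀ y : G, y ∈ (Q : Subgroup G) → y ^ 4 = 1 := by
    intro y hy
    have h := q8_pow_four (e ⟨y, hy⟩)
    rw [← map_pow] at h
    have h2 : (⟨y, hy⟩ : ↥(Q : Subgroup G)) ^ 4 = 1 := e.injective (by rw [h, map_one])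
    exact congrArg Subtype.val h2
  obtain ⟨t, ht⟩ : ∃ t : ↥(Q : Subgroup G), t = e.symm (a 2) := ⟨_, rfl⟩
  have hsq : ∀ y : G, y ∈ (Q : Subgroup G) → y ^ 2 = 1 → y = 1 ∨ y = (t : G) := by
    intro y hy hy2
    have h2 : (e ⟨y, hy⟩) ^ 2 = 1 := by
      rw [← map_pow]
      have h3 : (⟨y, hy⟩ : ↥(Q : Subgroup G)) ^ 2 = 1 := Subtype.ext hy2
      rw [h3, map_one]
    rcases q8_facts_sq _ h2 with h | h
    · left
      have h3 : (⟨y, hy⟩ : ↥(Q : Subgroup G)) = 1 := e.injective (by rw [h, map_one])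
      exact congrArg Subtype.val h3
    · right
      have h3 : (⟨y, hy⟩ : ↥(Q : Subgroup G)) = t := by
        rw [ht]; apply e.injective; rw [h, MulEquiv.apply_symm_apply]
      exact congrArg Subtype.val h3
  have ho4 : ∀ y : G, y ∈ (Q : Subgroup G) → y ^ 2 ≠ 1 → orderOf y = 4 := by
    intro y hy hy2
    have h := orderOf_eq_prime_pow (p := 2) (n := 1) (x := y) (by simpa using hy2)
      (by simpa using hpow4 y hy)
    simpa using h
  have hcardQ : Nat.card (Q : Subgroup G) = 8 := by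
    rw [Nat.card_congr e.toEquiv, Nat.card_eq_fintype_card, QuaternionGroup.card]
  have hS2 : IsPGroup 2 S := Q.2.to_le hSQ
  obtain ⟨j, hj⟩ := IsPGroup.iff_card.1 hS2
  have hj3 : j ≤ 3 := by
    have h := Subgroup.card_dvd_of_le hSQ
    rw [hcardQ, hj] at h
    exact (Nat.pow_dvd_pow_iff_le_right (by norm_num : 1 < 2)).1 (by simpa using h)
  by_cases hex : ∃ y ∈ S, y ^ 2 ≠ 1
  · obtain ⟨y, hyS, hy2⟩ := hex
    have hoy := ho4 y (hSQ hyS) hy2
    have h4S : 4 ∣ Nat.card S := by
      have h := orderOf_dvd_natCard (⟨y, hyS⟩ : ↥S)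
      rwa [Subgroup.orderOf_mk, hoy] at h
    have hj2 : 2 ≤ j := by
      rw [hj] at h4S
      exact (Nat.pow_dvd_pow_iff_le_right (by norm_num : 1 < 2)).1 (by simpa using h4S)
    rcases Nat.lt_or_ge j 3 with hj3' | hj3'
    · have hj' : j = 2 := by omega
      apply isCyclic_of_orderOf_eq_card (⟨y, hyS⟩ : ↥S)
      rw [Subgroup.orderOf_mk, hoy, hj, hj']
      norm_num
    · exfalso
      have hj' : j = 3 := by omega
      have hSQeq : S = (Q : Subgroup G) :=
        Subgroup.eq_of_le_of_card_ge hSQ (by rw [hcardQ, hj, hj']; norm_num)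
      -- the image of `S` in `G ⧸ M`
      have hXle : S.map (QuotientGroup.mk' M) ≤ Ab := Subgroup.map_le_iff_le_comap.2 hS
      have hX2 : IsPGroup 2 ↥(S.map (QuotientGroup.mk' M)) := hS2.map _
      obtain ⟨i, hi⟩ := IsPGroup.iff_card.1 hX2
      have hi1 : i ≤ 1 := by
        by_contra hcon
        apply h4
        have h1 : 2 ^ 2 ∣ 2 ^ i := pow_dvd_pow 2 (by omega)
        rw [← hi] at h1
        exact (by simpa using h1 : 4 ∣ Nat.card ↥(S.map (QuotientGroup.mk' M))).trans
          (Subgroup.card_dvd_of_le hXle)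
      -- three elements of order 4
      obtain ⟨y₁, hy₁⟩ : ∃ y₁ : ↥(Q : Subgroup G), y₁ = e.symm (a 1) := ⟨_, rfl⟩
      obtain ⟨y₂, hy₂⟩ : ∃ y₂ : ↥(Q : Subgroup G), y₂ = e.symm (xa 0) := ⟨_, rfl⟩
      obtain ⟨y₃, hy₃⟩ : ∃ y₃ : ↥(Q : Subgroup G), y₃ = e.symm (xa 1) := ⟨_, rfl⟩
      have ho₁ : orderOf (y₁ : G) = 4 := by
        rw [Subgroup.orderOf_coe, hy₁, MulEquiv.orderOf_eq, orderOf_a_one]
      have ho₂ : orderOf (y₂ : G) = 4 := by
        rw [Subgroup.orderOf_coe, hy₂, MulEquiv.orderOf_eq, orderOf_xa]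
      have ho₃ : orderOf (y₃ : G) = 4 := by
        rw [Subgroup.orderOf_coe, hy₃, MulEquiv.orderOf_eq, orderOf_xa]
      have hmul : (y₁ : G) * (y₃ : G) = (y₂ : G) := by
        have h : y₁ * y₃ = y₂ := by
          apply e.injective
          rw [map_mul, hy₁, hy₂, hy₃, MulEquiv.apply_symm_apply, MulEquiv.apply_symm_apply,
            MulEquiv.apply_symm_apply, a_mul_xa, sub_self]
        exact congrArg Subtype.val h
      have hy1sq : ((y₁ : G)) ^ 2 = (t : G) := by
        have h : y₁ ^ 2 = t := by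
          apply e.injective
          rw [map_pow, hy₁, ht, MulEquiv.apply_symm_apply, MulEquiv.apply_symm_apply, a_one_pow]
          rfl
        exact congrArg Subtype.val h
      have hexM : ∃ m ∈ M, orderOf m = 4 := by
        by_cases h1 : (y₁ : G) ∈ M
        · exact ⟨_, h1, ho₁⟩
        by_cases h3 : (y₃ : G) ∈ M
        · exact ⟨_, h3, ho₃⟩
        refine ⟨(y₂ : G), ?_, ho₂⟩
        have hm1 : (QuotientGroup.mk' M) (y₁ : G) ∈ S.map (QuotientGroup.mk' M) :=
          Subgroup.mem_map_of_mem _ (by rw [hSQeq]; exact y₁.2)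
        have hm3 : (QuotientGroup.mk' M) (y₃ : G) ∈ S.map (QuotientGroup.mk' M) :=
          Subgroup.mem_map_of_mem _ (by rw [hSQeq]; exact y₃.2)
        have hne1 : (⟨_, hm1⟩ : ↥(S.map (QuotientGroup.mk' M))) ≠ 1 := by
          intro h
          exact h1 ((QuotientGroup.eq_one_iff _).1 (congrArg Subtype.val h))
        have hne3 : (⟨_, hm3⟩ : ↥(S.map (QuotientGroup.mk' M))) ≠ 1 := by
          intro h
          exact h3 ((QuotientGroup.eq_one_iff _).1 (congrArg Subtype.val h))
        have hcard2 : Nat.card ↥(S.map (QuotientGroup.mk' M)) = 2 := by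
          rcases Nat.lt_or_ge i 1 with hi0 | hi0
          · exfalso
            have hi' : i = 0 := by omega
            rw [hi', pow_zero] at hi
            haveI : Subsingleton ↥(S.map (QuotientGroup.mk' M)) :=
              (Nat.card_eq_one_iff_unique.1 hi).1
            exact hne1 (Subsingleton.elim _ _)
          · have hi' : i = 1 := by omega
            rw [hi, hi', pow_one]
        obtain ⟨z, -, hz⟩ := (Nat.card_eq_two_iff' (1 : ↥(S.map (QuotientGroup.mk' M)))).1 hcard2
        have he13 : (⟨_, hm1⟩ : ↥(S.map (QuotientGroup.mk' M))) = ⟨_, hm3⟩ :=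
          (hz _ hne1).trans (hz _ hne3).symm
        have he13' : (QuotientGroup.mk' M) (y₁ : G) = (QuotientGroup.mk' M) (y₃ : G) :=
          congrArg Subtype.val he13
        have hsq1 : ((QuotientGroup.mk' M) (y₁ : G)) ^ 2 = 1 := by
          have h := pow_card_eq_one' (G := ↥(S.map (QuotientGroup.mk' M))) (x := ⟨_, hm1⟩)
          rw [hcard2] at h
          exact congrArg Subtype.val h
        apply (QuotientGroup.eq_one_iff _).1
        show (QuotientGroup.mk' M) (y₂ : G) = 1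
        rw [← hmul, map_mul, ← he13', ← sq, hsq1]
      obtain ⟨m, hmM, hm4⟩ := hexM
      have hS9 := (Cfsg.Agent.S3909.result hB M).1
      have hQM : (Q : Subgroup G) ≤ M := by
        intro y hy
        by_cases hy2 : y ^ 2 = 1
        · rcases hsq y hy hy2 with h | h
          · rw [h]; exact M.one_mem
          · rw [h, ← hy1sq]
            exact M.pow_mem (hS9 _ ⟨m, hmM, by rw [hm4, ho₁]⟩) 2
        · exact hS9 _ ⟨m, hmM, by rw [hm4, ho4 y hy hy2]⟩
      exact Q.not_dvd_index (h2i.trans (Subgroup.index_dvd_of_le hQM))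
  · push_neg at hex
    have hsub : (S : Set G) ⊆ {1, (t : G)} := by
      intro y hy
      rcases hsq y (hSQ hy) (hex y hy) with h | h
      · left; exact h
      · right; exact h
    have hle : Nat.card S ≤ 2 := by
      have h1 : Nat.card ↥S = (S : Set G).ncard := Nat.card_coe_set_eq (S : Set G)
      rw [h1]
      exact (Set.ncard_le_ncard hsub (Set.toFinite _)).trans
        ((Set.ncard_insert_le _ _).trans (by rw [Set.ncard_singleton]))
    rcases j with _ | _ | j
    · haveI : Subsingleton ↥S := (Nat.card_eq_one_iff_unique.1 (by simpa using hj)).1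
      exact isCyclic_of_subsingleton
    · exact isCyclic_of_prime_card (p := 2) (by simpa using hj)
    · exfalso
      rw [hj] at hle
      have h4le : 4 ≤ 2 ^ (j + 1 + 1) := by
        have h := Nat.pow_le_pow_right (by norm_num : 0 < 2) (by omega : 2 ≤ j + 1 + 1)
        simpa using h
      omega

/-- In the `Q8` situation, `2`-subgroups of preimages of abelian subgroups of order not
divisible by `4` are cyclic. -/
theorem q8_small_cyclic {G : Type*} [Group G] [Finite G]
    (hB : ∀ A B : Subgroup G, IsMulCommutative ↥A → IsMulCommutative ↥B →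
      Nat.card ↥A = Nat.card ↥B → ∃ g : G, B = A.map (MulAut.conj g).toMonoidHom)
    (M : Subgroup G) [M.Normal]
    (P : Sylow 2 G) (e : ↥(P : Subgroup G) ≃* QuaternionGroup 2) (h2i : 2 ∣ M.index)
    (Ab : Subgroup (G ⧸ M)) (h4 : ¬ 4 ∣ Nat.card Ab)
    (S : Subgroup G) (hS : S ≤ Ab.comap (QuotientGroup.mk' M)) (hS2 : IsPGroup 2 S) :
    IsCyclic S := by
  haveI : Fact (Nat.Prime 2) := ⟨Nat.prime_two⟩
  obtain ⟨Q, hQ⟩ := hS2.exists_le_sylow
  obtain ⟨g, hg⟩ := MulAction.exists_smul_eq G P Q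
  subst hg
  exact q8_small_cyclic_aux hB M (g • P) ((P.equivSMul g).symm.trans e) h2i Ab h4 S hS hQ

end Cfsg.Agent.Helper27
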