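import Mathlib

set_option autoImplicit false

namespace Cfsg.Agent.Helper27

/-- A homomorphism from the dihedral group of order 8 given by a pair of elements satisfying its
defining relations. -/
theorem dihedral_hom {G : Type*} [Group G] (ρ σ : G) (h4 : ρ ^ 4 = 1) (h2 : σ * σ = 1)
    (hc : ρ * σ = σ * ρ⁻¹) :
    ∃ f : DihedralGroup 4 →* G, f (DihedralGroup.r 1) = ρ ∧ f (DihedralGroup.sr 0) = σ := by
  have hpow : ∀ i j : ZMod 4, ρ ^ (i + j).val = ρ ^ i.val * ρ ^ j.val := by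
    intro i j
    rw [ZMod.val_add, ← pow_add, ← pow_eq_pow_mod (i.val + j.val) h4]
  have hsub : ∀ i j : ZMod 4, ρ ^ (j - i).val = ρ ^ j.val * (ρ ^ i.val)⁻¹ := by
    intro i j
    have := hpow (j - i) i
    rw [sub_add_cancel] at this
    rw [this, mul_inv_cancel_right]
  have hcomm : ∀ k : ℕ, ρ ^ k * σ = σ * (ρ ^ k)⁻¹ := by
    intro k
    induction k with
    | zero => simp
    | succ k ih =>
      rw [pow_succ, mul_assoc, hc, ← mul_assoc, ih, mul_assoc, ← mul_inv_rev, ← pow_succ']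
      rw [pow_succ]
  have hcp : ∀ a b : ℕ, ρ ^ a * (ρ ^ b)⁻¹ = (ρ ^ b)⁻¹ * ρ ^ a := fun a b =>
    ((Commute.pow_pow_self ρ a b).inv_right).eq
  refine ⟨{ toFun := fun g => match g with
              | DihedralGroup.r i => ρ ^ i.val
              | DihedralGroup.sr i => σ * ρ ^ i.val
            map_one' := by
              show ρ ^ (0 : ZMod 4).val = 1
              rw [ZMod.val_zero, pow_zero]
            map_mul' := ?_ }, ?_, ?_⟩
  · rintro (i | i) (j | j)
    · show ρ ^ (i + j).val = ρ ^ i.val * ρ ^ j.val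
      exact hpow i j
    · show σ * ρ ^ (j - i).val = ρ ^ i.val * (σ * ρ ^ j.val)
      rw [hsub, ← mul_assoc (ρ ^ i.val), hcomm, mul_assoc, hcp]
    · show σ * ρ ^ (i + j).val = σ * ρ ^ i.val * ρ ^ j.val
      rw [hpow, mul_assoc]
    · show ρ ^ (j - i).val = σ * ρ ^ i.val * (σ * ρ ^ j.val)
      rw [hsub, mul_assoc σ, ← mul_assoc (ρ ^ i.val), hcomm, mul_assoc σ (ρ ^ i.val)⁻¹,
        ← mul_assoc σ σ, h2, one_mul, hcp]
  · show ρ ^ (1 : ZMod 4).val = ρ
    have : (1 : ZMod 4).val = 1 := rfl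
    rw [this, pow_one]
  · show σ * ρ ^ (0 : ZMod 4).val = σ
    rw [ZMod.val_zero, pow_zero, mul_one]

section Auts

variable {C : Type*} [CommGroup C]

/-- The automorphism `(x, y) ↦ (y, x⁻¹ y⁻¹)` of order 3. -/
def autBeta : MulAut (C × C) where
  toFun x := (x.2, x.1⁻¹ * x.2⁻¹)
  invFun x := (x.1⁻¹ * x.2⁻¹, x.1)
  left_inv := by rintro ⟨x, y⟩; simp
  right_inv := by rintro ⟨x, y⟩; simp
  map_mul' := by
    rintro ⟨x, y⟩ ⟨x', y'⟩
    refine Prod.ext rfl ?_
    show (x * x')⁻¹ * (y * y')⁻¹ = x⁻¹ * y⁻¹ * (x'⁻¹ * y'⁻¹)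
    rw [mul_inv, mul_inv, mul_mul_mul_comm]

/-- The automorphism `(x, y) ↦ (y, x⁻¹)` of order 4. -/
def autRho : MulAut (C × C) where
  toFun x := (x.2, x.1⁻¹)
  invFun x := (x.2⁻¹, x.1)
  left_inv := by rintro ⟨x, y⟩; simp
  right_inv := by rintro ⟨x, y⟩; simp
  map_mul' := by
    rintro ⟨x, y⟩ ⟨x', y'⟩
    refine Prod.ext rfl ?_
    show (x * x')⁻¹ = x⁻¹ * x'⁻¹
    rw [mul_inv]

/-- The swap. -/
def autSigma : MulAut (C × C) where
  toFun x := (x.2, x.1)
  invFun x := (x.2, x.1)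
  left_inv := by rintro ⟨x, y⟩; rfl
  right_inv := by rintro ⟨x, y⟩; rfl
  map_mul' := by rintro ⟨x, y⟩ ⟨x', y'⟩; rfl

/-- Extension of automorphisms of the first factor by the identity. -/
def extAut (H : Type*) [Group H] : MulAut (C × C) →* MulAut ((C × C) × H) where
  toFun α := MulEquiv.prodCongr α (MulEquiv.refl H)
  map_one' := by apply MulEquiv.ext; rintro ⟨x, h⟩; rfl
  map_mul' := fun a b => by apply MulEquiv.ext; rintro ⟨x, h⟩; rfl

theorem extAut_injective (H : Type*) [Group H] : Function.Injective (extAut (C := C) H) := by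
  intro a b hab
  apply MulEquiv.ext
  intro x
  have := congrArg (fun f : MulAut ((C × C) × H) => (f (x, 1)).1) hab
  exact this

theorem exists_bad_aut_gen (p : ℕ) [Fact p.Prime] (H : Type*) [Group H] (c : C) (hc1 : c ≠ 1)
    (hc2 : p ≠ 2 → c⁻¹ ≠ c) :
    ∃ K : Subgroup (MulAut ((C × C) × H)), (Nat.card K).Coprime p ∧
      ¬ ((∀ a ∈ K, ∀ b ∈ K, a * b = b * a) ∧ ∀ h ∈ K, h ^ (p - 1) = 1) := by
  by_cases hp : p = 2
  · subst hp
    have hβ3 : (autBeta : MulAut (C × C)) ^ 3 = 1 := by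
      apply MulEquiv.ext
      rintro ⟨x, y⟩
      rw [show (3 : ℕ) = 2 + 1 from rfl, pow_succ, pow_two]
      show autBeta (autBeta (autBeta (x, y))) = (x, y)
      refine Prod.ext ?_ ?_
      · show y⁻¹ * (x⁻¹ * y⁻¹)⁻¹ = x
        simp
      · show (x⁻¹ * y⁻¹)⁻¹ * (y⁻¹ * (x⁻¹ * y⁻¹)⁻¹)⁻¹ = y
        simp
    have hβ1 : (autBeta : MulAut (C × C)) ≠ 1 := by
      intro h
      have h1 := congrArg (fun f : MulAut (C × C) => (f (1, c)).1) h
      exact hc1 h1
    have hθβ3 : (extAut H (autBeta : MulAut (C × C))) ^ 3 = 1 := by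
      rw [← map_pow, hβ3, map_one]
    have hθβ1 : extAut H (autBeta : MulAut (C × C)) ≠ 1 :=
      fun h => hβ1 (extAut_injective H (h.trans (map_one _).symm))
    have : Fact (Nat.Prime 3) := ⟨Nat.prime_three⟩
    have hord : orderOf (extAut H (autBeta : MulAut (C × C))) = 3 := orderOf_eq_prime hθβ3 hθβ1
    refine ⟨Subgroup.zpowers (extAut H autBeta), ?_, ?_⟩
    · rw [Nat.card_zpowers, hord]; decide
    · rintro ⟨-, h2⟩
      have h3 := h2 _ (Subgroup.mem_zpowers _)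
      rw [show 2 - 1 = 1 from rfl, pow_one] at h3
      exact hθβ1 h3
  · have hc := hc2 hp
    have hρ4 : (autRho : MulAut (C × C)) ^ 4 = 1 := by
      apply MulEquiv.ext
      rintro ⟨x, y⟩
      rw [show (4 : ℕ) = 2 + 2 from rfl, pow_add, pow_two]
      show autRho (autRho (autRho (autRho (x, y)))) = (x, y)
      refine Prod.ext ?_ ?_
      · show x⁻¹⁻¹ = x
        simp
      · show y⁻¹⁻¹ = y
        simp
    have hσ2 : (autSigma : MulAut (C × C)) * autSigma = 1 := by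
      apply MulEquiv.ext
      rintro ⟨x, y⟩
      rfl
    have hrel : (autRho : MulAut (C × C)) * autSigma = autSigma * autRho⁻¹ := by
      apply MulEquiv.ext
      rintro ⟨x, y⟩
      rfl
    obtain ⟨f, hfr, hfs⟩ := dihedral_hom (autRho : MulAut (C × C)) autSigma hρ4 hσ2 hrel
    refine ⟨((extAut H).comp f).range, ?_, ?_⟩
    · have hdvd : Nat.card ((extAut H).comp f).range ∣ Nat.card (DihedralGroup 4) :=
        Subgroup.card_range_dvd _
      rw [DihedralGroup.nat_card] at hdvd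
      have hodd : Nat.Coprime 2 p := (Nat.coprime_primes Nat.prime_two Fact.out).2 (Ne.symm hp)
      exact Nat.Coprime.coprime_dvd_left hdvd (Nat.Coprime.pow_left 3 hodd)
    · rintro ⟨h1, -⟩
      have h2 := h1 _ ⟨DihedralGroup.r 1, rfl⟩ _ ⟨DihedralGroup.sr 0, rfl⟩
      simp only [MonoidHom.comp_apply, hfr, hfs] at h2
      rw [← map_mul, ← map_mul] at h2
      have h3 := extAut_injective H h2
      have h4 := congrArg (fun g : MulAut (C × C) => (g (c, 1)).1) h3
      have h5 : c = c⁻¹ := h4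
      exact hc h5.symm

end Auts

theorem exists_bad_aut (p : ℕ) [Fact p.Prime] (n : ℕ) (hn : 0 < n) (H : Type) [CommGroup H] :
    ∃ K : Subgroup (MulAut ((Multiplicative (ZMod (p ^ n)) × Multiplicative (ZMod (p ^ n))) × H)),
      (Nat.card K).Coprime p ∧
      ¬ ((∀ a ∈ K, ∀ b ∈ K, a * b = b * a) ∧ ∀ h ∈ K, h ^ (p - 1) = 1) := by
  have hp := (Fact.out : p.Prime)
  have h1lt : 1 < p ^ n := Nat.one_lt_pow hn.ne' hp.one_lt
  have : Fact (1 < p ^ n) := ⟨h1lt⟩
  apply exists_bad_aut_gen p H (Multiplicative.ofAdd (1 : ZMod (p ^ n)))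
  · intro h
    have h1 : (1 : ZMod (p ^ n)) = 0 := congrArg Multiplicative.toAdd h
    exact one_ne_zero h1
  · intro hp2 h
    have h3 : 2 < p ^ n := by
      have h3p : 3 ≤ p := by
        have := hp.two_le
        omega
      calc 2 < p := by omega
        _ = p ^ 1 := (pow_one p).symm
        _ ≤ p ^ n := Nat.pow_le_pow_right hp.pos hn
    have : Fact (2 < p ^ n) := ⟨h3⟩
    have h1 : (-1 : ZMod (p ^ n)) = 1 := congrArg Multiplicative.toAdd h
    exact ZMod.neg_one_ne_one h1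

end Cfsg.Agent.Helper27
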