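import Cfsg.Agent.Helper27.UlmModel
import Cfsg.Agent.Helper27.BadAut
import Cfsg.Agent.Helper27.AbelFusion

set_option autoImplicit false

namespace Cfsg.Agent.Helper27

open Cfsg Cfsg.FusionSystem Cfsg.Agent.Helper26
open scoped IsMulCommutative

variable {Ω : Type*} [Group Ω] {S : Subgroup Ω}

theorem abelian_chain [Finite S] (p : ℕ) [Fact p.Prime] (hS : IsPGroup p S)
    (hab : IsMulCommutative S)
    (hno : ¬ ∃ (n : ℕ) (H : Type) (_ : CommGroup H), 0 < n ∧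
      Nonempty (S ≃* (Multiplicative (ZMod (p ^ n)) × Multiplicative (ZMod (p ^ n))) × H))
    (F : FusionSystem S) (hF : F.IsSaturated p) :
    ∃ (m : ℕ) (c : Fin (m + 1) → Subgroup Ω), c 0 = ⊥ ∧ c (Fin.last m) = S ∧
      (∀ i : Fin (m + 1), F.StronglyClosed (c i)) ∧
      ∀ i : Fin m, c i.castSucc ≤ c i.succ ∧
        ∃ x ∈ S, c i.succ = c i.castSucc ⊔ Subgroup.zpowers x := by
  have hP := abelian_usub (G := S) p hS hno
  obtain ⟨m, C, h0, hl, hfi, hstep⟩ := char_chain hS hP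
  have hab' : ∀ x ∈ S, ∀ y ∈ S, x * y = y * x := fun x hx y hy =>
    congrArg Subtype.val (hab.is_comm.comm ⟨x, hx⟩ ⟨y, hy⟩)
  refine ⟨m, fun i => (C i).map S.subtype, ?_, ?_, ?_, ?_⟩
  · show (C 0).map S.subtype = ⊥
    rw [h0, Subgroup.map_bot]
  · show (C (Fin.last m)).map S.subtype = S
    rw [hl, ← MonoidHom.range_eq_map, Subgroup.range_subtype]
  · intro i
    refine ⟨Subgroup.map_subtype_le _, fun R hR φ hφ r => ?_⟩
    obtain ⟨α, -, hα⟩ := abelian_extend p hS F hF hab' hφ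
    obtain ⟨y, hy, hyr⟩ := hR r.2
    have hrS : (r : Ω) ∈ S := by rw [← hyr]; exact y.2
    have h1 := hα r r.2 hrS
    have e : (⟨(r : Ω), hrS⟩ : S) = y := Subtype.ext hyr.symm
    rw [e] at h1
    exact ⟨α y, hfi i α.toMonoidHom y hy, h1⟩
  · intro i
    obtain ⟨x, hx⟩ := hstep i
    refine ⟨Subgroup.map_mono (by rw [hx]; exact le_sup_left), x, x.2, ?_⟩
    show (C i.succ).map S.subtype = (C i.castSucc).map S.subtype ⊔ Subgroup.zpowers (x : Ω)
    rw [hx, Subgroup.map_sup, MonoidHom.map_zpowers]; rfl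

theorem abelian_bad [Finite S] (p : ℕ) [Fact p.Prime] (hS : IsPGroup p S)
    (hall : ∀ F : FusionSystem S, F.IsSaturated p →
      ∃ (m : ℕ) (c : Fin (m + 1) → Subgroup Ω), c 0 = ⊥ ∧ c (Fin.last m) = S ∧
        (∀ i : Fin (m + 1), F.StronglyClosed (c i)) ∧
        ∀ i : Fin m, c i.castSucc ≤ c i.succ ∧
          ∃ x ∈ S, c i.succ = c i.castSucc ⊔ Subgroup.zpowers x) :
    ¬ ∃ (n : ℕ) (H : Type) (_ : CommGroup H), 0 < n ∧
      Nonempty (S ≃* (Multiplicative (ZMod (p ^ n)) × Multiplicative (ZMod (p ^ n))) × H) := by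
  rintro ⟨n, H, _, hn, ⟨e⟩⟩
  obtain ⟨K', hK'c, hK'bad⟩ := exists_bad_aut p n hn H
  have hKc : (Nat.card (K'.map (MulAut.congr e.symm).toMonoidHom)).Coprime p := by
    rw [Subgroup.card_map_of_injective (MulEquiv.injective _)]; exact hK'c
  obtain ⟨m, c, h0, hl, hsc, hstep⟩ := hall _ (autSys_saturated' S p hS _ hKc)
  obtain ⟨h1, h2⟩ := pprime_of_chain p hS _ hKc m c h0 hl hsc hstep
  apply hK'bad
  constructor
  · intro a ha b hb
    have h3 := h1 _ ⟨a, ha, rfl⟩ _ ⟨b, hb, rfl⟩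
    apply (MulAut.congr e.symm).injective
    rw [map_mul, map_mul]; exact h3
  · intro h hh
    have h3 := h2 _ ⟨h, hh, rfl⟩
    apply (MulAut.congr e.symm).injective
    rw [map_pow, map_one]; exact h3

end Cfsg.Agent.Helper27
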