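import Mathlib

set_option autoImplicit false

namespace Cfsg.Agent.Helper27

/-- parity map on `ZMod (2^k)`, `k ≥ 1`. -/
noncomputable def par2 (k : ℕ) (hk : 1 ≤ k) : ZMod (2 ^ k) →+* ZMod 2 :=
  ZMod.castHom (dvd_pow_self 2 (by omega : k ≠ 0)) (ZMod 2)

theorem par2_natCast (k : ℕ) (hk : 1 ≤ k) (v : ℕ) : par2 k hk (v : ZMod (2 ^ k)) = (v : ZMod 2) :=
  map_natCast _ v

theorem par2_eq (k : ℕ) (hk : 1 ≤ k) (z : ZMod (2 ^ k)) : par2 k hk z = (z.val : ZMod 2) := by
  conv_lhs => rw [← ZMod.natCast_zmod_val z]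
  exact par2_natCast k hk _

theorem par2_even (k : ℕ) (hk : 1 ≤ k) (z : ZMod (2 ^ k)) (h : par2 k hk z = 0) :
    ∃ w : ZMod (2 ^ k), z = 2 * w := by
  rw [par2_eq, ZMod.natCast_eq_zero_iff] at h
  obtain ⟨t, ht⟩ := h
  refine ⟨(t : ZMod (2 ^ k)), ?_⟩
  conv_lhs => rw [← ZMod.natCast_zmod_val z, ht]
  push_cast
  rfl

theorem par2_two_mul (k : ℕ) (hk : 1 ≤ k) (w : ZMod (2 ^ k)) : par2 k hk (2 * w) = 0 := by
  rw [map_mul]
  have : par2 k hk 2 = 0 := by
    have h2 : par2 k hk ((2 : ℕ) : ZMod (2 ^ k)) = ((2 : ℕ) : ZMod 2) := par2_natCast k hk 2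
    have h3 : ((2 : ℕ) : ZMod 2) = 0 := by decide
    rw [h3] at h2
    exact_mod_cast h2
  rw [this, zero_mul]

theorem two_pow_eq_zero (k c : ℕ) (h : k ≤ c) : (2 : ZMod (2 ^ k)) ^ c = 0 := by
  have h1 : ((2 ^ c : ℕ) : ZMod (2 ^ k)) = 0 :=
    (ZMod.natCast_eq_zero_iff _ _).mpr (pow_dvd_pow 2 h)
  exact_mod_cast h1

theorem par2_of_eq (k : ℕ) (hk : 1 ≤ k) (c : ℕ) (hc : c < k) (z w : ZMod (2 ^ k))
    (h : (2 : ZMod (2 ^ k)) ^ c * z = 2 ^ (c + 1) * w) : par2 k hk z = 0 := by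
  by_contra hne
  have hcases : ∀ t : ZMod 2, t ≠ 0 → t = 1 := by decide
  have h1 : par2 k hk (z - 2 * w) = 1 := by
    rw [map_sub, par2_two_mul, sub_zero]
    exact hcases _ hne
  have h2 : (2 : ZMod (2 ^ k)) ^ c * (z - 2 * w) = 0 := by
    rw [mul_sub, h]; ring
  have hunit : IsUnit (z - 2 * w) := by
    rw [← ZMod.natCast_zmod_val (z - 2 * w), ZMod.isUnit_iff_coprime]
    apply Nat.Coprime.pow_right
    rw [par2_eq] at h1
    have hnd : ¬ 2 ∣ (z - 2 * w).val := by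
      intro hd
      rw [← ZMod.natCast_eq_zero_iff] at hd
      rw [hd] at h1
      exact absurd h1 (by decide)
    exact ((Nat.Prime.coprime_iff_not_dvd Nat.prime_two).mpr hnd).symm
  rw [hunit.mul_left_eq_zero] at h2
  have h3 : ((2 ^ c : ℕ) : ZMod (2 ^ k)) = 0 := by exact_mod_cast h2
  rw [ZMod.natCast_eq_zero_iff] at h3
  have := (Nat.pow_dvd_pow_iff_le_right (by norm_num : 1 < 2)).mp h3
  omega

section Pi

variable {n : ℕ} (a : Fin n → ℕ)

/-- multiples of `2^s`. -/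
def mulSub (s : ℕ) : AddSubgroup ((i : Fin n) → ZMod (2 ^ a i)) :=
  (nsmulAddMonoidHom (2 ^ s)).range

theorem mem_mulSub (s : ℕ) (x : (i : Fin n) → ZMod (2 ^ a i)) :
    x ∈ mulSub a s ↔ ∃ y : (i : Fin n) → ZMod (2 ^ a i), 2 ^ s • y = x := Iff.rfl

/-- the characteristic subgroups `U_c`. -/
def uSub (c : ℕ) : AddSubgroup ((i : Fin n) → ZMod (2 ^ a i)) :=
  (mulSub a (c + 1)).comap (nsmulAddMonoidHom (2 ^ c))

theorem mem_uSub (c : ℕ) (x : (i : Fin n) → ZMod (2 ^ a i)) :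
    x ∈ uSub a c ↔ ∃ y : (i : Fin n) → ZMod (2 ^ a i), 2 ^ (c + 1) • y = 2 ^ c • x := Iff.rfl

theorem mem_uSub_iff (ha1 : ∀ i, 1 ≤ a i) (c : ℕ) (x : (i : Fin n) → ZMod (2 ^ a i)) :
    x ∈ uSub a c ↔ ∀ j, a j ≤ c ∨ par2 (a j) (ha1 j) (x j) = 0 := by
  rw [mem_uSub]
  constructor
  · rintro ⟨y, hy⟩ j
    by_cases hj : a j ≤ c
    · exact Or.inl hj
    · right
      have h1 := congrFun hy j
      simp only [Pi.smul_apply, nsmul_eq_mul, Nat.cast_pow, Nat.cast_ofNat] at h1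
      exact par2_of_eq (a j) (ha1 j) c (by omega) (x j) (y j) h1.symm
  · intro h
    have h' : ∀ j, ∃ w : ZMod (2 ^ a j), a j ≤ c ∨ x j = 2 * w := by
      intro j
      rcases h j with hj | hj
      · exact ⟨0, Or.inl hj⟩
      · obtain ⟨w, hw⟩ := par2_even (a j) (ha1 j) (x j) hj
        exact ⟨w, Or.inr hw⟩
    choose w hw using h'
    refine ⟨w, ?_⟩
    funext j
    simp only [Pi.smul_apply, nsmul_eq_mul, Nat.cast_pow, Nat.cast_ofNat]
    rcases hw j with hj | hj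
    · rw [two_pow_eq_zero (a j) (c + 1) (by omega), two_pow_eq_zero (a j) c hj, zero_mul, zero_mul]
    · rw [hj]; ring

theorem uSub_zero_le (x : (i : Fin n) → ZMod (2 ^ a i)) (hx : x ∈ uSub a 0) :
    x ∈ mulSub a 1 := by
  rw [mem_uSub] at hx
  obtain ⟨y, hy⟩ := hx
  rw [pow_zero, one_smul] at hy
  exact (mem_mulSub a 1 x).mpr ⟨y, hy⟩

theorem two_smul_mem_uSub_zero (x : (i : Fin n) → ZMod (2 ^ a i)) : 2 • x ∈ uSub a 0 := by
  rw [mem_uSub]
  exact ⟨x, by simp⟩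

theorem uSub_index (ha : StrictMono a) (ha1 : ∀ i, 1 ≤ a i) (c : ℕ)
    (x y : (i : Fin n) → ZMod (2 ^ a i)) (hx : x ∈ uSub a (c + 1)) (hy : y ∈ uSub a (c + 1))
    (hx' : x ∉ uSub a c) (hy' : y ∉ uSub a c) : x - y ∈ uSub a c := by
  rw [mem_uSub_iff a ha1] at hx hy hx' hy' ⊢
  push Not at hx' hy'
  obtain ⟨j, hj1, hj2⟩ := hx'
  obtain ⟨j', hj1', hj2'⟩ := hy'
  have hcases : ∀ t : ZMod 2, t ≠ 0 → t = 1 := by decide
  have haj : a j = c + 1 := by
    rcases hx j with h | h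
    · omega
    · exact absurd h hj2
  have haj' : a j' = c + 1 := by
    rcases hy j' with h | h
    · omega
    · exact absurd h hj2'
  have hjj : j = j' := ha.injective (haj.trans haj'.symm)
  subst hjj
  intro i
  by_cases hi : a i ≤ c
  · exact Or.inl hi
  · right
    rw [Pi.sub_apply, map_sub]
    by_cases hi2 : a i ≤ c + 1
    · have hij : i = j := ha.injective (by omega)
      subst hij
      rw [hcases _ hj2, hcases _ hj2', sub_self]
    · rcases hx i with h | h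
      · exact absurd h hi2
      · rcases hy i with h' | h'
        · exact absurd h' hi2
        · rw [h, h', sub_self]

theorem uSub_top (ha1 : ∀ i, 1 ≤ a i) (N : ℕ) (hN : ∀ j, a j ≤ N)
    (x : (i : Fin n) → ZMod (2 ^ a i)) : x ∈ uSub a N := by
  rw [mem_uSub_iff a ha1]
  exact fun j => Or.inl (hN j)

theorem two_pow_smul_eq_zero (N : ℕ) (hN : ∀ j, a j ≤ N) (x : (i : Fin n) → ZMod (2 ^ a i)) :
    2 ^ N • x = 0 := by
  funext j
  simp only [Pi.smul_apply, nsmul_eq_mul, Nat.cast_pow, Nat.cast_ofNat, Pi.zero_apply]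
  rw [two_pow_eq_zero (a j) N (hN j), zero_mul]

end Pi

/-- the basic iteration lemma. -/
theorem iterate_sub_mem {A : Type*} [AddCommGroup A] (f : A →+ A) (D : AddSubgroup A)
    (hD : ∀ d ∈ D, f d ∈ D) (x : A) (hd : f (f x - x) - (f x - x) ∈ D) (j : ℕ) :
    f^[j] x - x - j • (f x - x) ∈ D := by
  induction j with
  | zero => simp
  | succ j ih =>
    have e : f^[j + 1] x - x - (j + 1) • (f x - x) =
        f (f^[j] x - x - j • (f x - x)) + j • (f (f x - x) - (f x - x)) := by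
      simp only [Function.iterate_succ_apply', map_sub, map_nsmul, smul_sub, add_smul, one_smul]
      abel
    rw [e]
    exact D.add_mem (hD _ ih) (D.nsmul_mem hd j)

theorem mem_of_odd_smul_mem {A : Type*} [AddCommGroup A] (D : AddSubgroup A) (d : A) (m : ℕ)
    (hm : Odd m) (h1 : m • d ∈ D) (h2 : 2 • d ∈ D) : d ∈ D := by
  obtain ⟨k, rfl⟩ := hm
  have e : d = (2 * k + 1) • d - k • (2 • d) := by
    rw [add_smul, mul_smul, one_smul, smul_comm 2 k d]
    abel
  rw [e]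
  exact D.sub_mem h1 (D.nsmul_mem h2 k)

theorem iterate_mem {A : Type*} [AddCommGroup A] (f : A →+ A) (D : AddSubgroup A)
    (hD : ∀ d ∈ D, f d ∈ D) (j : ℕ) : ∀ d ∈ D, f^[j] d ∈ D := by
  induction j with
  | zero => intro d hd; exact hd
  | succ j ih =>
    intro d hd
    rw [Function.iterate_succ_apply']
    exact hD _ (ih d hd)

/-- an automorphism of odd order of `∏ ZMod (2^{a_i})`, the `a_i` distinct, is trivial. -/
theorem aut_trivial_of_odd {n : ℕ} (a : Fin n → ℕ) (ha : StrictMono a) (ha1 : ∀ i, 1 ≤ a i)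
    (f : ((i : Fin n) → ZMod (2 ^ a i)) →+ ((i : Fin n) → ZMod (2 ^ a i))) (m : ℕ) (hm : Odd m)
    (hfm : ∀ x, f^[m] x = x) : ∀ x, f x = x := by
  have hm1 : 1 ≤ m := by
    obtain ⟨k, rfl⟩ := hm; omega
  -- invariance
  have hMinv : ∀ s, ∀ d ∈ mulSub a s, f d ∈ mulSub a s := by
    intro s d hd
    obtain ⟨y, rfl⟩ := (mem_mulSub a s d).mp hd
    exact (mem_mulSub a s _).mpr ⟨f y, by rw [map_nsmul]⟩
  have hUinv : ∀ c, ∀ d ∈ uSub a c, f d ∈ uSub a c := by
    intro c d hd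
    rw [mem_uSub] at hd ⊢
    obtain ⟨y, hy⟩ := hd
    exact ⟨f y, by rw [← map_nsmul, hy, map_nsmul]⟩
  -- stage 1
  have stage1 : ∀ c, ∀ x ∈ uSub a c, f x - x ∈ uSub a 0 := by
    intro c
    induction c with
    | zero =>
      intro x hx
      exact (uSub a 0).sub_mem (hUinv 0 x hx) hx
    | succ c ih =>
      intro x hx
      have hd : f x - x ∈ uSub a c := by
        by_cases hxc : x ∈ uSub a c
        · exact (uSub a c).sub_mem (hUinv c x hxc) hxc
        · have hfx : f x ∉ uSub a c := by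
            intro hfx
            apply hxc
            have h1 := iterate_mem f (uSub a c) (hUinv c) (m - 1) (f x) hfx
            have h2 : f^[m - 1] (f x) = f^[m] x := by
              rw [← Function.iterate_succ_apply]
              congr 1
              omega
            rw [h2, hfm] at h1
            exact h1
          exact uSub_index a ha ha1 c (f x) x (hUinv (c + 1) x hx) hx hfx hxc
      have h1 := iterate_sub_mem f (uSub a 0) (hUinv 0) x (ih _ hd) m
      rw [hfm, sub_self, zero_sub, neg_mem_iff] at h1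
      exact mem_of_odd_smul_mem _ _ m hm h1 (two_smul_mem_uSub_zero a _)
  have hN : ∀ j, a j ≤ ∑ i, a i := fun j => Finset.single_le_sum (fun _ _ => Nat.zero_le _)
    (Finset.mem_univ j)
  have h1 : ∀ x, f x - x ∈ mulSub a 1 := by
    intro x
    exact uSub_zero_le a _ (stage1 _ x (uSub_top a ha1 _ hN x))
  -- stage 2
  have stage2 : ∀ s, ∀ x, f x - x ∈ mulSub a (s + 1) := by
    intro s
    induction s with
    | zero => exact h1
    | succ s ih =>
      intro x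
      obtain ⟨y, hy⟩ := (mem_mulSub a _ _).mp (ih x)
      obtain ⟨y', hy'⟩ := (mem_mulSub a _ _).mp (h1 y)
      have hd : f (f x - x) - (f x - x) ∈ mulSub a (s + 1 + 1) := by
        refine (mem_mulSub a _ _).mpr ⟨y', ?_⟩
        rw [← hy, map_nsmul, ← smul_sub, ← hy', smul_smul, pow_succ, pow_one]
      have h2 := iterate_sub_mem f (mulSub a (s + 1 + 1)) (hMinv _) x hd m
      rw [hfm, sub_self, zero_sub, neg_mem_iff] at h2
      refine mem_of_odd_smul_mem _ _ m hm h2 ((mem_mulSub a _ _).mpr ⟨y, ?_⟩)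
      rw [← hy, smul_smul, pow_succ, mul_comm]
  intro x
  obtain ⟨y, hy⟩ := (mem_mulSub a _ _).mp (stage2 (∑ i, a i) x)
  have h0 : 2 ^ (∑ i, a i + 1) • y = 0 := two_pow_smul_eq_zero a _ (fun j => (hN j).trans (Nat.le_succ _)) y
  rw [h0] at hy
  exact (sub_eq_zero.mp hy.symm)

end Cfsg.Agent.Helper27
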