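import Cfsg.Agent.Helper27.TraceFix
import Cfsg.Agent.Helper27.PStable
import Cfsg.Agent.Helper26.FusionCenter
import Cfsg.Agent.Helper26.FusionNormal4
import Cfsg.Agent.Helper26.FusionSat
import Cfsg.Agent.S5145

set_option autoImplicit false

namespace Cfsg.Agent.Helper27

open Cfsg Cfsg.FusionSystem Cfsg.Agent.Helper26
open scoped IsMulCommutative

/-- The action of `Aut(Q)` on the centre of `Q`. -/
def centerAut (Q : Type*) [Group Q] : MulAut Q →* MulAut (Subgroup.center Q) where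
  toFun α :=
    { toFun := fun v => ⟨α v, by
        rw [Subgroup.mem_center_iff]
        intro g
        have h := Subgroup.mem_center_iff.1 v.2 (α⁻¹ g)
        have h2 := congrArg α h
        rw [map_mul, map_mul] at h2
        simpa using h2⟩
      invFun := fun v => ⟨α⁻¹ v, by
        rw [Subgroup.mem_center_iff]
        intro g
        have h := Subgroup.mem_center_iff.1 v.2 (α g)
        have h2 : α⁻¹ (α g * (v : Q)) = α⁻¹ ((v : Q) * α g) := by rw [h]
        rw [map_mul, map_mul] at h2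
        simpa using h2⟩
      left_inv := fun v => Subtype.ext (by simp)
      right_inv := fun v => Subtype.ext (by simp)
      map_mul' := fun v w => Subtype.ext (by simp) }
  map_one' := by ext v; rfl
  map_mul' := fun α β => by ext v; rfl

theorem centerAut_apply (Q : Type*) [Group Q] (α : MulAut Q) (v : Subgroup.center Q) :
    ((centerAut Q α v : Subgroup.center Q) : Q) = α v := rfl

variable {Ω : Type*} [Group Ω]

/-- If `Z(S) ≤ Q` for a subgroup `Q` normal in the saturated system `F`, then `Z(F)` is a direct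
factor of `Z(S)`. -/
theorem center_direct_factor {S : Subgroup Ω} [Finite S] (p : ℕ) [Fact p.Prime]
    (hS : IsPGroup p S) (F : FusionSystem S) (hF : F.IsSaturated p) (Q : Subgroup Ω)
    (hQn : F.IsNormal Q) (hZ : (S ⊓ Subgroup.centralizer (S : Set Ω)) ≤ Q) :
    ∃ K : Subgroup Ω, K ≤ (S ⊓ Subgroup.centralizer (S : Set Ω)) ∧ F.center ⊓ K = ⊥ ∧
      F.center ⊔ K = (S ⊓ Subgroup.centralizer (S : Set Ω)) := by
  have hQS : Q ≤ S := hQn.1
  have hQfin : Finite Q := finite_of_le hQS
  have hQp : IsPGroup p Q := hS.to_le hQS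
  have hQsc : F.StronglyClosed Q := stronglyClosed_of_normal F hQn
  have hfinA : Finite (MulAut Q) := inferInstance
  -- Q is fully normalized, hence fully automized
  have hQfn : F.IsFullyNormalized Q := by
    refine ⟨hQS, fun Q' hconj => ?_⟩
    obtain ⟨φ, hφ, rfl⟩ := hconj
    have hle : φ.range ≤ Q := by
      rintro _ ⟨x, rfl⟩
      exact hQsc.2 Q le_rfl φ hφ x
    have heq : φ.range = Q := by
      apply Subgroup.eq_of_le_of_card_ge hle
      exact (Nat.card_congr (Equiv.ofInjective φ (F.injective_of_mem hφ))).le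
    rw [heq]
  obtain ⟨-, R, hR⟩ := (sat_fullyNormalized p hS F hF hQfn).2
  have hRidx : ¬ p ∣ (R : Subgroup (F.autGroup Q)).index := R.not_dvd_index
  have hVp : IsPGroup p (Subgroup.center Q) := hQp.to_subgroup _
  obtain ⟨K', hK1, hK2, hK3⟩ := exists_compl_fixed
    ((centerAut Q).comp (F.autGroup Q).subtype) (R : Subgroup (F.autGroup Q)) p
    (fun g => hVp g) hRidx
  have hRmem : ∀ a : F.autGroup Q, a ∈ (R : Subgroup (F.autGroup Q)) ↔
      ∃ g ∈ S, ∀ x : Q, (((a : MulAut Q) x : Q) : Ω) = g * (x : Ω) * g⁻¹ := by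
    intro a
    rw [hR, Subgroup.mem_subgroupOf, mem_autInducedBy_iff]
  -- (F1)
  have hF1 : ∀ z ∈ (S ⊓ Subgroup.centralizer (S : Set Ω)), ∃ v : Subgroup.center Q,
      (((v : Q) : Ω) = z) ∧ ∀ a ∈ (R : Subgroup (F.autGroup Q)),
        ((centerAut Q).comp (F.autGroup Q).subtype) a v = v := by
    intro z hz
    have hzc := Subgroup.mem_centralizer_iff.1 (Subgroup.mem_inf.1 hz).2
    have hzQ : z ∈ Q := hZ hz
    have hzcen : (⟨z, hzQ⟩ : Q) ∈ Subgroup.center Q := by
      rw [Subgroup.mem_center_iff]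
      intro g
      exact Subtype.ext (hzc g (hQS g.2))
    refine ⟨⟨⟨z, hzQ⟩, hzcen⟩, rfl, fun a ha => ?_⟩
    obtain ⟨g, hg, hga⟩ := (hRmem a).1 ha
    apply Subtype.ext
    apply Subtype.ext
    show (((a : MulAut Q) ⟨z, hzQ⟩ : Q) : Ω) = z
    rw [hga]
    show g * z * g⁻¹ = z
    rw [hzc g hg, mul_inv_cancel_right]
  -- (F2)
  have hF2 : ∀ v : Subgroup.center Q, (∀ a ∈ (R : Subgroup (F.autGroup Q)),
      ((centerAut Q).comp (F.autGroup Q).subtype) a v = v) →
      ((v : Q) : Ω) ∈ (S ⊓ Subgroup.centralizer (S : Set Ω)) := by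
    intro v hv
    refine Subgroup.mem_inf.2 ⟨hQS (v : Q).2, ?_⟩
    rw [Subgroup.mem_centralizer_iff]
    intro s hs
    have hsN : s ∈ Subgroup.normalizer (Q : Set Ω) :=
      le_normalizer_of_conj_mem (fun n hn x hx => stronglyClosed_conj_mem F hQsc hn hx) hs
    have hαI : Q.normalizerMonoidHom ⟨s, hsN⟩ ∈ autInducedBy S Q :=
      mem_autInducedBy_iff.2 ⟨s, hs, fun x => rfl⟩
    have hαA : Q.normalizerMonoidHom ⟨s, hsN⟩ ∈ F.autGroup Q :=
      autInducedBy_le_autGroup F hQS hαI
    have hmem : (⟨_, hαA⟩ : F.autGroup Q) ∈ (R : Subgroup (F.autGroup Q)) :=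
      (hRmem _).2 ⟨s, hs, fun x => rfl⟩
    have h1 := hv _ hmem
    have h2 : ((((centerAut Q).comp (F.autGroup Q).subtype) ⟨_, hαA⟩ v : Subgroup.center Q) : Q)
        = (v : Q) := congrArg Subtype.val h1
    have h3 : s * ((v : Q) : Ω) * s⁻¹ = ((v : Q) : Ω) := congrArg Subtype.val h2
    calc s * ((v : Q) : Ω) = s * ((v : Q) : Ω) * s⁻¹ * s := by group
      _ = ((v : Q) : Ω) * s := by rw [h3]
  -- (F3)
  have hF3 : ∀ v : Subgroup.center Q,
      (∀ a : F.autGroup Q, ((centerAut Q).comp (F.autGroup Q).subtype) a v = v) →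
      ((v : Q) : Ω) ∈ F.center := by
    intro v hv
    have hcen : F.IsCentral (Subgroup.zpowers ((v : Q) : Ω)) := by
      apply central_of_conjElt p hS F hF (Subgroup.zpowers_le.2 (hQS (v : Q).2))
      intro x hx y hxy
      obtain ⟨φ, hφ, rfl⟩ := hxy
      have hxQ : Subgroup.zpowers x ≤ Q := by
        rw [Subgroup.zpowers_le]
        exact (Subgroup.zpowers_le.2 (v : Q).2) hx
      obtain ⟨α, hα, hαφ⟩ := (normal_iff_extend p hS F hF Q hQS).1 hQn _ hxQ φ hφ
      rw [← hαφ]
      -- x is a power of v, and α fixes v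
      obtain ⟨k, rfl⟩ := Subgroup.mem_zpowers_iff.1 hx
      have h1 := hv ⟨α, hα⟩
      have h2 : α (v : Q) = (v : Q) := congrArg Subtype.val h1
      have e : Subgroup.inclusion hxQ ⟨((v : Q) : Ω) ^ k, Subgroup.mem_zpowers _⟩ = (v : Q) ^ k :=
        Subtype.ext rfl
      rw [e, map_zpow, h2]
      rfl
    have hle : Subgroup.zpowers ((v : Q) : Ω) ≤ F.center := le_sSup hcen
    exact hle (Subgroup.mem_zpowers _)
  -- (F4)
  have hcenter : F.IsCentral F.center := center_isCentral F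
  have hF4a : F.center ≤ (S ⊓ Subgroup.centralizer (S : Set Ω)) := by
    intro z hz
    have hzS : z ∈ S := hcenter.1 hz
    refine Subgroup.mem_inf.2 ⟨hzS, ?_⟩
    rw [Subgroup.mem_centralizer_iff]
    intro s hs
    have h1 := central_fix F hcenter (F.conj_mem (le_refl S) hs) ⟨z, hzS⟩ hz
    have h3 : s * z * s⁻¹ = z := h1
    calc s * z = s * z * s⁻¹ * s := by group
      _ = z * s := by rw [h3]
  have hF4b : ∀ v : Subgroup.center Q, ((v : Q) : Ω) ∈ F.center →
      ∀ a : F.autGroup Q, ((centerAut Q).comp (F.autGroup Q).subtype) a v = v := by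
    intro v hv a
    have ha := (mem_autGroup_iff F hQS).1 a.2
    have h1 := central_fix F hcenter ha (v : Q) hv
    apply Subtype.ext
    apply Subtype.ext
    exact h1
  -- the complement
  refine ⟨K'.map (Q.subtype.comp (Subgroup.center Q).subtype), ?_, ?_, ?_⟩
  · rintro _ ⟨v, hv, rfl⟩
    exact hF2 v (hK1 v hv)
  · rw [eq_bot_iff]
    rintro x ⟨hx1, ⟨v, hv, rfl⟩⟩
    have h1 := hK2 v hv (hF4b v hx1)
    rw [h1]
    exact Subgroup.one_mem _
  · apply le_antisymm
    · apply sup_le hF4a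
      rintro _ ⟨v, hv, rfl⟩
      exact hF2 v (hK1 v hv)
    · intro z hz
      obtain ⟨v, rfl, hvR⟩ := hF1 z hz
      obtain ⟨w, k, hw, hk, rfl⟩ := hK3 v hvR
      have e : (((w * k : Subgroup.center Q) : Q) : Ω) = ((w : Q) : Ω) * ((k : Q) : Ω) := rfl
      rw [e]
      exact Subgroup.mul_mem _ (Subgroup.mem_sup_left (hF3 w hw))
        (Subgroup.mem_sup_right ⟨k, hk, rfl⟩)

end Cfsg.Agent.Helper27
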