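import Mathlib

set_option autoImplicit false

namespace Cfsg.Agent.Helper27

/-- Coprime action on an abelian group: `S = C_S(A) × [S, A]`. -/
theorem coprime_abelian_decomp {S : Type*} [Group S] [Finite S] (hab : ∀ x y : S, x * y = y * x)
    (A : Subgroup (MulAut S)) [Finite A] (hco : (Nat.card A).Coprime (Nat.card S))
    (C D : Subgroup S) (hC : ∀ s, s ∈ C ↔ ∀ α ∈ A, α s = s)
    (hD : D = Subgroup.closure {y | ∃ α ∈ A, ∃ s : S, y = s⁻¹ * α s}) :
    C ⊓ D = ⊥ ∧ C ⊔ D = ⊤ := by
  let _ : CommGroup S := { (inferInstance : Group S) with mul_comm := hab }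
  have : Fintype A := Fintype.ofFinite A
  let N : S →* S :=
    { toFun := fun s => ∏ α : A, (α : MulAut S) s
      map_one' := by simp
      map_mul' := by intro x y; simp [Finset.prod_mul_distrib] }
  have hNdef : ∀ s, N s = ∏ α : A, (α : MulAut S) s := fun s => rfl
  have hN1 : ∀ s, N s ∈ C := by
    intro s
    rw [hC]
    intro β hβ
    rw [hNdef, map_prod]
    exact Fintype.prod_equiv (Equiv.mulLeft (⟨β, hβ⟩ : A)) (fun α : A => β ((α : MulAut S) s))
      (fun α : A => (α : MulAut S) s) (fun α => rfl)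
  have hN2 : ∀ (β : MulAut S) (hβ : β ∈ A) (s : S), N (β s) = N s := by
    intro β hβ s
    rw [hNdef, hNdef]
    exact Fintype.prod_equiv (Equiv.mulRight (⟨β, hβ⟩ : A)) (fun α : A => (α : MulAut S) (β s))
      (fun α : A => (α : MulAut S) s) (fun α => rfl)
  have hND : ∀ d ∈ D, N d = 1 := by
    intro d hd
    rw [hD] at hd
    have hle : Subgroup.closure {y | ∃ α ∈ A, ∃ s : S, y = s⁻¹ * α s} ≤ N.ker := by
      rw [Subgroup.closure_le]
      rintro y ⟨α, hα, s, rfl⟩
      rw [SetLike.mem_coe, MonoidHom.mem_ker, map_mul, map_inv, hN2 α hα, inv_mul_cancel]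
    exact hle hd
  have hNC : ∀ c ∈ C, N c = c ^ Nat.card A := by
    intro c hc
    rw [hNdef, Finset.prod_congr rfl (fun α _ => (hC c).mp hc α.1 α.2), Finset.prod_const,
      Finset.card_univ, Nat.card_eq_fintype_card]
  have hdecomp : ∀ t : S, ∃ d ∈ D, t ^ Nat.card A = N t * d := by
    intro t
    refine ⟨∏ α : A, (t * ((α : MulAut S) t)⁻¹), ?_, ?_⟩
    · apply Subgroup.prod_mem
      intro α _
      have e : t * ((α : MulAut S) t)⁻¹ = (t⁻¹ * (α : MulAut S) t)⁻¹ := by
        rw [mul_inv_rev, inv_inv, mul_comm]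
      rw [e, hD]
      exact Subgroup.inv_mem _ (Subgroup.subset_closure ⟨α, α.2, t, rfl⟩)
    · rw [hNdef, ← Finset.prod_mul_distrib]
      have e : ∀ α : A, (α : MulAut S) t * (t * ((α : MulAut S) t)⁻¹) = t := by
        intro α
        rw [mul_comm t, mul_inv_cancel_left]
      rw [Finset.prod_congr rfl (fun α _ => e α), Finset.prod_const, Finset.card_univ,
        Nat.card_eq_fintype_card]
  constructor
  · rw [eq_bot_iff]
    rintro c ⟨hcC, hcD⟩
    have h1 : c ^ Nat.card A = 1 := by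
      rw [← hNC c hcC]
      exact hND c hcD
    have h2 : orderOf c ∣ Nat.card A := orderOf_dvd_of_pow_eq_one h1
    have h3 : orderOf c ∣ Nat.card S := orderOf_dvd_natCard c
    have h4 : orderOf c = 1 := Nat.eq_one_of_dvd_coprimes hco h2 h3
    exact Subgroup.mem_bot.mpr (orderOf_eq_one_iff.mp h4)
  · rw [eq_top_iff]
    intro s _
    obtain ⟨t, rfl⟩ := (powCoprime hco.symm).surjective s
    obtain ⟨d, hd, he⟩ := hdecomp t
    rw [powCoprime_apply, he]
    exact Subgroup.mul_mem_sup (hN1 t) hd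

end Cfsg.Agent.Helper27
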