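import Mathlib
import Cfsg.Agent.S2167

set_option autoImplicit false
open Matrix

namespace Cfsg.Agent.Helper27

/-- For an isometry `A` of a nondegenerate alternating form `P`, the even powers of `A - 1`
have even rank. -/
theorem symp_rank_even {F : Type*} [Field F] {m : ℕ}
    (A P : Matrix (Fin m ⊕ Fin m) (Fin m ⊕ Fin m) F)
    (halt : ∀ v, v ⬝ᵥ P *ᵥ v = 0) (hdet : P.det ≠ 0) (hA : Aᵀ * P * A = P)
    (k : ℕ) (hk : Even k) : Even ((A - 1) ^ k).rank := by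
  classical
  obtain ⟨i, rfl⟩ := hk
  have hdetA : A.det ≠ 0 := by
    intro h0
    have h := congrArg Matrix.det hA
    rw [Matrix.det_mul, Matrix.det_mul, h0, mul_zero] at h
    exact hdet h.symm
  have hAu : IsUnit A.det := isUnit_iff_ne_zero.mpr hdetA
  have hAinv : A * A⁻¹ = 1 := Matrix.mul_nonsing_inv A hAu
  have hAinv' : A⁻¹ * A = 1 := Matrix.nonsing_inv_mul A hAu
  have h1 : Aᵀ * P = P * A⁻¹ := by
    calc Aᵀ * P = Aᵀ * P * (A * A⁻¹) := by rw [hAinv, Matrix.mul_one]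
      _ = (Aᵀ * P * A) * A⁻¹ := by simp only [Matrix.mul_assoc]
      _ = P * A⁻¹ := by rw [hA]
  have h2 : (A - 1)ᵀ * P = P * (A⁻¹ - 1) := by
    rw [Matrix.transpose_sub, Matrix.transpose_one, Matrix.sub_mul, Matrix.one_mul, h1,
      Matrix.mul_sub, Matrix.mul_one]
  have h3 : ∀ j : ℕ, ((A - 1)ᵀ) ^ j * P = P * (A⁻¹ - 1) ^ j := by
    intro j
    induction j with
    | zero => simp
    | succ j ih =>
      rw [pow_succ, Matrix.mul_assoc, h2, ← Matrix.mul_assoc, ih, Matrix.mul_assoc, ← pow_succ]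
  have h4 : A⁻¹ - 1 = (-A⁻¹) * (A - 1) := by
    rw [Matrix.mul_sub, Matrix.mul_one, Matrix.neg_mul, hAinv']
    abel
  have hcomm0 : Commute A⁻¹ (A - 1) := by
    have hc : Commute A⁻¹ A := hAinv'.trans hAinv.symm
    exact hc.sub_right (Commute.one_right _)
  have hcomm : Commute (-A⁻¹) (A - 1) := hcomm0.neg_left
  have h5 : (A⁻¹ - 1) ^ i = (-A⁻¹) ^ i * (A - 1) ^ i := by
    rw [h4, hcomm.mul_pow]
  have hS : ((A - 1) ^ i)ᵀ * P * (A - 1) ^ i = (P * (-A⁻¹) ^ i) * (A - 1) ^ (i + i) := by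
    rw [Matrix.transpose_pow, h3 i, h5, pow_add]
    simp only [Matrix.mul_assoc]
  have hSalt : ∀ v, v ⬝ᵥ (((A - 1) ^ i)ᵀ * P * (A - 1) ^ i) *ᵥ v = 0 := by
    intro v
    have h := halt (((A - 1) ^ i) *ᵥ v)
    have e : v ⬝ᵥ (((A - 1) ^ i)ᵀ * P * (A - 1) ^ i) *ᵥ v =
        (((A - 1) ^ i) *ᵥ v) ⬝ᵥ P *ᵥ (((A - 1) ^ i) *ᵥ v) := by
      rw [← Matrix.mulVec_mulVec, ← Matrix.mulVec_mulVec, Matrix.dotProduct_mulVec,
        Matrix.vecMul_transpose]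
    rw [e]; exact h
  have hev := Cfsg.Agent.S2167.even_rank_of_alt _ hSalt
  have hPu : IsUnit P := (Matrix.isUnit_iff_isUnit_det P).2 (isUnit_iff_ne_zero.mpr hdet)
  have hAiu : IsUnit A⁻¹ :=
    (Matrix.isUnit_iff_isUnit_det A⁻¹).2 ((Matrix.isUnit_nonsing_inv_det_iff).2 hAu)
  have hunit : IsUnit (P * (-A⁻¹) ^ i).det :=
    (Matrix.isUnit_iff_isUnit_det _).1 (hPu.mul (hAiu.neg.pow i))
  rw [hS, Matrix.rank_mul_eq_right_of_isUnit_det _ _ hunit] at hev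
  exact hev

end Cfsg.Agent.Helper27
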