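import Cfsg.Agent.Helper27.RelAlperin

set_option autoImplicit false

namespace Cfsg.Agent.Helper27

open Cfsg Cfsg.FusionSystem Cfsg.Agent.Helper26

variable {Ω : Type*} [Group Ω] {S : Subgroup Ω}

/-- A map of `F` whose source contains the strongly closed `T` maps `T` onto `T`. -/
theorem stronglyClosed_surj [Finite S] (F : FusionSystem S) {T : Subgroup Ω}
    (hT : F.StronglyClosed T) {P : Subgroup Ω} {ψ : P →* Ω} (hψ : ψ ∈ F.Hom P) (hTP : T ≤ P) :
    ∀ t ∈ T, ∃ t' : P, (t' : Ω) ∈ T ∧ ψ t' = t := by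
  have hTfin : Finite T := finite_of_le hT.1
  let f : T → T := fun t => ⟨ψ ⟨t, hTP t.2⟩, (stronglyClosed_mem_iff F hT hψ ⟨t, hTP t.2⟩).1 t.2⟩
  have hinj : Function.Injective f := by
    intro a b hab
    have h0 : ψ ⟨a, hTP a.2⟩ = ψ ⟨b, hTP b.2⟩ := congrArg (fun z : T => (z : Ω)) hab
    have h1 := F.injective_of_mem hψ h0
    have h2 : (a : Ω) = b := congrArg (fun z : P => (z : Ω)) h1
    exact Subtype.ext h2
  have hsurj : Function.Surjective f := Finite.injective_iff_surjective.mp hinj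
  intro t ht
  obtain ⟨t', ht'⟩ := hsurj ⟨t, ht⟩
  exact ⟨⟨t', hTP t'.2⟩, t'.2, congrArg (fun z : T => (z : Ω)) ht'⟩

/-- The maps `φ` of `F` that lift modulo `T` to a map of `F` on `P ⊔ T`. -/
def liftSys [Finite S] (F : FusionSystem S) (T : Subgroup Ω) (hT : F.StronglyClosed T) :
    FusionSystem S where
  Hom P := {φ | φ ∈ F.Hom P ∧ ∃ ψ ∈ F.Hom (P ⊔ T),
    ∀ x : P, ψ (Subgroup.inclusion le_sup_left x) * (φ x)⁻¹ ∈ T}
  le_of_mem := fun h => F.le_of_mem h.1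
  injective_of_mem := fun h => F.injective_of_mem h.1
  conj_mem := by
    intro P g hP hg
    refine ⟨F.conj_mem hP hg, conjHom (P ⊔ T) g, F.conj_mem (sup_le hP hT.1) hg, fun x => ?_⟩
    have e : conjHom (P ⊔ T) g (Subgroup.inclusion le_sup_left x) * (conjHom P g x)⁻¹ = 1 := by
      rw [conjHom_apply, conjHom_apply]
      exact mul_inv_cancel _
    rw [e]; exact T.one_mem
  comp_mem := by
    intro P Q φ φ' hφ hφ' h
    obtain ⟨hφF, ψ, hψ, hl⟩ := hφ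
    obtain ⟨hφ'F, ψ', hψ', hl'⟩ := hφ'
    refine ⟨F.comp_mem hφF hφ'F h, ?_⟩
    have hmap : ∀ y : ↥(P ⊔ T), ψ y ∈ Q ⊔ T := by
      apply forall_sup_mem ψ
      · intro a ha
        have h1 := hl ⟨a, ha⟩
        have e : ψ ⟨a, (le_sup_left : P ≤ P ⊔ T) ha⟩ =
            (ψ (Subgroup.inclusion le_sup_left ⟨a, ha⟩) * (φ ⟨a, ha⟩)⁻¹) * φ ⟨a, ha⟩ := by
          rw [inv_mul_cancel_right]; rfl
        rw [e]
        exact Subgroup.mul_mem _ (Subgroup.mem_sup_right h1) (Subgroup.mem_sup_left (h _))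
      · intro b hb
        exact Subgroup.mem_sup_right ((stronglyClosed_mem_iff F hT hψ ⟨b, _⟩).1 hb)
    refine ⟨ψ'.comp (ψ.codRestrict (Q ⊔ T) hmap), F.comp_mem hψ hψ' hmap, fun x => ?_⟩
    have hx1 := hl x
    have hx2 := hl' ⟨φ x, h x⟩
    have hz : ((⟨ψ (Subgroup.inclusion le_sup_left x), hmap _⟩ *
        (Subgroup.inclusion le_sup_left ⟨φ x, h x⟩)⁻¹ : ↥(Q ⊔ T)) : Ω) ∈ T := hx1
    have hz' := (stronglyClosed_mem_iff F hT hψ' _).1 hz
    rw [map_mul, map_inv] at hz'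
    have e : (ψ'.comp (ψ.codRestrict (Q ⊔ T) hmap)) (Subgroup.inclusion le_sup_left x) *
        ((φ'.comp (φ.codRestrict Q h)) x)⁻¹ =
        (ψ' ⟨ψ (Subgroup.inclusion le_sup_left x), hmap _⟩ *
          (ψ' (Subgroup.inclusion le_sup_left ⟨φ x, h x⟩))⁻¹) *
        (ψ' (Subgroup.inclusion le_sup_left ⟨φ x, h x⟩) * (φ' ⟨φ x, h x⟩)⁻¹) := by
      show ψ' ⟨ψ (Subgroup.inclusion le_sup_left x), hmap _⟩ * (φ' ⟨φ x, h x⟩)⁻¹ = _
      group
    rw [e]
    exact T.mul_mem hz' hx2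
  inv_mem := by
    intro P φ hφ
    obtain ⟨hφF, ψ, hψ, hl⟩ := hφ
    obtain ⟨φi, hφi, hinv⟩ := F.inv_mem hφF
    refine ⟨φi, ⟨hφi, ?_⟩, hinv⟩
    obtain ⟨ψi, hψi, hinvψ⟩ := F.inv_mem hψ
    have hTr : T ≤ ψ.range := by
      intro t ht
      obtain ⟨t', -, ht'⟩ := stronglyClosed_surj F hT hψ le_sup_right t ht
      exact ⟨t', ht'⟩
    have hle : φ.range ⊔ T ≤ ψ.range := by
      refine sup_le ?_ hTr
      rintro _ ⟨x, rfl⟩
      have h1 := hl x
      have e : φ x = (ψ (Subgroup.inclusion le_sup_left x) * (φ x)⁻¹)⁻¹ *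
          ψ (Subgroup.inclusion le_sup_left x) := by group
      rw [e]
      exact Subgroup.mul_mem _ (Subgroup.inv_mem _ (hTr h1)) ⟨_, rfl⟩
    refine ⟨ψi.comp (Subgroup.inclusion hle), restrict_mem F hψi hle (fun _ => rfl), ?_⟩
    rintro ⟨_, x, rfl⟩
    rw [hinv x]
    have h1 := hl x
    have hmemT : ψ (Subgroup.inclusion le_sup_left x) * (φ x)⁻¹ ∈ ψ.range := hTr h1
    have h2 : ψi ⟨ψ (Subgroup.inclusion le_sup_left x) * (φ x)⁻¹, hmemT⟩ ∈ T :=
      (stronglyClosed_mem_iff F hT hψi ⟨_, hmemT⟩).1 h1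
    have hφr : φ x ∈ ψ.range := hle (Subgroup.mem_sup_left ⟨x, rfl⟩)
    have e1 : (⟨ψ (Subgroup.inclusion le_sup_left x) * (φ x)⁻¹, hmemT⟩ : ψ.range) =
        ⟨ψ (Subgroup.inclusion le_sup_left x), ⟨_, rfl⟩⟩ * (⟨φ x, hφr⟩ : ψ.range)⁻¹ :=
      Subtype.ext rfl
    rw [e1, map_mul, map_inv, hinvψ] at h2
    have e2 : (ψi.comp (Subgroup.inclusion hle))
        (Subgroup.inclusion le_sup_left ⟨φ x, ⟨x, rfl⟩⟩) * (x : Ω)⁻¹ =
        (((Subgroup.inclusion le_sup_left x : ↥(P ⊔ T)) : Ω) * (ψi ⟨φ x, hφr⟩)⁻¹)⁻¹ := by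
      show ψi ⟨φ x, hφr⟩ * (x : Ω)⁻¹ = ((x : Ω) * (ψi ⟨φ x, hφr⟩)⁻¹)⁻¹
      group
    rw [e2]
    exact T.inv_mem h2

/-- Lifting modulo a strongly closed subgroup: every map `φ : P → S` of the saturated system `F`
agrees modulo `T` with a map of `F` defined on `P T`. -/
theorem exists_lift_mod [Finite S] (p : ℕ) [Fact p.Prime] (hS : IsPGroup p S) (F : FusionSystem S)
    (hF : F.IsSaturated p) {T : Subgroup Ω} (hT : F.StronglyClosed T) {P : Subgroup Ω}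
    {φ : P →* Ω} (hφ : φ ∈ F.Hom P) :
    ∃ ψ ∈ F.Hom (P ⊔ T), ∀ x : P, ψ (Subgroup.inclusion le_sup_left x) * (φ x)⁻¹ ∈ T := by
  have hle : F ≤ liftSys F T hT := by
    apply rel_alperin p hS F hF hT
    · intro U hU hTU α hα
      have hUS : U ≤ S := by
        rcases hU with rfl | hess
        · exact le_rfl
        · exact hess.1.1
      rw [mem_autGroup_iff _ hUS]
      have hαF := (mem_autGroup_iff F hUS).1 hα
      refine ⟨hαF, (U.subtype.comp α.toMonoidHom).comp (Subgroup.inclusion (sup_le le_rfl hTU)),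
        restrict_mem F hαF (sup_le le_rfl hTU) (fun _ => rfl), fun x => ?_⟩
      have e : ((U.subtype.comp α.toMonoidHom).comp (Subgroup.inclusion (sup_le le_rfl hTU)))
          (Subgroup.inclusion le_sup_left x) * ((U.subtype.comp α.toMonoidHom) x)⁻¹ = 1 := by
        show ((α x : U) : Ω) * ((α x : U) : Ω)⁻¹ = 1
        exact mul_inv_cancel _
      rw [e]; exact T.one_mem
    · intro U hess α hα hc
      have hUS : U ≤ S := hess.1.1
      rw [mem_autGroup_iff _ hUS]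
      refine ⟨(mem_autGroup_iff F hUS).1 hα, (U ⊔ T).subtype, incl_mem F (sup_le hUS hT.1),
        fun x => ?_⟩
      have e : (U ⊔ T).subtype (Subgroup.inclusion le_sup_left x) *
          ((U.subtype.comp α.toMonoidHom) x)⁻¹ = (((α x : U) : Ω) * (x : Ω)⁻¹)⁻¹ := by
        show (x : Ω) * ((α x : U) : Ω)⁻¹ = _
        group
      rw [e]; exact T.inv_mem (hc x)
  exact (hle P hφ).2

end Cfsg.Agent.Helper27
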