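import Mathlib

set_option autoImplicit false

namespace Cfsg.Agent.Helper27

/-- A nilpotent subgroup `P × C₃` of `A_n` built from a Sylow `2`-subgroup `P` of `A_{n-3}`. -/
theorem alt3_exists (n : ℕ) (hn : 3 ≤ n) (P : Sylow 2 (alternatingGroup (Fin (n - 3)))) :
    ∃ M : Subgroup (alternatingGroup (Fin n)), Group.IsNilpotent M ∧ Nat.card M = 3 * Nat.card P ∧
      Nonempty (M ≃* (↥(P : Subgroup (alternatingGroup (Fin (n - 3)))) × Multiplicative (ZMod 3))) := by
  classical
  haveI : Fact (Nat.Prime 2) := ⟨Nat.prime_two⟩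
  have hcardC : Fintype.card (Multiplicative (ZMod 3)) = 3 := by
    rw [Fintype.card_multiplicative, ZMod.card]
  have hcard : Fintype.card (Fin (n - 3) ⊕ Multiplicative (ZMod 3)) = n := by
    rw [Fintype.card_sum, Fintype.card_fin, hcardC]; omega
  let e : Fin (n - 3) ⊕ Multiplicative (ZMod 3) ≃ Fin n := Fintype.equivFinOfCardEq hcard
  let c : Multiplicative (ZMod 3) →* Equiv.Perm (Multiplicative (ZMod 3)) :=
    MulAction.toPermHom (Multiplicative (ZMod 3)) (Multiplicative (ZMod 3))
  have hc : Function.Injective c := by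
    intro a b hab
    have h1 := congrArg (fun σ : Equiv.Perm (Multiplicative (ZMod 3)) => σ 1) hab
    simpa [c, MulAction.toPermHom] using h1
  have hcsign : ∀ y : Multiplicative (ZMod 3), Equiv.Perm.sign (c y) = 1 := by
    intro y
    have hy3 : y ^ 3 = 1 := by
      have := pow_card_eq_one (G := Multiplicative (ZMod 3)) (x := y)
      rwa [hcardC] at this
    have h3 : Equiv.Perm.sign (c y) ^ 3 = 1 := by
      rw [← map_pow, ← map_pow, hy3, map_one, map_one]
    rcases Int.units_eq_one_or (Equiv.Perm.sign (c y)) with h | h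
    · exact h
    · rw [h] at h3
      exact absurd h3 (by decide)
  let g : alternatingGroup (Fin (n - 3)) × Multiplicative (ZMod 3) →* Equiv.Perm (Fin n) :=
    (e.permCongrHom.toMonoidHom.comp
      (Equiv.Perm.sumCongrHom (Fin (n - 3)) (Multiplicative (ZMod 3)))).comp
      (MonoidHom.prodMap (alternatingGroup (Fin (n - 3))).subtype c)
  have hg : Function.Injective g := by
    intro x y hxy
    have h1 : (Equiv.Perm.sumCongrHom (Fin (n - 3)) (Multiplicative (ZMod 3)))
        ((MonoidHom.prodMap (alternatingGroup (Fin (n - 3))).subtype c) x) =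
        (Equiv.Perm.sumCongrHom (Fin (n - 3)) (Multiplicative (ZMod 3)))
        ((MonoidHom.prodMap (alternatingGroup (Fin (n - 3))).subtype c) y) :=
      e.permCongrHom.injective hxy
    have h2 := Equiv.Perm.sumCongrHom_injective h1
    have h3 : (x.1 : Equiv.Perm (Fin (n - 3))) = y.1 := (Prod.ext_iff.1 h2).1
    have h4 : c x.2 = c y.2 := (Prod.ext_iff.1 h2).2
    exact Prod.ext (Subtype.ext h3) (hc h4)
  have hmem : ∀ x, g x ∈ alternatingGroup (Fin n) := by
    intro x
    rw [Equiv.Perm.mem_alternatingGroup]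
    have h1 : g x = e.permCongr (Equiv.sumCongr (x.1 : Equiv.Perm (Fin (n - 3))) (c x.2)) := rfl
    rw [h1, Equiv.Perm.sign_permCongr, Equiv.Perm.sign_sumCongr, hcsign,
      Equiv.Perm.mem_alternatingGroup.1 x.1.2, mul_one]
  let F : alternatingGroup (Fin (n - 3)) × Multiplicative (ZMod 3) →* alternatingGroup (Fin n) :=
    g.codRestrict (alternatingGroup (Fin n)) hmem
  have hF : Function.Injective F := by
    intro x y hxy
    apply hg
    exact congrArg Subtype.val hxy
  let PT : Subgroup (alternatingGroup (Fin (n - 3)) × Multiplicative (ZMod 3)) :=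
    (P : Subgroup (alternatingGroup (Fin (n - 3)))).prod ⊤
  let E1 : ↥(PT.map F) ≃* ↥PT := (PT.equivMapOfInjective F hF).symm
  let E2 : ↥PT ≃* ↥(P : Subgroup (alternatingGroup (Fin (n - 3)))) ×
      ↥(⊤ : Subgroup (Multiplicative (ZMod 3))) :=
    Subgroup.prodEquiv (P : Subgroup (alternatingGroup (Fin (n - 3)))) ⊤
  let E3 : ↥(P : Subgroup (alternatingGroup (Fin (n - 3)))) ×
      ↥(⊤ : Subgroup (Multiplicative (ZMod 3))) ≃*
      ↥(P : Subgroup (alternatingGroup (Fin (n - 3)))) × Multiplicative (ZMod 3) :=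
    MulEquiv.prodCongr (MulEquiv.refl _) Subgroup.topEquiv
  let E : ↥(PT.map F) ≃*
      ↥(P : Subgroup (alternatingGroup (Fin (n - 3)))) × Multiplicative (ZMod 3) :=
    (E1.trans E2).trans E3
  refine ⟨PT.map F, ?_, ?_, ⟨E⟩⟩
  · haveI : Group.IsNilpotent ↥(P : Subgroup (alternatingGroup (Fin (n - 3)))) :=
      IsPGroup.isNilpotent P.isPGroup'
    haveI : Group.IsNilpotent
        (↥(P : Subgroup (alternatingGroup (Fin (n - 3)))) × Multiplicative (ZMod 3)) :=
      inferInstance
    exact (Group.isNilpotent_congr E).2 inferInstance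
  · rw [Nat.card_congr E.toEquiv, Nat.card_prod,
      Nat.card_eq_fintype_card (α := Multiplicative (ZMod 3)), hcardC, mul_comm]

end Cfsg.Agent.Helper27
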