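import Mathlib

set_option autoImplicit false

namespace Cfsg.Agent.Helper27

/-- A nilpotent subgroup `P × C₃` of `S_n` built from a Sylow `2`-subgroup `P` of `S_{n-3}`. -/
theorem exists_nil_three_mul (n : ℕ) (hn : 3 ≤ n) (P : Sylow 2 (Equiv.Perm (Fin (n - 3)))) :
    ∃ M : Subgroup (Equiv.Perm (Fin n)), Group.IsNilpotent M ∧ Nat.card M = 3 * Nat.card P ∧
      Nonempty (M ≃* (↥(P : Subgroup (Equiv.Perm (Fin (n - 3)))) × Multiplicative (ZMod 3))) := by
  classical
  haveI : Fact (Nat.Prime 2) := ⟨Nat.prime_two⟩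
  have hcardC : Fintype.card (Multiplicative (ZMod 3)) = 3 := by
    rw [Fintype.card_multiplicative, ZMod.card]
  have hcard : Fintype.card (Fin (n - 3) ⊕ Multiplicative (ZMod 3)) = n := by
    rw [Fintype.card_sum, Fintype.card_fin, hcardC]; omega
  let e : Fin (n - 3) ⊕ Multiplicative (ZMod 3) ≃ Fin n := Fintype.equivFinOfCardEq hcard
  let c : Multiplicative (ZMod 3) →* Equiv.Perm (Multiplicative (ZMod 3)) :=
    MulAction.toPermHom (Multiplicative (ZMod 3)) (Multiplicative (ZMod 3))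
  have hc : Function.Injective c := by
    intro a b hab
    have h1 := congrArg (fun σ : Equiv.Perm (Multiplicative (ZMod 3)) => σ 1) hab
    simpa [c, MulAction.toPermHom] using h1
  let f : Equiv.Perm (Fin (n - 3)) × Multiplicative (ZMod 3) →* Equiv.Perm (Fin n) :=
    (e.permCongrHom.toMonoidHom.comp
      (Equiv.Perm.sumCongrHom (Fin (n - 3)) (Multiplicative (ZMod 3)))).comp
      (MonoidHom.prodMap (MonoidHom.id (Equiv.Perm (Fin (n - 3)))) c)
  have hf : Function.Injective f := by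
    intro x y hxy
    have h1 : (Equiv.Perm.sumCongrHom (Fin (n - 3)) (Multiplicative (ZMod 3)))
        ((MonoidHom.prodMap (MonoidHom.id (Equiv.Perm (Fin (n - 3)))) c) x) =
        (Equiv.Perm.sumCongrHom (Fin (n - 3)) (Multiplicative (ZMod 3)))
        ((MonoidHom.prodMap (MonoidHom.id (Equiv.Perm (Fin (n - 3)))) c) y) :=
      e.permCongrHom.injective hxy
    have h2 := Equiv.Perm.sumCongrHom_injective h1
    have h3 : x.1 = y.1 := (Prod.ext_iff.1 h2).1
    have h4 : c x.2 = c y.2 := (Prod.ext_iff.1 h2).2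
    exact Prod.ext h3 (hc h4)
  let PT : Subgroup (Equiv.Perm (Fin (n - 3)) × Multiplicative (ZMod 3)) :=
    (P : Subgroup (Equiv.Perm (Fin (n - 3)))).prod ⊤
  let E1 : ↥(PT.map f) ≃* ↥PT := (PT.equivMapOfInjective f hf).symm
  let E2 : ↥PT ≃* ↥(P : Subgroup (Equiv.Perm (Fin (n - 3)))) ×
      ↥(⊤ : Subgroup (Multiplicative (ZMod 3))) :=
    Subgroup.prodEquiv (P : Subgroup (Equiv.Perm (Fin (n - 3)))) ⊤
  let E3 : ↥(P : Subgroup (Equiv.Perm (Fin (n - 3)))) ×
      ↥(⊤ : Subgroup (Multiplicative (ZMod 3))) ≃*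
      ↥(P : Subgroup (Equiv.Perm (Fin (n - 3)))) × Multiplicative (ZMod 3) :=
    MulEquiv.prodCongr (MulEquiv.refl _) Subgroup.topEquiv
  let E : ↥(PT.map f) ≃* ↥(P : Subgroup (Equiv.Perm (Fin (n - 3)))) × Multiplicative (ZMod 3) :=
    (E1.trans E2).trans E3
  refine ⟨PT.map f, ?_, ?_, ⟨E⟩⟩
  · haveI : Group.IsNilpotent ↥(P : Subgroup (Equiv.Perm (Fin (n - 3)))) :=
      IsPGroup.isNilpotent P.isPGroup'
    haveI : Group.IsNilpotent
        (↥(P : Subgroup (Equiv.Perm (Fin (n - 3)))) × Multiplicative (ZMod 3)) := inferInstance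
    exact (Group.isNilpotent_congr E).2 inferInstance
  · rw [Nat.card_congr E.toEquiv, Nat.card_prod, Nat.card_eq_fintype_card (α := Multiplicative (ZMod 3)),
      hcardC, mul_comm]

end Cfsg.Agent.Helper27
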