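import Cfsg.Agent.Helper27.PStable

set_option autoImplicit false

namespace Cfsg.Agent.Helper27

open Cfsg Cfsg.FusionSystem

/-- intrinsic description of `O_p(A)` for a subgroup `A`, as a subgroup of the ambient group. -/
theorem mem_map_pCore_iff {p : ℕ} [Fact p.Prime] {G : Type*} [Group G] (A : Subgroup G) (x : G) :
    x ∈ (pCore p ↥A).map A.subtype ↔
      ∃ K : Subgroup G, K ≤ A ∧ A ≤ Subgroup.normalizer (K : Set G) ∧ IsPGroup p K ∧ x ∈ K := by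
  constructor
  · intro hx
    refine ⟨(pCore p ↥A).map A.subtype, Subgroup.map_subtype_le _, ?_,
      (pCore_isPGroup p ↥A).map A.subtype, hx⟩
    apply le_normalizer_of_conj_mem
    rintro n hn _ ⟨k, hk, rfl⟩
    exact ⟨⟨n, hn⟩ * k * ⟨n, hn⟩⁻¹, (pCore_normal' p ↥A).conj_mem k hk ⟨n, hn⟩, rfl⟩
  · rintro ⟨K, hKA, hAK, hKp, hxK⟩
    have hN : (K.subgroupOf A).Normal := by
      refine ⟨?_⟩
      intro k hk n
      rw [Subgroup.mem_subgroupOf] at hk ⊢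
      have h1 := (Subgroup.mem_normalizer_iff.mp (hAK n.2) (k : G)).mp hk
      simpa using h1
    have hP : IsPGroup p (K.subgroupOf A) := hKp.comap_subtype
    have := le_pCore hN hP (show (⟨x, hKA hxK⟩ : ↥A) ∈ K.subgroupOf A from
      Subgroup.mem_subgroupOf.mpr hxK)
    exact ⟨⟨x, hKA hxK⟩, this, rfl⟩

theorem map_pCore_mono {p : ℕ} [Fact p.Prime] {G : Type*} [Group G] {A B : Subgroup G}
    (hAB : A ≤ B) {x : G} (hxA : x ∈ A) (hx : x ∈ (pCore p ↥B).map B.subtype) :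
    x ∈ (pCore p ↥A).map A.subtype := by
  rw [mem_map_pCore_iff] at hx ⊢
  obtain ⟨K, -, hBK, hKp, hxK⟩ := hx
  refine ⟨K ⊓ A, inf_le_right, ?_, hKp.to_le inf_le_left, ⟨hxK, hxA⟩⟩
  apply le_normalizer_of_conj_mem
  rintro n hn y ⟨hyK, hyA⟩
  exact ⟨(Subgroup.mem_normalizer_iff.mp (hBK (hAB hn)) y).mp hyK,
    A.mul_mem (A.mul_mem hn hyA) (A.inv_mem hn)⟩

theorem map_pCore_transport {p : ℕ} [Fact p.Prime] {G G' : Type*} [Group G] [Group G']
    (Φ : G ≃* G') (A : Subgroup G) (A' : Subgroup G') (h1 : ∀ a ∈ A, Φ a ∈ A')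
    (h2 : ∀ a' ∈ A', Φ.symm a' ∈ A) {x : G} (hx : x ∈ (pCore p ↥A).map A.subtype) :
    Φ x ∈ (pCore p ↥A').map A'.subtype := by
  rw [mem_map_pCore_iff] at hx ⊢
  obtain ⟨K, hKA, hAK, hKp, hxK⟩ := hx
  refine ⟨K.map Φ.toMonoidHom, ?_, ?_, hKp.map _, ⟨x, hxK, rfl⟩⟩
  · rintro _ ⟨k, hk, rfl⟩
    exact h1 k (hKA hk)
  · apply le_normalizer_of_conj_mem
    rintro n hn _ ⟨k, hk, rfl⟩
    refine ⟨Φ.symm n * k * (Φ.symm n)⁻¹, ?_, ?_⟩
    · exact (Subgroup.mem_normalizer_iff.mp (hAK (h2 n hn)) k).mp hk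
    · show Φ (Φ.symm n * k * (Φ.symm n)⁻¹) = n * Φ k * n⁻¹
      simp

/-- a quadratic automorphism of a finite group has order dividing the order of the group. -/
theorem quad_pow_card {Q : Type*} [Group Q] [Finite Q] (χ : MulAut Q)
    (h : ∀ a : Q, χ a⁻¹ * a * χ a⁻¹ * χ (χ a) = 1) : χ ^ Nat.card Q = 1 := by
  have hfix : ∀ a : Q, χ (a⁻¹ * χ a) = a⁻¹ * χ a := by
    intro a
    have h1 := h a
    rw [mul_assoc, ← map_mul] at h1
    have h2 := eq_inv_of_mul_eq_one_right h1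
    rw [h2, mul_inv_rev, map_inv, inv_inv]
  have hpow : ∀ k : ℕ, ∀ a : Q, (χ ^ k) a = a * (a⁻¹ * χ a) ^ k := by
    intro k
    induction k with
    | zero => intro a; simp
    | succ k ih =>
      intro a
      rw [pow_succ', MulAut.mul_apply, ih, map_mul, map_pow, hfix, pow_succ', ← mul_assoc,
        mul_inv_cancel_left]
  ext a
  rw [hpow, pow_card_eq_one', mul_one]
  rfl

theorem quad_congr {Q Q' : Type*} [Group Q] [Group Q'] (e : Q ≃* Q') (χ : MulAut Q)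
    (h : ∀ a : Q, χ a⁻¹ * a * χ a⁻¹ * χ (χ a) = 1) :
    ∀ b : Q', (MulAut.congr e χ) b⁻¹ * b * (MulAut.congr e χ) b⁻¹ *
      (MulAut.congr e χ) ((MulAut.congr e χ) b) = 1 := by
  intro b
  obtain ⟨a, rfl⟩ := e.surjective b
  have h1 : ∀ y : Q, (MulAut.congr e χ) (e y) = e (χ y) := by
    intro y
    show e (χ (e.symm (e y))) = e (χ y)
    rw [MulEquiv.symm_apply_apply]
  rw [← map_inv, h1, h1, h1, ← map_mul, ← map_mul, ← map_mul, h a, map_one]

theorem mulAut_comm_of_isCyclic {Q : Type*} [Group Q] [IsCyclic Q] (α β : MulAut Q) :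
    α * β = β * α := by
  obtain ⟨m, hm⟩ := MonoidHom.map_cyclic α.toMonoidHom
  obtain ⟨n, hn⟩ := MonoidHom.map_cyclic β.toMonoidHom
  have hm' : ∀ g : Q, α g = g ^ m := hm
  have hn' : ∀ g : Q, β g = g ^ n := hn
  ext a
  rw [MulAut.mul_apply, MulAut.mul_apply, hm', hn', hm', hn', ← zpow_mul, ← zpow_mul, mul_comm]

end Cfsg.Agent.Helper27
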