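import Cfsg.Agent.Helper27.PCoreIn
import Cfsg.Agent.Helper26.FusionNC

set_option autoImplicit false

namespace Cfsg.Agent.Helper27

open Cfsg Cfsg.FusionSystem Cfsg.Agent.Helper26

variable {Ω : Type*} [Group Ω] {S : Subgroup Ω}

/-- `F` is `p`-stable at the subgroup `Q`. -/
def PStableAt (F : FusionSystem S) (p : ℕ) (Q : Subgroup Ω) : Prop :=
  ∀ χ : MulAut ↥Q, χ ∈ F.autGroup Q → (∀ a : ↥Q, (χ a⁻¹) * a * (χ a⁻¹) * (χ (χ a)) = 1) →
    χ ∈ ((Cfsg.pCore p ↥(F.autGroup Q)).map (F.autGroup Q).subtype : Subgroup (MulAut ↥Q))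

/-- `p`-stability at the fully normalized subgroups gives `p`-stability at all subgroups. -/
theorem pStableAt_all [Finite S] (p : ℕ) [Fact p.Prime] (F : FusionSystem S)
    (h : ∀ Q : Subgroup Ω, F.IsFullyNormalized Q → PStableAt F p Q) (Q : Subgroup Ω)
    (hQ : Q ≤ S) : PStableAt F p Q := by
  intro χ hχ hquad
  obtain ⟨Q', hconj, hfn⟩ := exists_fullyNormalized_conj F hQ
  obtain ⟨e, he⟩ := exists_iso_of_isConj F hconj
  have h1 := h Q' hfn (MulAut.congr e χ) (congr_mem_autGroup F e he hχ) (quad_congr e χ hquad)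
  have hes := iso_symm_mem F e he
  have h2 := map_pCore_transport (p := p) (MulAut.congr e.symm) (F.autGroup Q') (F.autGroup Q)
    (fun a ha => congr_mem_autGroup F e.symm hes ha)
    (fun a ha => by
      have := congr_mem_autGroup F e he ha
      exact this) h1
  have e3 : MulAut.congr e.symm (MulAut.congr e χ) = χ := by
    apply MulEquiv.ext
    intro a
    show e.symm (e (χ (e.symm (e a)))) = χ a
    simp
  rw [e3] at h2
  exact h2

theorem autGroup_mono {T : Subgroup Ω} (N : FusionSystem T) (F : FusionSystem S)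
    (h : ∀ P : Subgroup Ω, N.Hom P ⊆ F.Hom P) (Q : Subgroup Ω) : N.autGroup Q ≤ F.autGroup Q :=
  Subgroup.closure_mono (fun _ hα => h Q hα)

/-- `Aut_{N_F(Q)}(Q) = Aut_F(Q)`. -/
theorem normalizerSystem_autGroup_self (F : FusionSystem S) (Q : Subgroup Ω) (hQ : Q ≤ S)
    (N : FusionSystem (normalizerIn S Q)) (hN : F.IsNormalizerSystem Q N) :
    N.autGroup Q = F.autGroup Q := by
  apply le_antisymm
  · apply autGroup_mono
    intro P φ hφ
    rw [hN P] at hφ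
    exact hφ.1
  · intro α hα
    rw [mem_autGroup_iff F hQ] at hα
    apply Subgroup.subset_closure
    show Q.subtype.comp α.toMonoidHom ∈ N.Hom Q
    rw [hN Q]
    have hle : Q ⊔ Q ≤ Q := sup_le le_rfl le_rfl
    refine ⟨hα, le_normalizerIn hQ, fun x => le_normalizerIn hQ (α x).2,
      (Q.subtype.comp α.toMonoidHom).comp (Subgroup.inclusion hle),
      restrict_mem F hα hle (fun x => rfl), fun x => rfl, ?_⟩
    ext y
    constructor
    · rintro ⟨x, -, rfl⟩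
      exact (α (Subgroup.inclusion hle x)).2
    · intro hy
      refine ⟨⟨(α⁻¹ ⟨y, hy⟩ : ↥Q), (le_sup_left : Q ≤ Q ⊔ Q) (α⁻¹ ⟨y, hy⟩ : ↥Q).2⟩, ?_, ?_⟩
      · exact Subgroup.mem_subgroupOf.mpr (α⁻¹ ⟨y, hy⟩ : ↥Q).2
      · show ((α (Subgroup.inclusion hle ⟨(α⁻¹ ⟨y, hy⟩ : ↥Q), _⟩) : ↥Q) : Ω) = y
        have : Subgroup.inclusion hle ⟨((α⁻¹ ⟨y, hy⟩ : ↥Q) : Ω),
            (le_sup_left : Q ≤ Q ⊔ Q) (α⁻¹ ⟨y, hy⟩ : ↥Q).2⟩
            = α⁻¹ ⟨y, hy⟩ := Subtype.ext rfl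
        rw [this, MulAut.apply_inv_self]

/-- `Q` is fully normalized in `N_F(Q)`. -/
theorem normalizerSystem_fullyNormalized_self (F : FusionSystem S) (Q : Subgroup Ω) (hQ : Q ≤ S)
    (N : FusionSystem (normalizerIn S Q)) (hN : F.IsNormalizerSystem Q N) :
    N.IsFullyNormalized Q := by
  refine ⟨le_normalizerIn hQ, ?_⟩
  rintro Q'' ⟨φ, hφ, rfl⟩
  rw [hN Q] at hφ
  obtain ⟨-, -, -, ψ, -, hψ, hmap⟩ := hφ
  have : φ.range = Q := by
    refine Eq.trans ?_ hmap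
    ext y
    constructor
    · rintro ⟨x, rfl⟩
      exact ⟨Subgroup.inclusion le_sup_left x, Subgroup.mem_subgroupOf.mpr x.2, hψ x⟩
    · rintro ⟨x, hx, rfl⟩
      have hx' : (x : Ω) ∈ Q := Subgroup.mem_subgroupOf.mp hx
      exact ⟨⟨x, hx'⟩, (hψ ⟨x, hx'⟩).symm⟩
  rw [this]

theorem isPGroup_zpowers' {G : Type*} [Group G] {p : ℕ} {g : G} {n : ℕ} (h : g ^ p ^ n = 1) :
    IsPGroup p (Subgroup.zpowers g) := by
  rintro ⟨_, k, rfl⟩
  refine ⟨n, Subtype.ext ?_⟩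
  show (g ^ k) ^ (p ^ n) = 1
  rw [← zpow_natCast, ← zpow_mul, mul_comm, zpow_mul, zpow_natCast, h, one_zpow]

/-- cyclic subgroups are always `p`-stable. -/
theorem pStableAt_cyclic [Finite S] (p : ℕ) [Fact p.Prime] (hS : IsPGroup p S)
    (F : FusionSystem S) (Q : Subgroup Ω) (hQ : Q ≤ S) (hc : IsCyclic ↥Q) : PStableAt F p Q := by
  intro χ hχ hquad
  have : Finite ↥Q := finite_of_le hQ
  rw [mem_map_pCore_iff]
  refine ⟨Subgroup.zpowers χ, (Subgroup.zpowers_le).mpr hχ, ?_, ?_, Subgroup.mem_zpowers χ⟩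
  · apply le_normalizer_of_conj_mem
    intro n _ y hy
    have : n * y * n⁻¹ = y := by
      rw [mulAut_comm_of_isCyclic n y, mul_inv_cancel_right]
    rw [this]
    exact hy
  · obtain ⟨n, hn⟩ := (hS.to_le hQ).exists_card_eq
    apply isPGroup_zpowers' (n := n)
    rw [← hn]
    exact quad_pow_card χ hquad

end Cfsg.Agent.Helper27
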