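import Cfsg.Agent.Helper26.FusionSat2
import Cfsg.Agent.Helper26.FusionNormal2
import Cfsg.Agent.Helper26.FusionQuot
import Cfsg.Agent.Helper27.PStable

set_option autoImplicit false

namespace Cfsg.Agent.Helper27

open Cfsg Cfsg.FusionSystem Cfsg.Agent.Helper26

variable {Ω : Type*} [Group Ω]

/-- membership in a strongly closed subgroup is preserved and reflected by the maps of `F`. -/
theorem stronglyClosed_mem_iff_sc {S : Subgroup Ω} (F : FusionSystem S) {T R : Subgroup Ω}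
    (hT : F.StronglyClosed T) {ψ : R →* Ω} (hψ : ψ ∈ F.Hom R) (y : R) :
    ψ y ∈ T ↔ (y : Ω) ∈ T := by
  constructor
  · intro h
    obtain ⟨χ, hχ, hinv⟩ := F.inv_mem hψ
    have h1 := stronglyClosed_hom_mem F hT hχ ⟨ψ y, ⟨y, rfl⟩⟩ h
    rw [hinv y] at h1
    exact h1
  · intro h
    exact stronglyClosed_hom_mem F hT hψ y h

/-- An `F`-automorphism of `U` centralizing `U ∩ T` and `U/(U ∩ T)`, for `T` strongly closed,
lies in `O_p(Aut_F(U))`. -/
theorem stab_mem_pCore {S : Subgroup Ω} [Finite S] (p : ℕ) [Fact p.Prime] (hS : IsPGroup p S)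
    (F : FusionSystem S) {T : Subgroup Ω} (hT : F.StronglyClosed T) {U : Subgroup Ω} (hU : U ≤ S)
    (γ : MulAut U) (hγ : γ ∈ F.autGroup U) (h1 : ∀ y : U, (y : Ω) ∈ T → γ y = y)
    (h2 : ∀ y : U, (y : Ω)⁻¹ * ((γ y : U) : Ω) ∈ T) :
    γ ∈ (pCore p (F.autGroup U)).map (F.autGroup U).subtype := by
  have hUfin : Finite U := finite_of_le hU
  obtain ⟨c, hc⟩ : ∃ c, ∀ g : U, g ^ p ^ c = 1 := by
    obtain ⟨c, hcard⟩ := IsPGroup.iff_card.1 (hS.to_le hU)
    exact ⟨c, fun g => by rw [← hcard]; exact pow_card_eq_one'⟩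
  let K : Subgroup (MulAut U) :=
    { carrier := {γ | (∀ y : U, (y : Ω) ∈ T → γ y = y) ∧
        ∀ y : U, (y : Ω)⁻¹ * ((γ y : U) : Ω) ∈ T}
      one_mem' := ⟨fun y _ => rfl, fun y => by
        show (y : Ω)⁻¹ * (y : Ω) ∈ T
        rw [inv_mul_cancel]; exact T.one_mem⟩
      mul_mem' := by
        rintro a b ⟨ha1, ha2⟩ ⟨hb1, hb2⟩
        refine ⟨fun y hy => ?_, fun y => ?_⟩
        · show a (b y) = y
          rw [hb1 y hy, ha1 y hy]
        · have e : (y : Ω)⁻¹ * ((a (b y) : U) : Ω) =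
              ((y : Ω)⁻¹ * ((b y : U) : Ω)) * (((b y : U) : Ω)⁻¹ * ((a (b y) : U) : Ω)) := by
            group
          show (y : Ω)⁻¹ * ((a (b y) : U) : Ω) ∈ T
          rw [e]
          exact T.mul_mem (hb2 y) (ha2 (b y))
      inv_mem' := by
        rintro a ⟨ha1, ha2⟩
        refine ⟨fun y hy => ?_, fun y => ?_⟩
        · rw [MulAut.inv_apply, MulEquiv.symm_apply_eq, ha1 y hy]
        · have h := ha2 (a⁻¹ y)
          have e2 : a (a⁻¹ y) = y := by simp
          rw [e2] at h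
          have e : (y : Ω)⁻¹ * ((a⁻¹ y : U) : Ω) = (((a⁻¹ y : U) : Ω)⁻¹ * (y : Ω))⁻¹ := by group
          rw [e]
          exact T.inv_mem h }
  have hKn : (K.subgroupOf (F.autGroup U)).Normal := by
    refine ⟨fun n hn a => ?_⟩
    rw [Subgroup.mem_subgroupOf] at hn ⊢
    obtain ⟨hn1, hn2⟩ := hn
    have ha' : (a : MulAut U)⁻¹ ∈ F.autGroup U := Subgroup.inv_mem _ a.2
    refine ⟨fun y hy => ?_, fun y => ?_⟩
    · show (a : MulAut U) ((n : MulAut U) ((a : MulAut U)⁻¹ y)) = y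
      have hw : (((a : MulAut U)⁻¹ y : U) : Ω) ∈ T :=
        stronglyClosed_autGroup_maps F hT hU ha' y hy
      rw [hn1 _ hw]
      simp
    · show (y : Ω)⁻¹ * (((a : MulAut U) ((n : MulAut U) ((a : MulAut U)⁻¹ y)) : U) : Ω) ∈ T
      obtain ⟨w, hw⟩ : ∃ w : U, (a : MulAut U) w = y := ⟨(a : MulAut U)⁻¹ y, by simp⟩
      have hw' : (a : MulAut U)⁻¹ y = w := by rw [← hw]; simp
      rw [hw']
      have h3 : (((w⁻¹ * (n : MulAut U) w : U)) : Ω) ∈ T := hn2 w
      have h4 := stronglyClosed_autGroup_maps F hT hU a.2 (w⁻¹ * (n : MulAut U) w) h3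
      rw [map_mul, map_inv, hw] at h4
      exact h4
  have hKp : IsPGroup p (K.subgroupOf (F.autGroup U)) := by
    rintro ⟨g, hg⟩
    rw [Subgroup.mem_subgroupOf] at hg
    obtain ⟨hg1, hg2⟩ := hg
    refine ⟨c, Subtype.ext (Subtype.ext ?_)⟩
    have hpow : ∀ (n : ℕ) (y : U),
        ((g : MulAut U) ^ n) y = y * (y⁻¹ * (g : MulAut U) y) ^ n := by
      intro n
      induction n with
      | zero => intro y; simp
      | succ n ih =>
        intro y
        have ht : (g : MulAut U) (y⁻¹ * (g : MulAut U) y) = y⁻¹ * (g : MulAut U) y :=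
          hg1 _ (hg2 y)
        have e : (g : MulAut U) y = y * (y⁻¹ * (g : MulAut U) y) := by
          rw [mul_inv_cancel_left]
        rw [pow_succ', MulAut.mul_apply, ih, map_mul, map_pow, ht, pow_succ', ← mul_assoc, ← e]
    show (((g : MulAut U) ^ p ^ c : MulAut U)) = 1
    ext y
    rw [hpow, hc]
    simp
  have hle : K.subgroupOf (F.autGroup U) ≤ pCore p (F.autGroup U) := le_sSup ⟨hKn, hKp⟩
  exact ⟨⟨γ, hγ⟩, hle (Subgroup.mem_subgroupOf.2 ⟨h1, h2⟩), rfl⟩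

end Cfsg.Agent.Helper27
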