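import Cfsg.Agent.Helper27.TTh
import Cfsg.Agent.Helper26.PResLimit

set_option autoImplicit false

namespace Cfsg.Agent.Helper27.TT

open Cfsg Cfsg.FusionSystem MulAction Cfsg.Agent.Helper26 Cfsg.Agent.Helper27.Biset
open scoped Classical

universe u

variable {Ω : Type u} [Group Ω] {S : Subgroup Ω}

/-- A homomorphism on the hyperfocal subgroup, with values in a group of exponent `p`, that is
invariant under the system is trivial. -/
theorem hyp_hom_trivial [Finite S] (p : ℕ) [Fact p.Prime] (hS : IsPGroup p S)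
    (F : FusionSystem S) (hF : F.IsSaturated p)
    (N : Subgroup ↥S)
    (hNT : ∀ t : ↥S, t ∈ N ↔ (t : Ω) ∈ F.hyperfocalSubgroup p)
    {A : Type*} [CommGroup A] (hA : ∀ a : A, a ^ p = 1) (c : ↥N →* A)
    (hcF : ∀ {P : Subgroup Ω} {φ : P →* Ω} (hφ : φ ∈ F.Hom P) (x : P)
      (hx : (x : Ω) ∈ F.hyperfocalSubgroup p) (hx' : φ x ∈ F.hyperfocalSubgroup p),
      c ⟨⟨φ x, (F.le_of_mem hφ).2 x⟩, (hNT _).2 hx'⟩ =
        c ⟨⟨x, (F.le_of_mem hφ).1 x.2⟩, (hNT _).2 hx⟩) :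
    ∀ t : ↥N, c t = 1 := by
  obtain ⟨ct, hct, hct'⟩ : ∃ ct : Ω → A,
      (∀ (y : Ω) (h : y ∈ F.hyperfocalSubgroup p),
        ct y = c ⟨⟨y, hyperfocal_le F p h⟩, (hNT _).2 h⟩) ∧ True :=
    ⟨fun y => if h : y ∈ F.hyperfocalSubgroup p then
      c ⟨⟨y, hyperfocal_le F p h⟩, (hNT _).2 h⟩ else 1, fun y h => dif_pos h, trivial⟩
  have hctmul : ∀ y y' : Ω, y ∈ F.hyperfocalSubgroup p → y' ∈ F.hyperfocalSubgroup p →
      ct (y * y') = ct y * ct y' := by
    intro y y' h h'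
    rw [hct y h, hct y' h', hct _ (mul_mem h h'), ← map_mul]
    rfl
  have hct1 : ct 1 = 1 := by
    rw [hct 1 (one_mem _)]
    exact map_one c
  have hctinv : ∀ y : Ω, y ∈ F.hyperfocalSubgroup p → ct y⁻¹ = (ct y)⁻¹ := by
    intro y h
    have h1 := hctmul y y⁻¹ h (inv_mem h)
    rw [mul_inv_cancel, hct1] at h1
    exact eq_inv_of_mul_eq_one_right h1.symm
  have hctF : ∀ {P : Subgroup Ω} {φ : P →* Ω} (_ : φ ∈ F.Hom P) (x : P),
      (x : Ω) ∈ F.hyperfocalSubgroup p → ct (φ x) = ct x := by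
    intro P φ hφ x hx
    have hx' := hyp_map_mem p hS F hF hφ x hx
    rw [hct _ hx', hct _ hx]
    exact hcF hφ x hx hx'
  have hgen : ∀ (P : Subgroup Ω) (_ : P ≤ S) (β : ↥(F.autGroup P)),
      β ∈ pResidual p ↥(F.autGroup P) →
      ∀ x : P, ct ((x : Ω)⁻¹ * ((β : MulAut P) x : P)) = 1 := by
    intro P hPS β hβ
    have hmemT : ∀ (β : ↥(F.autGroup P)), β ∈ pResidual p ↥(F.autGroup P) → ∀ x : P,
        (x : Ω)⁻¹ * ((β : MulAut P) x : P) ∈ F.hyperfocalSubgroup p :=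
      fun β hβ x => Subgroup.subset_closure ⟨P, β, x, hPS, hβ, rfl⟩
    unfold pResidual at hβ
    induction hβ using Subgroup.closure_induction with
    | mem b hb =>
      intro x
      have hbres : b ∈ pResidual p ↥(F.autGroup P) := Subgroup.subset_closure hb
      obtain ⟨y, hy⟩ : ∃ y : P, y = x⁻¹ * (b : MulAut P) x := ⟨_, rfl⟩
      have hyT : (y : Ω) ∈ F.hyperfocalSubgroup p := by
        rw [hy]; exact hmemT b hbres x
      have key : ∀ k : ℕ, ct ((x : Ω)⁻¹ * (((b : MulAut P) ^ k) x : P)) = ct (y : Ω) ^ k := by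
        intro k
        induction k with
        | zero =>
          rw [pow_zero, pow_zero]
          show ct ((x : Ω)⁻¹ * (x : Ω)) = 1
          rw [inv_mul_cancel, hct1]
        | succ k ih =>
          have hbk : b ^ k ∈ pResidual p ↥(F.autGroup P) := pow_mem hbres k
          have hk1 : (x : Ω)⁻¹ * (((b : MulAut P) ^ k) x : P) ∈ F.hyperfocalSubgroup p := by
            have := hmemT (b ^ k) hbk x
            rwa [Subgroup.coe_pow] at this
          have hφk : P.subtype.comp ((b : MulAut P) ^ k).toMonoidHom ∈ F.Hom P := by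
            have h1 := (mem_autGroup_iff F hPS).1 (b ^ k).2
            rwa [Subgroup.coe_pow] at h1
          have hk2 := hctF hφk y hyT
          have hk2' : ct ((((b : MulAut P) ^ k) y : P) : Ω) = ct (y : Ω) := hk2
          have hk3 : ((((b : MulAut P) ^ k) y : P) : Ω) ∈ F.hyperfocalSubgroup p :=
            hyp_map_mem p hS F hF hφk y hyT
          have e : (x : Ω)⁻¹ * (((b : MulAut P) ^ (k + 1)) x : P) =
              ((x : Ω)⁻¹ * (((b : MulAut P) ^ k) x : P)) * ((((b : MulAut P) ^ k) y : P) : Ω) := by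
            rw [hy, pow_succ, MulAut.mul_apply, map_mul, map_inv, Subgroup.coe_mul,
              Subgroup.coe_inv]
            group
          rw [e, hctmul _ _ hk1 hk3, ih, hk2', pow_succ]
      have h1 := key (orderOf (b : MulAut P))
      rw [pow_orderOf_eq_one] at h1
      have h2 : ct (y : Ω) ^ orderOf (b : MulAut P) = 1 := by
        rw [← h1]
        show ct ((x : Ω)⁻¹ * (x : Ω)) = 1
        rw [inv_mul_cancel, hct1]
      have hord : orderOf (b : MulAut P) = orderOf b := Subgroup.orderOf_coe b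
      have hcop : Nat.Coprime (orderOf (b : MulAut P)) p := by rw [hord]; exact hb
      have o1 := orderOf_dvd_of_pow_eq_one h2
      have o2 := orderOf_dvd_of_pow_eq_one (hA (ct (y : Ω)))
      have o3 := Nat.dvd_gcd o1 o2
      rw [Nat.Coprime.gcd_eq_one hcop] at o3
      have h3 : ct (y : Ω) = 1 := orderOf_eq_one_iff.1 (Nat.dvd_one.1 o3)
      rw [hy] at h3
      exact h3
    | one =>
      intro x
      show ct ((x : Ω)⁻¹ * (x : Ω)) = 1
      rw [inv_mul_cancel, hct1]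
    | mul a b ha hb iha ihb =>
      intro x
      have e : (x : Ω)⁻¹ * ((((a * b : ↥(F.autGroup P)) : MulAut P)) x : P) =
          ((x : Ω)⁻¹ * ((b : MulAut P) x : P)) *
            ((((b : MulAut P) x : P) : Ω)⁻¹ * ((a : MulAut P) ((b : MulAut P) x) : P)) := by
        rw [Subgroup.coe_mul, MulAut.mul_apply]
        group
      rw [e, hctmul _ _ (hmemT b hb x) (hmemT a ha _), ihb x, iha _, one_mul]
    | inv a ha iha =>
      intro x
      have e : (x : Ω)⁻¹ * ((((a⁻¹ : ↥(F.autGroup P)) : MulAut P)) x : P) =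
          (((((a : MulAut P)⁻¹ x : P)) : Ω)⁻¹ *
            ((a : MulAut P) ((a : MulAut P)⁻¹ x) : P))⁻¹ := by
        rw [Subgroup.coe_inv, MulAut.apply_inv_self]
        group
      rw [e, hctinv _ (hmemT a ha _), iha, inv_one]
  have hall : ∀ y : Ω, y ∈ F.hyperfocalSubgroup p → ct y = 1 := by
    intro y hy
    have hy' := hy
    unfold hyperfocalSubgroup at hy'
    induction hy' using Subgroup.closure_induction with
    | mem z hz =>
      obtain ⟨P, β, x, hPS, hβ, rfl⟩ := hz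
      exact hgen P hPS β hβ x
    | one => exact hct1
    | mul a b ha hb iha ihb =>
      rw [hctmul a b ha hb, iha ha, ihb hb, one_mul]
    | inv a ha iha =>
      rw [hctinv a ha, iha ha, inv_one]
  intro t
  have h1 := hall (t : ↥S) ((hNT _).1 t.2)
  rw [hct _ ((hNT _).1 t.2)] at h1
  exact h1

/-- From the transfer identity: if `l` is trivial on the hyperfocal subgroup, then `c` is
invariant under the system. -/
theorem hom_invariant_of_transfer [Finite S] (p : ℕ) [Fact p.Prime]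
    (F : FusionSystem S)
    (N : Subgroup ↥S)
    (hNT : ∀ t : ↥S, t ∈ N ↔ (t : Ω) ∈ F.hyperfocalSubgroup p)
    {A : Type*} [CommGroup A] (hA : ∀ a : A, a ^ p = 1) (c : ↥N →* A)
    (n : ℕ) (l : ↥S →* A) (W : ↥N → A) (hpn : ¬ p ∣ n)
    (hW : ∀ t : ↥N, W t * c t ^ n = l t)
    (hWinv : ∀ {P : Subgroup Ω} {φ : P →* Ω} (hφ : φ ∈ F.Hom P) (x : P)
      (hx : (x : Ω) ∈ F.hyperfocalSubgroup p) (hx' : φ x ∈ F.hyperfocalSubgroup p),
      W ⟨⟨φ x, (F.le_of_mem hφ).2 x⟩, (hNT _).2 hx'⟩ =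
        W ⟨⟨x, (F.le_of_mem hφ).1 x.2⟩, (hNT _).2 hx⟩)
    (hl : ∀ t : ↥N, l t = 1)
    {P : Subgroup Ω} {φ : P →* Ω} (hφ : φ ∈ F.Hom P) (x : P)
    (hx : (x : Ω) ∈ F.hyperfocalSubgroup p) (hx' : φ x ∈ F.hyperfocalSubgroup p) :
    c ⟨⟨φ x, (F.le_of_mem hφ).2 x⟩, (hNT _).2 hx'⟩ =
      c ⟨⟨x, (F.le_of_mem hφ).1 x.2⟩, (hNT _).2 hx⟩ := by
  obtain ⟨t, ht⟩ : ∃ t : ↥N, t = ⟨⟨x, (F.le_of_mem hφ).1 x.2⟩, (hNT _).2 hx⟩ := ⟨_, rfl⟩
  obtain ⟨t', ht'⟩ : ∃ t' : ↥N, t' = ⟨⟨φ x, (F.le_of_mem hφ).2 x⟩, (hNT _).2 hx'⟩ := ⟨_, rfl⟩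
  have hWtt : W t' = W t := by rw [ht, ht']; exact hWinv hφ x hx hx'
  rw [← ht, ← ht']
  have e1 := hW t
  have e2 := hW t'
  rw [hl] at e1 e2
  have e3 : c t ^ n = c t' ^ n := by
    rw [hWtt] at e2
    exact mul_left_cancel (e1.trans e2.symm)
  have hcop : Nat.Coprime n p :=
    ((Nat.Prime.coprime_iff_not_dvd (Fact.out : p.Prime)).2 hpn).symm
  have e4 : (c t' * (c t)⁻¹) ^ n = 1 := by rw [mul_pow, inv_pow, e3, mul_inv_cancel]
  have e5 : c t' * (c t)⁻¹ = 1 := by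
    have o1 := orderOf_dvd_of_pow_eq_one e4
    have o2 := orderOf_dvd_of_pow_eq_one (hA (c t' * (c t)⁻¹))
    have o3 := Nat.dvd_gcd o1 o2
    rw [Nat.Coprime.gcd_eq_one hcop] at o3
    exact orderOf_eq_one_iff.1 (Nat.dvd_one.1 o3)
  exact mul_inv_eq_one.1 e5

end Cfsg.Agent.Helper27.TT
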