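import Cfsg.Agent.Helper27.TTi

set_option autoImplicit false

namespace Cfsg.Agent.Helper27.TT

open Cfsg Cfsg.FusionSystem MulAction Cfsg.Agent.Helper26 Cfsg.Agent.Helper27.Biset
open scoped Classical

universe u

variable {Ω : Type u} [Group Ω] {S : Subgroup Ω}

theorem hyperfocal_le_focal (F : FusionSystem S) (p : ℕ) :
    F.hyperfocalSubgroup p ≤ F.focalSubgroup := by
  unfold hyperfocalSubgroup
  rw [Subgroup.closure_le]
  rintro _ ⟨P, β, x, hPS, -, rfl⟩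
  exact Subgroup.subset_closure ⟨P, P.subtype.comp (β : MulAut P).toMonoidHom, x,
    (mem_autGroup_iff F hPS).1 β.2, rfl⟩

/-- Tate's theorem for fusion systems, relative form: if the elementary focal subgroups of a
saturated system `F` and of a saturated subsystem `H` over the same group agree, so do their
hyperfocal subgroups. -/
theorem relative_tate [Finite S] (p : ℕ) [Fact p.Prime] (hS : IsPGroup p S)
    (F : FusionSystem S) (hF : F.IsSaturated p) (H : FusionSystem S) (hH : H.IsSaturated p)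
    (hHF : H.IsSubsystemOf F)
    (h : (frattini ↥S).map S.subtype ⊔ F.focalSubgroup =
      (frattini ↥S).map S.subtype ⊔ H.focalSubgroup) :
    F.hyperfocalSubgroup p = H.hyperfocalSubgroup p := by
  have hmono := hyperfocal_mono p F H hHF
  apply le_antisymm _ hmono
  by_contra hne
  obtain ⟨N, hNdef⟩ : ∃ N : Subgroup ↥S, N = (F.hyperfocalSubgroup p).subgroupOf S := ⟨_, rfl⟩
  obtain ⟨M, hMdef⟩ : ∃ M : Subgroup ↥S, M = (H.hyperfocalSubgroup p).subgroupOf S := ⟨_, rfl⟩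
  have hNT : ∀ t : ↥S, t ∈ N ↔ (t : Ω) ∈ F.hyperfocalSubgroup p := by
    intro t; rw [hNdef, Subgroup.mem_subgroupOf]
  have hMT : ∀ t : ↥S, t ∈ M ↔ (t : Ω) ∈ H.hyperfocalSubgroup p := by
    intro t; rw [hMdef, Subgroup.mem_subgroupOf]
  have hN : N.Normal := ⟨fun t ht s => by
    rw [hNT] at ht ⊢
    exact hyperfocal_conj_mem F p s.2 ht⟩
  have hM : M.Normal := ⟨fun t ht s => by
    rw [hMT] at ht ⊢
    exact hyperfocal_conj_mem H p s.2 ht⟩
  have hMN : M ≤ N := fun t ht => (hNT t).2 (hmono ((hMT t).1 ht))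
  have hFne : N.map (QuotientGroup.mk' M) ≠ ⊥ := by
    intro hbot
    apply hne
    intro y hy
    have hyS := hyperfocal_le F p hy
    have h1 : QuotientGroup.mk' M ⟨y, hyS⟩ ∈ N.map (QuotientGroup.mk' M) :=
      Subgroup.mem_map_of_mem _ ((hNT _).2 hy)
    rw [hbot, Subgroup.mem_bot] at h1
    exact (hMT _).1 ((QuotientGroup.eq_one_iff _).1 h1)
  have hFn : (N.map (QuotientGroup.mk' M)).Normal :=
    Subgroup.Normal.map hN _ (QuotientGroup.mk'_surjective M)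
  have hq : IsPGroup p (↥S ⧸ M) := hS.to_quotient M
  have hAcard : Nat.card (Multiplicative (ZMod p)) = p := by
    rw [Nat.card_eq_fintype_card, Fintype.card_multiplicative, ZMod.card]
  have hAp : ∀ a : Multiplicative (ZMod p), a ^ p = 1 := fun a => by
    have := pow_card_eq_one' (x := a); rwa [hAcard] at this
  obtain ⟨χ, hχ, f, hf⟩ := Cfsg.Agent.Lead.exists_invariant_hom
    (A := Multiplicative (ZMod p)) hAcard hq (N.map (QuotientGroup.mk' M)) hFne
  obtain ⟨c, hcdef⟩ : ∃ c : ↥N →* Multiplicative (ZMod p), ∀ t : ↥N,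
      c t = χ ⟨QuotientGroup.mk' M (t : ↥S), Subgroup.mem_map_of_mem _ t.2⟩ :=
    ⟨χ.comp ((QuotientGroup.mk' M).subgroupMap N), fun t => rfl⟩
  have hc : ∀ (s t : ↥S) (ht : t ∈ N), c ⟨s * t * s⁻¹, hN.conj_mem t ht s⟩ = c ⟨t, ht⟩ := by
    intro s t ht
    rw [hcdef, hcdef, ← hχ (QuotientGroup.mk' M s)
      ⟨QuotientGroup.mk' M t, Subgroup.mem_map_of_mem _ ht⟩]
    congr 1
  have hcM : ∀ (t : ↥N), (t : ↥S) ∈ M → c t = 1 := by
    intro t ht
    rw [hcdef]
    have e : (⟨QuotientGroup.mk' M (t : ↥S), Subgroup.mem_map_of_mem _ t.2⟩ :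
        ↥(N.map (QuotientGroup.mk' M))) = 1 :=
      Subtype.ext ((QuotientGroup.eq_one_iff _).2 ht)
    rw [e, map_one]
  have hcne : ∃ t : ↥N, c t ≠ 1 := by
    obtain ⟨x, hx, hxf⟩ := Subgroup.mem_map.1 f.2
    refine ⟨⟨x, hx⟩, ?_⟩
    rw [hcdef]
    have e : (⟨QuotientGroup.mk' M x, Subgroup.mem_map_of_mem _ hx⟩ :
        ↥(N.map (QuotientGroup.mk' M))) = f := Subtype.ext hxf
    rw [e]; exact hf
  obtain ⟨n, l, W, hpn, hW, hWinv⟩ := hyp_transfer p hS F hF N hNT c hc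
  -- `c` is invariant under the subsystem
  have hcH : ∀ {P : Subgroup Ω} {φ : P →* Ω} (hφ : φ ∈ H.Hom P) (x : P)
      (hx : (x : Ω) ∈ F.hyperfocalSubgroup p) (hx' : φ x ∈ F.hyperfocalSubgroup p),
      c ⟨⟨φ x, (H.le_of_mem hφ).2 x⟩, (hNT _).2 hx'⟩ =
        c ⟨⟨x, (H.le_of_mem hφ).1 x.2⟩, (hNT _).2 hx⟩ := by
    intro P φ hφ x hx hx'
    obtain ⟨s, hs, hsφ⟩ := exists_conj_mod_hyperfocal p hS H hH hφ
    have hm := hsφ x
    have hmS : (s * (x : Ω) * s⁻¹)⁻¹ * φ x ∈ S := hyperfocal_le H p hm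
    have hxS : (x : Ω) ∈ S := (H.le_of_mem hφ).1 x.2
    obtain ⟨tx, htx⟩ : ∃ tx : ↥N, tx = ⟨⟨x, hxS⟩, (hNT _).2 hx⟩ := ⟨_, rfl⟩
    obtain ⟨tm, htm⟩ : ∃ tm : ↥N, tm = ⟨⟨_, hmS⟩, hMN ((hMT _).2 hm)⟩ := ⟨_, rfl⟩
    have e : (⟨⟨φ x, (H.le_of_mem hφ).2 x⟩, (hNT _).2 hx'⟩ : ↥N) =
        ⟨⟨s, hs⟩ * (tx : ↥S) * ⟨s, hs⟩⁻¹, hN.conj_mem _ tx.2 ⟨s, hs⟩⟩ * tm := by
      apply Subtype.ext
      apply Subtype.ext
      rw [htx, htm]
      show φ x = s * (x : Ω) * s⁻¹ * ((s * (x : Ω) * s⁻¹)⁻¹ * φ x)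
      group
    have hcm : c tm = 1 := by
      apply hcM
      rw [htm]
      exact (hMT _).2 hm
    rw [e, map_mul, hc ⟨s, hs⟩ (tx : ↥S) tx.2, hcm, mul_one, htx]
  -- `l` is invariant under the subsystem on the hyperfocal subgroup of `F`
  have hlH : ∀ {P : Subgroup Ω} {φ : P →* Ω} (hφ : φ ∈ H.Hom P) (x : P),
      (x : Ω) ∈ F.hyperfocalSubgroup p →
      l ⟨φ x, (H.le_of_mem hφ).2 x⟩ = l ⟨x, (H.le_of_mem hφ).1 x.2⟩ := by
    intro P φ hφ x hx
    have hφF : φ ∈ F.Hom P := hHF P hφ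
    have hx' := hyp_map_mem p hS F hF hφF x hx
    have e1 := hW ⟨⟨φ x, (H.le_of_mem hφ).2 x⟩, (hNT _).2 hx'⟩
    have e2 := hW ⟨⟨x, (H.le_of_mem hφ).1 x.2⟩, (hNT _).2 hx⟩
    have e3 := hWinv hφF x hx hx'
    have e4 := hcH hφ x hx hx'
    rw [← e1, ← e2, e4]
    congr 1
  -- `l` kills the hyperfocal subgroup of `H`
  have hlgen : ∀ (P : Subgroup Ω) (hPS : P ≤ S) (β : ↥(H.autGroup P)),
      β ∈ pResidual p ↥(H.autGroup P) →
      ∀ x : P, l (Subgroup.inclusion hPS (x⁻¹ * (β : MulAut P) x)) = 1 := by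
    intro P hPS β hβ
    have hmemT : ∀ (β : ↥(H.autGroup P)), β ∈ pResidual p ↥(H.autGroup P) → ∀ x : P,
        (((x⁻¹ * (β : MulAut P) x : P)) : Ω) ∈ F.hyperfocalSubgroup p :=
      fun β hβ x => hmono (Subgroup.subset_closure ⟨P, β, x, hPS, hβ, rfl⟩)
    unfold pResidual at hβ
    induction hβ using Subgroup.closure_induction with
    | mem b hb =>
      intro x
      have hbres : b ∈ pResidual p ↥(H.autGroup P) := Subgroup.subset_closure hb
      obtain ⟨y, hy⟩ : ∃ y : P, y = x⁻¹ * (b : MulAut P) x := ⟨_, rfl⟩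
      have hyT : (y : Ω) ∈ F.hyperfocalSubgroup p := by
        rw [hy]; exact hmemT b hbres x
      have key : ∀ k : ℕ, l (Subgroup.inclusion hPS (x⁻¹ * ((b : MulAut P) ^ k) x)) =
          l (Subgroup.inclusion hPS y) ^ k := by
        intro k
        induction k with
        | zero =>
          rw [pow_zero, pow_zero]
          show l (Subgroup.inclusion hPS (x⁻¹ * x)) = 1
          rw [inv_mul_cancel, map_one, map_one]
        | succ k ih =>
          have hφk : P.subtype.comp ((b : MulAut P) ^ k).toMonoidHom ∈ H.Hom P := by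
            have h1 := (mem_autGroup_iff H hPS).1 (b ^ k).2
            rwa [Subgroup.coe_pow] at h1
          have hk2 := hlH hφk y hyT
          have hk2' : l (Subgroup.inclusion hPS (((b : MulAut P) ^ k) y)) =
              l (Subgroup.inclusion hPS y) := hk2
          have e : x⁻¹ * ((b : MulAut P) ^ (k + 1)) x =
              (x⁻¹ * ((b : MulAut P) ^ k) x) * (((b : MulAut P) ^ k) y) := by
            rw [hy, pow_succ, MulAut.mul_apply, map_mul, map_inv]
            group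
          rw [e, map_mul, map_mul, ih, hk2', pow_succ]
      have h1 := key (orderOf (b : MulAut P))
      rw [pow_orderOf_eq_one] at h1
      have h2 : l (Subgroup.inclusion hPS y) ^ orderOf (b : MulAut P) = 1 := by
        rw [← h1]
        show l (Subgroup.inclusion hPS (x⁻¹ * x)) = 1
        rw [inv_mul_cancel, map_one, map_one]
      have hord : orderOf (b : MulAut P) = orderOf b := Subgroup.orderOf_coe b
      have hcop : Nat.Coprime (orderOf (b : MulAut P)) p := by rw [hord]; exact hb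
      have o1 := orderOf_dvd_of_pow_eq_one h2
      have o2 := orderOf_dvd_of_pow_eq_one (hAp (l (Subgroup.inclusion hPS y)))
      have o3 := Nat.dvd_gcd o1 o2
      rw [Nat.Coprime.gcd_eq_one hcop] at o3
      have h3 : l (Subgroup.inclusion hPS y) = 1 := orderOf_eq_one_iff.1 (Nat.dvd_one.1 o3)
      rw [hy] at h3
      exact h3
    | one =>
      intro x
      show l (Subgroup.inclusion hPS (x⁻¹ * x)) = 1
      rw [inv_mul_cancel, map_one, map_one]
    | mul a b ha hb iha ihb =>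
      intro x
      have e : x⁻¹ * (((a * b : ↥(H.autGroup P)) : MulAut P)) x =
          (x⁻¹ * (b : MulAut P) x) *
            (((b : MulAut P) x)⁻¹ * (a : MulAut P) ((b : MulAut P) x)) := by
        rw [Subgroup.coe_mul, MulAut.mul_apply]
        group
      rw [e, map_mul, map_mul, ihb x, iha _, one_mul]
    | inv a ha iha =>
      intro x
      have e : x⁻¹ * (((a⁻¹ : ↥(H.autGroup P)) : MulAut P)) x =
          (((a : MulAut P)⁻¹ x)⁻¹ * (a : MulAut P) ((a : MulAut P)⁻¹ x))⁻¹ := by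
        rw [Subgroup.coe_inv, MulAut.apply_inv_self]
        group
      rw [e, map_inv, map_inv, iha, inv_one]
  obtain ⟨Kl, hKl⟩ : ∃ Kl : Subgroup Ω, Kl = l.ker.map S.subtype := ⟨_, rfl⟩
  have hKmem : ∀ (y : Ω) (hy : y ∈ S), y ∈ Kl ↔ l ⟨y, hy⟩ = 1 := by
    intro y hy
    rw [hKl]
    constructor
    · rintro ⟨z, hz, hzy⟩
      have e : z = ⟨y, hy⟩ := Subtype.ext hzy
      rw [← e]; exact MonoidHom.mem_ker.1 hz
    · intro h1
      exact ⟨⟨y, hy⟩, MonoidHom.mem_ker.2 h1, rfl⟩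
  have hTH_K : H.hyperfocalSubgroup p ≤ Kl := by
    unfold hyperfocalSubgroup
    rw [Subgroup.closure_le]
    rintro _ ⟨P, β, x, hPS, hβ, rfl⟩
    rw [hKl]
    exact ⟨Subgroup.inclusion hPS (x⁻¹ * (β : MulAut P) x),
      MonoidHom.mem_ker.2 (hlgen P hPS β hβ x), rfl⟩
  have hfocH : H.focalSubgroup ≤ Kl := by
    unfold focalSubgroup
    rw [Subgroup.closure_le]
    rintro _ ⟨P, φ, x, hφ, rfl⟩
    obtain ⟨s, hs, hsφ⟩ := exists_conj_mod_hyperfocal p hS H hH hφ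
    have hm := hTH_K (hsφ x)
    have hxS := (H.le_of_mem hφ).1 x.2
    have hcm : (x : Ω)⁻¹ * (s * (x : Ω) * s⁻¹) ∈ Kl := by
      rw [hKmem _ (S.mul_mem (S.inv_mem hxS) (S.mul_mem (S.mul_mem hs hxS) (S.inv_mem hs)))]
      have e : (⟨(x : Ω)⁻¹ * (s * (x : Ω) * s⁻¹),
          S.mul_mem (S.inv_mem hxS) (S.mul_mem (S.mul_mem hs hxS) (S.inv_mem hs))⟩ : ↥S) =
          (⟨x, hxS⟩ : ↥S)⁻¹ * (⟨s, hs⟩ * ⟨x, hxS⟩ * (⟨s, hs⟩ : ↥S)⁻¹) := rfl
      rw [e, map_mul, map_inv, map_mul, map_mul, map_inv, mul_comm (l ⟨s, hs⟩), mul_assoc,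
        mul_inv_cancel, mul_one, inv_mul_cancel]
    have e : (x : Ω)⁻¹ * φ x =
        ((x : Ω)⁻¹ * (s * (x : Ω) * s⁻¹)) * ((s * (x : Ω) * s⁻¹)⁻¹ * φ x) := by group
    show (x : Ω)⁻¹ * φ x ∈ Kl
    rw [e]
    exact Kl.mul_mem hcm hm
  have hΦ : (frattini ↥S).map S.subtype ≤ Kl := by
    rw [hKl]
    exact Subgroup.map_mono (Cfsg.Agent.Lead.frattini_le_ker hAcard hS l)
  have hfocF : F.focalSubgroup ≤ Kl := by
    have h1 : F.focalSubgroup ≤ (frattini ↥S).map S.subtype ⊔ F.focalSubgroup := le_sup_right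
    rw [h] at h1
    exact h1.trans (sup_le hΦ hfocH)
  have hlN : ∀ t : ↥N, l t = 1 := fun t =>
    (hKmem _ (t : ↥S).2).1 (hfocF (hyperfocal_le_focal F p ((hNT _).1 t.2)))
  have hcF := fun {P : Subgroup Ω} {φ : P →* Ω} (hφ : φ ∈ F.Hom P) (x : P)
      (hx : (x : Ω) ∈ F.hyperfocalSubgroup p) (hx' : φ x ∈ F.hyperfocalSubgroup p) =>
    hom_invariant_of_transfer p F N hNT hAp c n l W hpn hW hWinv hlN hφ x hx hx'
  have hall := hyp_hom_trivial p hS F hF N hNT hAp c hcF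
  obtain ⟨t, ht⟩ := hcne
  exact ht (hall t)

end Cfsg.Agent.Helper27.TT
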