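import Mathlib

set_option autoImplicit false

namespace Cfsg.Agent.Helper27

/-- Trace argument: in an abelian `p`-group `V` acted on by a finite group `A`, the fixed points
of `A` are a direct factor of the fixed points of a subgroup `P` of index prime to `p`. -/
theorem exists_compl_fixed {A V : Type*} [Group A] [Finite A] [CommGroup V] (ρ : A →* MulAut V)
    (P : Subgroup A) (p : ℕ) [Fact p.Prime] (hV : IsPGroup p V) (hP : ¬ p ∣ P.index) :
    ∃ K : Subgroup V, (∀ v ∈ K, ∀ a ∈ P, ρ a v = v) ∧ (∀ v ∈ K, (∀ a, ρ a v = v) → v = 1) ∧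
      (∀ v, (∀ a ∈ P, ρ a v = v) → ∃ w k, (∀ a, ρ a w = w) ∧ k ∈ K ∧ v = w * k) := by
  classical
  have : Fintype (A ⧸ P) := Fintype.ofFinite _
  obtain ⟨tr, htr⟩ : ∃ tr : V →* V, ∀ v, tr v = ∏ q : A ⧸ P, ρ (q.out) v :=
    ⟨{ toFun := fun v => ∏ q : A ⧸ P, ρ (q.out) v
       map_one' := by simp
       map_mul' := fun v w => by simp [Finset.prod_mul_distrib] }, fun _ => rfl⟩
  have hcard : Fintype.card (A ⧸ P) = P.index := by
    rw [Subgroup.index, Nat.card_eq_fintype_card]
  have htr_fix : ∀ w, (∀ a, ρ a w = w) → tr w = w ^ P.index := by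
    intro w hw
    rw [htr, Finset.prod_congr rfl (fun q _ => hw q.out), Finset.prod_const, Finset.card_univ,
      hcard]
  have htr_inv : ∀ v, (∀ a ∈ P, ρ a v = v) → ∀ b, ρ b (tr v) = tr v := by
    intro v hv b
    rw [htr, map_prod]
    have h1 : ∀ q : A ⧸ P, ρ b (ρ q.out v) = ρ ((b • q).out) v := by
      intro q
      have h2 : ((b • q).out)⁻¹ * (b * q.out) ∈ P := by
        rw [← QuotientGroup.eq, QuotientGroup.out_eq']
        conv_lhs => rw [← QuotientGroup.out_eq' q]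
        rfl
      have h3 := hv _ h2
      rw [map_mul, map_mul, MulAut.mul_apply, MulAut.mul_apply] at h3
      have h4 := congrArg (ρ (b • q).out) h3
      rw [← MulAut.mul_apply, ← map_mul, mul_inv_cancel, map_one, MulAut.one_apply] at h4
      exact h4
    rw [Finset.prod_congr rfl (fun q _ => h1 q)]
    exact Fintype.prod_equiv (MulAction.toPerm b) _ _ (fun q => rfl)
  have hcop : ∀ k : ℕ, Nat.Coprime P.index (p ^ k) := fun k =>
    Nat.Coprime.pow_right k ((Nat.Prime.coprime_iff_not_dvd Fact.out).2 hP).symm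
  let K : Subgroup V :=
    { carrier := {v | (∀ a ∈ P, ρ a v = v) ∧ tr v = 1}
      one_mem' := ⟨fun a _ => map_one _, map_one tr⟩
      mul_mem' := fun {x y} hx hy =>
        ⟨fun a ha => by rw [map_mul, hx.1 a ha, hy.1 a ha], by rw [map_mul, hx.2, hy.2, one_mul]⟩
      inv_mem' := fun {x} hx =>
        ⟨fun a ha => by rw [map_inv, hx.1 a ha], by rw [map_inv, hx.2, inv_one]⟩ }
  refine ⟨K, fun v hv => hv.1, ?_, ?_⟩
  · intro v hv hfix
    have h1 : v ^ P.index = 1 := by rw [← htr_fix v hfix]; exact hv.2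
    obtain ⟨k, hk⟩ := hV v
    have h2 : orderOf v ∣ Nat.gcd P.index (p ^ k) :=
      Nat.dvd_gcd (orderOf_dvd_of_pow_eq_one h1) (orderOf_dvd_of_pow_eq_one hk)
    rw [hcop k] at h2
    exact orderOf_eq_one_iff.1 (Nat.dvd_one.1 h2)
  · intro v hv
    obtain ⟨k, hk⟩ := hV (tr v)
    obtain ⟨n, hn⟩ : ∃ n : ℕ, (tr v) ^ (P.index * n) = tr v := by
      by_cases hk1 : 1 < p ^ k
      · obtain ⟨n, -, hn⟩ := Nat.exists_mul_mod_eq_one_of_coprime (hcop k) hk1
        refine ⟨n, ?_⟩
        conv_lhs => rw [← Nat.div_add_mod (P.index * n) (p ^ k)]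
        rw [pow_add, pow_mul, hk, one_pow, one_mul, hn, pow_one]
      · have hpk : p ^ k = 1 := by
          have := Nat.pos_of_ne_zero (pow_ne_zero k (Fact.out : p.Prime).ne_zero)
          omega
        rw [hpk, pow_one] at hk
        exact ⟨0, by rw [hk, one_pow]⟩
    have hw : ∀ a, ρ a ((tr v) ^ n) = (tr v) ^ n := by
      intro a; rw [map_pow, htr_inv v hv a]
    refine ⟨(tr v) ^ n, v * ((tr v) ^ n)⁻¹, hw, ⟨?_, ?_⟩, by simp⟩
    · intro a ha; rw [map_mul, map_inv, hv a ha, hw a]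
    · rw [map_mul, map_inv, map_pow, htr_fix (tr v) (htr_inv v hv), ← pow_mul, hn]
      exact mul_inv_cancel _

end Cfsg.Agent.Helper27
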