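import Cfsg.Agent.Helper27.SuperSol

set_option autoImplicit false

namespace Cfsg.Agent.Helper27

section UlmChain

variable (p : ℕ) (G : Type*) [CommGroup G]

/-- `Ω₁(G) ∩ G^{p^a}`. -/
def Usub (a : ℕ) : Subgroup G :=
  (powMonoidHom p : G →* G).ker ⊓ (powMonoidHom (p ^ a) : G →* G).range

variable {p G}

theorem mem_Usub {a : ℕ} {x : G} : x ∈ Usub p G a ↔ x ^ p = 1 ∧ ∃ y : G, y ^ (p ^ a) = x := by
  unfold Usub
  rw [Subgroup.mem_inf, MonoidHom.mem_ker, MonoidHom.mem_range]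
  rfl

variable (p G)

/-- The elements whose `p^k`-th power lies in `Ω₁(G) ∩ G^{p^(k+a)}`. -/
def Vsub (k a : ℕ) : Subgroup G := (Usub p G (k + a)).comap (powMonoidHom (p ^ k))

variable {p G}

theorem mem_Vsub {k a : ℕ} {s : G} : s ∈ Vsub p G k a ↔
    (s ^ (p ^ k)) ^ p = 1 ∧ ∃ y : G, y ^ (p ^ (k + a)) = s ^ (p ^ k) := by
  unfold Vsub
  rw [Subgroup.mem_comap, mem_Usub]
  rfl

theorem Vsub_zero (k : ℕ) : Vsub p G k 0 = (powMonoidHom (p ^ (k + 1)) : G →* G).ker := by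
  ext s
  rw [mem_Vsub, MonoidHom.mem_ker, powMonoidHom_apply, pow_succ, pow_mul]
  exact ⟨fun h => h.1, fun h => ⟨h, s, rfl⟩⟩

theorem Vsub_top (k N : ℕ) (hN : ∀ y : G, y ^ (p ^ N) = 1) :
    Vsub p G k N = (powMonoidHom (p ^ k) : G →* G).ker := by
  ext s
  rw [mem_Vsub, MonoidHom.mem_ker, powMonoidHom_apply]
  constructor
  · rintro ⟨-, y, hy⟩
    rw [← hy, pow_add, mul_comm, pow_mul, hN, one_pow]
  · intro h
    rw [h]
    exact ⟨one_pow _, 1, one_pow _⟩

variable (G) in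
/-- Fully invariant subgroups. -/
def FullyInv (T : Subgroup G) : Prop := ∀ f : G →* G, ∀ y ∈ T, f y ∈ T

variable (G) in
/-- Cyclic steps. -/
def CycR (T T' : Subgroup G) : Prop := ∃ x : G, T' = T ⊔ Subgroup.zpowers x

theorem Vsub_fullyInv (k a : ℕ) : FullyInv G (Vsub p G k a) := by
  intro f s hs
  rw [mem_Vsub] at hs ⊢
  obtain ⟨h1, y, hy⟩ := hs
  refine ⟨by rw [← map_pow, ← map_pow, h1, map_one], f y, by rw [← map_pow, hy, map_pow]⟩

theorem Vsub_step (k a : ℕ)
    (h : ∃ x : G, Usub p G (k + a) = Usub p G (k + a + 1) ⊔ Subgroup.zpowers x) :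
    CycR G (Vsub p G k (a + 1)) (Vsub p G k a) := by
  obtain ⟨x, hx⟩ := h
  have hxU : x ∈ Usub p G (k + a) := by
    rw [hx]; exact Subgroup.mem_sup_right (Subgroup.mem_zpowers x)
  obtain ⟨-, y, hy⟩ := mem_Usub.1 hxU
  have hz : (y ^ (p ^ a)) ^ (p ^ k) = x := by
    rw [← pow_mul, mul_comm, ← pow_add]; exact hy
  refine ⟨y ^ (p ^ a), ?_⟩
  apply le_antisymm
  · intro s hs
    have hs' : s ^ (p ^ k) ∈ Usub p G (k + a) := hs
    rw [hx, Subgroup.mem_sup] at hs'
    obtain ⟨u, hu, _, ⟨m, rfl⟩, hum⟩ := hs'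
    have e : s = (s * ((y ^ (p ^ a)) ^ m)⁻¹) * (y ^ (p ^ a)) ^ m := by group
    rw [e]
    refine mul_mem (Subgroup.mem_sup_left ?_)
      (Subgroup.mem_sup_right (zpow_mem (Subgroup.mem_zpowers _) m))
    show (s * ((y ^ (p ^ a)) ^ m)⁻¹) ^ (p ^ k) ∈ Usub p G (k + (a + 1))
    have e2 : (s * ((y ^ (p ^ a)) ^ m)⁻¹) ^ (p ^ k) = u := by
      rw [mul_pow, inv_pow, ← zpow_natCast ((y ^ (p ^ a)) ^ m), ← zpow_mul, mul_comm m,
        zpow_mul, zpow_natCast, hz, ← hum, mul_inv_cancel_right]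
    rw [e2]
    exact hu
  · apply sup_le
    · intro s hs
      have hs' : s ^ (p ^ k) ∈ Usub p G (k + (a + 1)) := hs
      show s ^ (p ^ k) ∈ Usub p G (k + a)
      rw [hx]
      exact Subgroup.mem_sup_left hs'
    · rw [Subgroup.zpowers_le]
      show (y ^ (p ^ a)) ^ (p ^ k) ∈ Usub p G (k + a)
      rw [hz]; exact hxU

theorem char_chain [Finite G] [Fact p.Prime] (hG : IsPGroup p G)
    (hP : ∀ a, ∃ x : G, Usub p G a = Usub p G (a + 1) ⊔ Subgroup.zpowers x) :
    ChainTo (FullyInv G) (CycR G) ⊥ ⊤ := by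
  obtain ⟨N, hN⟩ := IsPGroup.iff_card.1 hG
  have hpow : ∀ y : G, y ^ (p ^ N) = 1 := fun y => by rw [← hN]; exact pow_card_eq_one'
  have hk : ∀ k, ChainTo (FullyInv G) (CycR G) ⊥ (powMonoidHom (p ^ k) : G →* G).ker := by
    intro k
    induction k with
    | zero =>
      have : (powMonoidHom (p ^ 0) : G →* G).ker = ⊥ := by
        ext s
        rw [MonoidHom.mem_ker, powMonoidHom_apply, pow_zero, pow_one, Subgroup.mem_bot]
      rw [this]
      exact chainTo_refl (fun f y hy => by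
        rw [Subgroup.mem_bot] at hy ⊢; rw [hy, map_one])
    | succ k ih =>
      have hj : ∀ j, j ≤ N → ChainTo (FullyInv G) (CycR G) ⊥ (Vsub p G k (N - j)) := by
        intro j
        induction j with
        | zero =>
          intro _
          rw [Nat.sub_zero, Vsub_top k N hpow]; exact ih
        | succ j ihj =>
          intro hjN
          have h1 := ihj (by omega)
          have e : N - j = (N - (j + 1)) + 1 := by omega
          rw [e] at h1
          exact chainTo_snoc h1 (Vsub_fullyInv k _) (Vsub_step k _ (hP _))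
      have h2 := hj N le_rfl
      rw [Nat.sub_self, Vsub_zero] at h2
      exact h2
  have h3 := hk N
  have : (powMonoidHom (p ^ N) : G →* G).ker = ⊤ := by
    ext s
    rw [MonoidHom.mem_ker, powMonoidHom_apply]
    exact ⟨fun _ => Subgroup.mem_top s, fun _ => hpow s⟩
  rw [this] at h3
  exact h3

/-- Transport of the cyclic-step property of the `Usub` chain along an isomorphism. -/
theorem usub_transfer {G' : Type*} [CommGroup G'] (e : G ≃* G')
    (hP : ∀ a, ∃ x : G', Usub p G' a = Usub p G' (a + 1) ⊔ Subgroup.zpowers x) :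
    ∀ a, ∃ x : G, Usub p G a = Usub p G (a + 1) ⊔ Subgroup.zpowers x := by
  have hmem : ∀ a (s : G), s ∈ Usub p G a ↔ e s ∈ Usub p G' a := by
    intro a s
    rw [mem_Usub, mem_Usub]
    constructor
    · rintro ⟨h1, y, hy⟩
      exact ⟨by rw [← map_pow, h1, map_one], e y, by rw [← map_pow, hy]⟩
    · rintro ⟨h1, y, hy⟩
      refine ⟨?_, e.symm y, ?_⟩
      · apply e.injective; rw [map_pow, h1, map_one]
      · apply e.injective; rw [map_pow, MulEquiv.apply_symm_apply, hy]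
  intro a
  obtain ⟨x, hx⟩ := hP a
  refine ⟨e.symm x, ?_⟩
  ext s
  rw [hmem, hx, Subgroup.mem_sup, Subgroup.mem_sup]
  constructor
  · rintro ⟨u, hu, _, ⟨m, rfl⟩, hum⟩
    refine ⟨e.symm u, (hmem _ _).2 (by rw [MulEquiv.apply_symm_apply]; exact hu), (e.symm x) ^ m,
      zpow_mem (Subgroup.mem_zpowers _) m, ?_⟩
    apply e.injective
    rw [map_mul, map_zpow, MulEquiv.apply_symm_apply, MulEquiv.apply_symm_apply, hum]
  · rintro ⟨u, hu, _, ⟨m, rfl⟩, hum⟩
    refine ⟨e u, (hmem _ _).1 hu, x ^ m, zpow_mem (Subgroup.mem_zpowers _) m, ?_⟩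
    rw [← hum, map_mul, map_zpow, MulEquiv.apply_symm_apply]

end UlmChain

end Cfsg.Agent.Helper27
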