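import Cfsg.Agent.Helper27.Ulm

set_option autoImplicit false

namespace Cfsg.Agent.Helper27

section Model

variable (p : ℕ) [Fact p.Prime]

theorem zfac_pow_eq_one {e a : ℕ} (h : e ≤ a) (c : Multiplicative (ZMod (p ^ e))) :
    c ^ (p ^ a) = 1 := by
  apply Multiplicative.toAdd.injective
  rw [toAdd_pow, toAdd_one]
  have h1 : ((p ^ a : ℕ) : ZMod (p ^ e)) = 0 := by
    rw [ZMod.natCast_eq_zero_iff]
    exact pow_dvd_pow p h
  rw [nsmul_eq_mul, h1, zero_mul]

theorem zfac_root {e a : ℕ} (h : a + 2 ≤ e) (c : Multiplicative (ZMod (p ^ e)))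
    (hc : c ^ (p ^ (a + 1)) = 1) : ∃ d : Multiplicative (ZMod (p ^ e)), d ^ p = c := by
  have hne : NeZero (p ^ e) := ⟨pow_ne_zero e (Fact.out : p.Prime).ne_zero⟩
  have h1 : (p ^ (a + 1)) • (Multiplicative.toAdd c) = 0 := by
    have := congrArg Multiplicative.toAdd hc
    rwa [toAdd_pow, toAdd_one] at this
  have h2 : ((p ^ (a + 1) * (Multiplicative.toAdd c).val : ℕ) : ZMod (p ^ e)) = 0 := by
    rw [Nat.cast_mul, ZMod.natCast_zmod_val, ← nsmul_eq_mul]; exact h1
  rw [ZMod.natCast_eq_zero_iff] at h2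
  have h3 : p ∣ (Multiplicative.toAdd c).val := by
    have e1 : p ^ e = p ^ (a + 1) * p ^ (e - (a + 1)) := by
      rw [← pow_add]; congr 1; omega
    have h2' : p ^ (a + 1) * p ^ (e - (a + 1)) ∣ p ^ (a + 1) * (Multiplicative.toAdd c).val := by
      rw [← e1]; exact h2
    have h4 := Nat.dvd_of_mul_dvd_mul_left (pow_pos (Fact.out : p.Prime).pos _) h2'
    exact dvd_trans (dvd_pow_self p (by omega)) h4
  obtain ⟨t, ht⟩ := h3
  refine ⟨Multiplicative.ofAdd (t : ZMod (p ^ e)), ?_⟩
  apply Multiplicative.toAdd.injective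
  rw [toAdd_pow, toAdd_ofAdd, nsmul_eq_mul, ← Nat.cast_mul, ← ht, ZMod.natCast_zmod_val]

theorem zfac_gen {e : ℕ} (c : Multiplicative (ZMod (p ^ e))) :
    ∃ m : ℕ, c = (Multiplicative.ofAdd (1 : ZMod (p ^ e))) ^ m := by
  have hne : NeZero (p ^ e) := ⟨pow_ne_zero e (Fact.out : p.Prime).ne_zero⟩
  refine ⟨(Multiplicative.toAdd c).val, ?_⟩
  apply Multiplicative.toAdd.injective
  rw [toAdd_pow, toAdd_ofAdd, nsmul_eq_mul, mul_one, ZMod.natCast_zmod_val]

theorem zfac_gen_pow {e : ℕ} : (Multiplicative.ofAdd (1 : ZMod (p ^ e))) ^ (p ^ e) = 1 := by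
  apply Multiplicative.toAdd.injective
  rw [toAdd_pow, toAdd_ofAdd, nsmul_eq_mul, mul_one, toAdd_one, ZMod.natCast_self]

theorem model_usub {ι : Type} (k : ι → ℕ) (hk : Function.Injective k) (a : ℕ) :
    ∃ x : (∀ i, Multiplicative (ZMod (p ^ k i))),
      Usub p (∀ i, Multiplicative (ZMod (p ^ k i))) a =
        Usub p (∀ i, Multiplicative (ZMod (p ^ k i))) (a + 1) ⊔ Subgroup.zpowers x := by
  classical
  let gen : ∀ i, Multiplicative (ZMod (p ^ k i)) := fun i => Multiplicative.ofAdd 1
  let y0 : ∀ i, Multiplicative (ZMod (p ^ k i)) := fun i => if k i = a + 1 then gen i else 1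
  refine ⟨y0 ^ (p ^ a), ?_⟩
  have hx : y0 ^ (p ^ a) ∈ Usub p (∀ i, Multiplicative (ZMod (p ^ k i))) a := by
    rw [mem_Usub]
    refine ⟨?_, y0, rfl⟩
    funext i
    show ((y0 i) ^ (p ^ a)) ^ p = 1
    by_cases h : k i = a + 1
    · have : y0 i = gen i := if_pos h
      rw [this, ← pow_mul, ← pow_succ, ← h]; exact zfac_gen_pow p
    · have : y0 i = 1 := if_neg h
      rw [this, one_pow, one_pow]
  apply le_antisymm
  · intro f hf
    obtain ⟨hf1, g, hg⟩ := mem_Usub.1 hf
    let f' : ∀ i, Multiplicative (ZMod (p ^ k i)) := fun i => if k i = a + 1 then 1 else f i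
    let z : ∀ i, Multiplicative (ZMod (p ^ k i)) := fun i => if k i = a + 1 then f i else 1
    have hf'1 : ∀ i, k i = a + 1 → f' i = 1 := fun i h => if_pos h
    have hf'2 : ∀ i, k i ≠ a + 1 → f' i = f i := fun i h => if_neg h
    have hz1 : ∀ i, k i = a + 1 → z i = f i := fun i h => if_pos h
    have hz2 : ∀ i, k i ≠ a + 1 → z i = 1 := fun i h => if_neg h
    have hfz : f = f' * z := by
      funext i
      show f i = f' i * z i
      by_cases h : k i = a + 1
      · rw [hf'1 i h, hz1 i h, one_mul]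
      · rw [hf'2 i h, hz2 i h, mul_one]
    have hfi : ∀ i, (f i) ^ p = 1 := fun i => congrFun hf1 i
    have hgi' : ∀ i, (g i) ^ (p ^ a) = f i := fun i => congrFun hg i
    rw [hfz]
    refine mul_mem (Subgroup.mem_sup_left ?_) (Subgroup.mem_sup_right ?_)
    · rw [mem_Usub]
      have hgi : ∀ i, (g i) ^ (p ^ (a + 1)) = 1 := by
        intro i
        rw [pow_succ, pow_mul, hgi' i]
        exact hfi i
      have hroot : ∀ i, a + 2 ≤ k i → ∃ d : Multiplicative (ZMod (p ^ k i)), d ^ p = g i :=
        fun i hi => zfac_root p hi (g i) (hgi i)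
      refine ⟨?_, fun i => if hi : a + 2 ≤ k i then Classical.choose (hroot i hi) else 1, ?_⟩
      · funext i
        show (f' i) ^ p = 1
        by_cases h : k i = a + 1
        · rw [hf'1 i h, one_pow]
        · rw [hf'2 i h]; exact hfi i
      · funext i
        show (if hi : a + 2 ≤ k i then Classical.choose (hroot i hi) else 1) ^ (p ^ (a + 1)) = f' i
        by_cases hi : a + 2 ≤ k i
        · rw [dif_pos hi]
          have hne : k i ≠ a + 1 := by omega
          rw [hf'2 i hne, pow_succ', pow_mul, Classical.choose_spec (hroot i hi)]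
          exact hgi' i
        · rw [dif_neg hi, one_pow]
          by_cases h : k i = a + 1
          · rw [hf'1 i h]
          · rw [hf'2 i h]
            have hle : k i ≤ a := by omega
            rw [← hgi' i]
            exact (zfac_pow_eq_one p hle (g i)).symm
    · by_cases hex : ∃ i0, k i0 = a + 1
      · obtain ⟨i0, hi0⟩ := hex
        obtain ⟨m, hm⟩ := zfac_gen p (g i0)
        refine ⟨(m : ℤ), ?_⟩
        funext i
        show ((y0 ^ (p ^ a)) ^ (m : ℤ)) i = z i
        rw [zpow_natCast]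
        show ((y0 i) ^ (p ^ a)) ^ m = z i
        by_cases h : k i = a + 1
        · have hii : i = i0 := hk (h.trans hi0.symm)
          subst hii
          have e1 : y0 i = gen i := if_pos h
          rw [e1, hz1 i h, ← hgi' i, hm, ← pow_mul, ← pow_mul, mul_comm]
        · have e1 : y0 i = 1 := if_neg h
          rw [e1, hz2 i h, one_pow, one_pow]
      · have hz1' : z = 1 := by
          funext i
          exact hz2 i (fun h => hex ⟨i, h⟩)
        rw [hz1']; exact one_mem _
  · apply sup_le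
    · intro f hf
      obtain ⟨hf1, g, hg⟩ := mem_Usub.1 hf
      exact mem_Usub.2 ⟨hf1, g ^ p, by rw [← pow_mul, ← pow_succ']; exact hg⟩
    · rw [Subgroup.zpowers_le]; exact hx

end Model

theorem split_two {ι : Type} [DecidableEq ι] (M : ι → Type) [∀ i, CommGroup (M i)] (i j : ι)
    (hij : i ≠ j) :
    Nonempty ((∀ l, M l) ≃* (M i × M j) × (∀ l : {l : ι // l ≠ i ∧ l ≠ j}, M l.1)) := by
  refine ⟨{ toFun := fun f => ((f i, f j), fun l => f l.1)
            invFun := fun g l => if h : l = i then h ▸ g.1.1 else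
              if h' : l = j then h' ▸ g.1.2 else g.2 ⟨l, h, h'⟩
            left_inv := ?_
            right_inv := ?_
            map_mul' := fun f g => rfl }⟩
  · intro f
    funext l
    by_cases h : l = i
    · subst h; simp
    · by_cases h' : l = j
      · subst h'; simp [h]
      · simp [h, h']
  · rintro ⟨⟨a, b⟩, c⟩
    refine Prod.ext (Prod.ext ?_ ?_) ?_
    · simp
    · simp [hij.symm]
    · funext l; simp [l.2.1, l.2.2]

theorem abelian_usub {G : Type*} [CommGroup G] [Finite G] (p : ℕ) [Fact p.Prime]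
    (hG : IsPGroup p G)
    (hno : ¬ ∃ (n : ℕ) (H : Type) (_ : CommGroup H), 0 < n ∧
      Nonempty (G ≃* (Multiplicative (ZMod (p ^ n)) × Multiplicative (ZMod (p ^ n))) × H)) :
    ∀ a, ∃ x : G, Usub p G a = Usub p G (a + 1) ⊔ Subgroup.zpowers x := by
  classical
  obtain ⟨ι, _, n, hn, ⟨e⟩⟩ := CommGroup.equiv_prod_multiplicative_zmod_of_finite G
  obtain ⟨N, hN⟩ := IsPGroup.iff_card.1 hG
  have hk : ∀ i, ∃ m, n i = p ^ m := by
    intro i
    have hinj : Function.Injective (e.symm.toMonoidHom.comp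
        (MonoidHom.mulSingle (fun i => Multiplicative (ZMod (n i))) i)) := by
      intro x y hxy
      exact Pi.mulSingle_injective i (e.symm.injective hxy)
    have hdvd := Subgroup.card_dvd_of_injective _ hinj
    rw [hN] at hdvd
    have hc : Nat.card (Multiplicative (ZMod (n i))) = n i := by
      rw [Nat.card_congr Multiplicative.toAdd, Nat.card_zmod]
    rw [hc] at hdvd
    obtain ⟨m, -, hm⟩ := (Nat.dvd_prime_pow Fact.out).1 hdvd
    exact ⟨m, hm⟩
  choose k hk' using hk
  have hnk : n = fun i => p ^ k i := funext hk'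
  subst hnk
  have hkinj : Function.Injective k := by
    intro i j hij
    by_contra hne
    obtain ⟨e2⟩ := split_two (fun l => Multiplicative (ZMod (p ^ k l))) i j hne
    have h1 : Nonempty (G ≃* (Multiplicative (ZMod (p ^ k i)) × Multiplicative (ZMod (p ^ k j))) ×
        (∀ l : {l : ι // l ≠ i ∧ l ≠ j}, Multiplicative (ZMod (p ^ k l.1)))) := ⟨e.trans e2⟩
    rw [← hij] at h1
    have hpos : 0 < k i := by
      by_contra h0
      have h0' : k i = 0 := by omega
      have h2 := hn i
      simp only [h0', pow_zero] at h2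
      exact lt_irrefl _ h2
    exact hno ⟨k i, _, inferInstance, hpos, h1⟩
  exact usub_transfer e (model_usub p k hkinj)

end Cfsg.Agent.Helper27
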